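import Cfsg.Agent.Lib.B2C.Def
import Cfsg.Agent.Lib.Loc.FrakM

/-! Basic facts on the class of `t`. -/

set_option autoImplicit false

namespace Cfsg.Lib.B2C

open Subgroup Cfsg.Lib.BG Cfsg.Lib.Transfer Cfsg.Lib.Loc Cfsg.Lib.PLocal Cfsg.Lib.CGT Cfsg.Lib.PU
open Cfsg.Lib.CS Cfsg.Lib.Root Cfsg.Lib.Core Cfsg.Lib.GC
open scoped commutatorElement

variable {G : Type*} [Group G] [Finite G] {S U C K X P M L : Subgroup G} {t d g x : G}

omit [Finite G] in
theorem pg_zp (h : x * x = 1) : IsPGroup 2 (zpowers x) := PGroup.elemAb_isPGroup (el_zp h)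

namespace Hy

omit [Finite G] in
theorem conj (h : Hy t S) (g : G) : Hy (g * t * g⁻¹) (g ⋆ S) :=
  ⟨by simp [mul_assoc, ← mul_assoc t, h.t2], fun e => h.t1 (by simpa using e), h.syl.conj_mem trivial,
    conj_cent1 g t ▸ conj_mono g h.cen, by
      rw [← conj_cent1, ← conj_normalizer]; exact conj_mono g h.nrm⟩

omit [Finite G] in
theorem pg (h : Hy t S) : IsPGroup 2 S := h.syl.2.1

/-- 2-subgroups of `C(t)` lie in the normal Sylow subgroup. -/
theorem le (h : Hy t S) (hU : IsPGroup 2 U) (h1 : U ≤ 𝐂[t]) : U ≤ S :=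
  le_sup_right.trans (h.syl.eq_of_le (pgroup_sup h.pg hU (h1.trans h.nrm)) le_top le_sup_left).ge

theorem mem_of_sq (h : Hy t S) (h1 : x * x = 1) (h2 : x * t = t * x) : x ∈ S :=
  zpowers_le.1 (h.le (pg_zp h1) (zpowers_le.2 (mem_cent1.2 h2)))

theorem mem (h : Hy t S) : t ∈ S := h.mem_of_sq h.t2 rfl

theorem unique (h : Hy t S) (h' : Hy t U) : S = U := le_antisymm (h'.le h.pg h.cen) (h.le h'.pg h'.cen)

omit [Finite G] in
theorem exists_of_isConj (h : Hy t S) (hd : IsConj t d) : ∃ U, Hy d U :=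
  let ⟨g, e⟩ := isConj_iff.1 hd
  ⟨_, e ▸ h.conj g⟩

/-- Every 2-subgroup lies in some conjugate. -/
theorem exists_ge (h : Hy t S) (hU : IsPGroup 2 U) : ∃ g, U ≤ g ⋆ S :=
  let ⟨g, _, e⟩ := SylIn.exists_le h.syl hU le_top
  ⟨g, e⟩

/-- Burnside: conjugates of `t` central in `S` are conjugate in `N(S)`. -/
theorem burnside (h : Hy t S) (h1 : S ≤ 𝐂[g * t * g⁻¹]) : g ∈ 𝐍(S) :=
  norm_of_conj_eq (h.syl.eq_of_le (h.conj g).pg le_top ((h.conj g).le h.pg h1)).symm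

/-- `C(t)` is 2-closed. -/
theorem le_core (h : Hy t S) (h1 : 𝐑 X ≤ 𝐂[t]) (hU : IsPGroup 2 U) (h2 : U ≤ X) (h3 : U ≤ 𝐂[t]) :
    U ≤ 𝐐 X := by
  have a : 𝐑 X ⊔ U ≤ X := sup_le (res_le 2 X) h2
  exact (Loc.le_core inf_le_right (norm_inf ((sup_le h1 h3).trans h.nrm) (le_norm _)) h.pg.to_inf_left).trans'
    (le_inf (h.le hU h3) le_sup_right) |>.trans ((core_eq_inf_of_subnormal a
      (subnormal_of_res_le le_sup_left a).isSubnormal_subgroupOf).le.trans inf_le_left)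

/-- A conjugate of `t` that centralizes `O²(X)` centralizes no 2-element outside `O₂(X)`. -/
theorem not_cent (h : Hy t S) (hd : IsConj t d) (hr : Rk0 2 P M X) (hx : x ∈ P) (h0 : x ∉ 𝐐 X)
    (h1 : x * d = d * x) : d ∉ 𝐂(𝐑 X) := fun e =>
  let ⟨_, k⟩ := h.exists_of_isConj hd
  h0 (zpowers_le.1 (k.le_core (le_cent1_iff.2 e) (hr.pmin.pgroup.to_le (zpowers_le.2 hx))
    (zpowers_le.2 (hr.le hx)) (zpowers_le.2 (mem_cent1.2 h1))))

theorem not_cent' (h : Hy t S) (hd : IsConj t d) (hr : Rk0 2 P M X) (h1 : d ∈ 𝐂(P)) : d ∉ 𝐂(𝐑 X) :=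
  let ⟨x, hx, h0⟩ := SetLike.not_le_iff_exists.1 hr.not_le_core
  h.not_cent hd hr hx h0 (BG.mem_cent.1 h1 x hx)

theorem res_cent (h : Hy t S) (k : Hy d U) (c : d * t = t * d) : 𝐑 𝐂(S) ≤ 𝐑 𝐂(U) := by
  rw [← res_res]
  refine res_mono (res_le_centralizer_of_pq (Z := U ⊓ S) k.pg (le_norm_of_le inf_le_left)
    ((cent_le_cent1 (h.mem_of_sq k.t2 c)).trans k.nrm) (norm_of_cent (cent_anti inf_le_right))
    ((res_eq_bot_iff.2 k.pg.to_inf_left).le.trans bot_le) ?_ ((res_le 2 _).trans (cent_anti (h.le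
      k.pg.to_inf_left (inf_le_right.trans (cent_le_cent1 ⟨k.mem_of_sq h.t2 c.symm, h.mem⟩))))))
  rw [comm_eq_bot_iff'.2 ((res_le 2 _).trans (cent_anti inf_le_right))]
  exact bot_le

theorem ct_or_ho (h : Hy t S) (a : As t L) : Ct t S ∨ Ho t S := by
  by_cases e : 𝐑 𝐂(S) = ⊥
  · exact .inl ⟨h, h.le (res_eq_bot_iff.1 e) (cent_le_cent1 h.mem)⟩
  have n : 𝐍(S) ≤ 𝐍(𝐑 𝐂(S)) := (norm_cent le_rfl).trans (normalizer_le_normalizer_res 2 _)
  refine .inr ⟨_, fun b => ?_, n, fun g hg => ?_⟩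
  · have := normalizer_eq_top_iff.1 b
    have := a.nml
    have := a.sim
    rcases (inferInstance : ((𝐑 𝐂(S)).subgroupOf L).Normal).eq_bot_or_eq_top with c | c
    · exact e (eq_bot_mono a.cen (cent_of_norm_of_disjoint le_normalizer_of_normal
        le_normalizer_of_normal (disjoint_iff.1 (subgroupOf_eq_bot.1 c))))
    · exact h.t1 (mem_bot.1 (a.cen.le (le_cent1_iff.1 ((subgroupOf_eq_top.1 c).trans
        ((res_le 2 _).trans (cent_le_cent1 h.mem))))))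
  · obtain ⟨m, hm, b⟩ := SylIn.exists_le (h.syl.of_le ((le_norm S).trans n) le_top)
      (pg_zp (h.conj g).t2) (zpowers_le.2 hg)
    have k := h.conj (m⁻¹ * g)
    have c : m⁻¹ * g * t * (m⁻¹ * g)⁻¹ * t = t * (m⁻¹ * g * t * (m⁻¹ * g)⁻¹) :=
      mem_cent1.1 (h.cen (by simpa [mul_assoc] using Transfer.mem_conj.1 (zpowers_le.1 b)))
    have := le_antisymm (k.res_cent h c.symm) (h.res_cent k c)
    rw [← conj_centralizer, ← conj_res] at this
    simpa using mul_mem hm (norm_of_conj_eq this)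

end Hy

omit [Finite G] in
theorem As.le_of_normal (a : As t L) [K.Normal] (h : K ≠ ⊥) : L ≤ K := by
  have := a.nml
  have := a.sim
  refine subgroupOf_eq_top.1 ((inferInstance : (K.subgroupOf L).Normal).eq_bot_or_eq_top.resolve_left
    fun c => h (eq_bot_mono a.cen (cent_of_norm_of_disjoint le_normalizer_of_normal
      le_normalizer_of_normal (disjoint_iff.1 (subgroupOf_eq_bot.1 c)))))

theorem As.not_pg (a : As t L) : ¬ IsPGroup 2 L := fun h =>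
  have := a.sim
  have := pgroup_sol h
  a.nab ⟨⟨IsSimpleGroup.comm_iff_isSolvable.2 this⟩⟩

theorem As.eq_bot (a : As t L) (_h2 : t * t = 1) (hU : IsPGroup 2 U) (h : L ≤ 𝐍(U)) (ht : t ∈ 𝐍(U)) :
    U = ⊥ := by_contra fun e =>
  have := normal_of_top_le_normalizer (a.sup.ge.trans (sup_le h (zpowers_le.2 ht)))
  a.not_pg (hU.to_le (a.le_of_normal e))

theorem As.res_le (a : As t L) (h2 : t * t = 1) (X : Subgroup G) : 𝐑 X ≤ L :=
  have := a.nml
  res_le_of_le_sup (pg_zp h2) le_normalizer_of_normal (le_top.trans (sup_comm L _ ▸ a.sup.ge))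

omit [Finite G] in
theorem Gd.conj (h : Gd K) (g : G) : Gd (g ⋆ K) := by
  rw [Gd, ← conj_core, ← conj_centralizer]; exact conj_mono g h

omit [Finite G] in
theorem Gd.chp (h : Gd K) : IsChP 2 K := inf_le_right.trans h

theorem Bk.conj (h : Bk P X) (g : G) : Bk (g ⋆ P) (g ⋆ X) :=
  ⟨h.toFF.conj g, h.gd.conj g, by rw [← conj_baum, h.bm], fun K Y a b c d e => by
    rw [← conj_inj (g := g⁻¹), conj_baum, inv_conj_conj]
    exact h.wc _ _ (a.conj g⁻¹) (inv_conj_conj g X ▸ conj_mono g⁻¹ b) (isPGroup_conj c _)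
      (inv_conj_conj g P ▸ conj_mono g⁻¹ d) (conj_mono _ e)⟩

theorem Bk.cent (h : Bk P X) : 𝐂(P) ≤ 𝐐 X := (cent_anti h.core_le).trans h.gd

namespace Ct

omit [Finite G] in
theorem conj (h : Ct t S) (g : G) : Ct (g * t * g⁻¹) (g ⋆ S) :=
  ⟨h.toHy.conj g, conj_centralizer g S ▸ conj_mono g h.cs⟩

theorem centric (h : Ct t S) (h1 : U ≤ S) (h2 : S ⊓ 𝐂(U) ≤ U) : 𝐂(U) ≤ U := by
  have c := cent_le_cent1 (h2 ⟨h.mem, le_cent1_iff.1 (h1.trans h.cen)⟩)
  refine (le_inf (h.le (Loc.isPGroup_of_res_le h.pg (le_trans (res_le_centralizer_of_pq (Z := U) h.pg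
    (le_norm_of_le h1) (c.trans h.nrm) (cent_le_norm U) ((res_eq_bot_iff.2 (h.pg.to_le h1)).le.trans bot_le)
    ?_ ((res_le 2 _).trans (cent_anti h2))) h.cs)) c) le_rfl).trans h2
  rw [comm_eq_bot_iff'.2 (res_le 2 _)]
  exact bot_le

theorem gd_norm (h : Ct t S) (h1 : C ≤ S) (h2 : t ∈ C) : Gd 𝐍(C) := by
  have a : C ⊔ S ⊓ 𝐂(C) ≤ 𝐐 𝐍(C) := sup_le (Loc.le_core (le_norm C) le_rfl (h.pg.to_le h1))
    ((Loc.le_core inf_le_right (norm_inf ((cent_le_cent1 h2).trans h.nrm) (le_norm _))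
      h.pg.to_inf_left).trans (core_le_of_le_normalizer (cent_le_norm C) (norm_cent le_rfl)))
  exact (cent_anti a).trans ((h.centric (sup_le h1 inf_le_left)
    ((inf_le_inf_left S (cent_anti le_sup_left)).trans le_sup_right)).trans a)

theorem gd_norm' (h : Ct t S) (hd : IsConj t d) (hC : IsPGroup 2 C) (h1 : d ∈ C) (h2 : C ≤ 𝐂[d]) :
    Gd 𝐍(C) := by
  obtain ⟨g, rfl⟩ := isConj_iff.1 hd
  exact (h.conj g).gd_norm ((h.conj g).le hC h2) h1

theorem mem_Y (h : Ct t S) (b : Bk P X) (hP : P ≤ S) : t ∈ 𝐘 X ⊓ 𝐂(P) :=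
  have c := le_cent1_iff.1 (hP.trans h.cen)
  ⟨mem_oz.2 ⟨⟨b.cent c, cent_anti b.core_le c⟩, by rw [sq, h.t2]⟩, c⟩

theorem not_mem_cent (h : Ct t S) (b : Bk P X) (hd : IsConj t d) (h1 : d ∈ 𝐂(P)) : d ∉ 𝐂(𝐑 X) :=
  b.rk.elim fun _ r => h.not_cent' hd r h1

theorem t_not (h : Ct t S) (b : Bk P X) (hP : P ≤ S) : t ∉ 𝐂(𝐑 X) :=
  h.not_mem_cent b (.refl t) (h.mem_Y b hP).2

end Ct

theorem exists_big {A B B₁ : Subgroup G} (hB : IsElementaryAbelian 2 B) (hA : IsElementaryAbelian 2 A)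
    (_h1 : B₁ ≤ B) (h2 : ∀ b ∈ B, b ∉ B₁ → b ⋆ A ≤ K ⊓ 𝐂(A)) (h3 : C ≤ B ⊓ K ⊓ 𝐂(A)) :
    ∃ D, IsElementaryAbelian 2 D ∧ A ≤ D ∧ D ≤ C ⊔ ncl A B ∧
      Nat.card C * K.relIndex A ^ B₁.relIndex B ≤ Nat.card D := by
  classical
  have := Fintype.ofFinite (B ⧸ B₁.subgroupOf B)
  let r : B ⧸ B₁.subgroupOf B → G := fun i => ((((1 : B) : B ⧸ B₁.subgroupOf B).out⁻¹ * i.out : B) : G)
  have rB : ∀ i, r i ∈ B := fun i => Subtype.property _
  have rn : ∀ i j, i ≠ j → (r i)⁻¹ * r j ∉ B₁ := fun i j n e => n (by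
    rw [← QuotientGroup.out_eq' i, ← QuotientGroup.out_eq' j, QuotientGroup.eq, mem_subgroupOf]
    simpa [r, mul_assoc] using e)
  have hC := h3.trans (inf_le_left.trans inf_le_left)
  have key : ∀ s : Finset (B ⧸ B₁.subgroupOf B), IsElementaryAbelian 2 (C ⊔ ⨆ i ∈ s, r i ⋆ A) ∧
      Nat.card C * K.relIndex A ^ s.card ≤ Nat.card ↥(C ⊔ ⨆ i ∈ s, r i ⋆ A) := fun s => by
    induction s using Finset.induction_on with
    | empty => simpa using PGroup.elemAb_of_le hB hC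
    | insert j s hj ih =>
      have a : C ⊔ ⨆ i ∈ s, r i ⋆ A ≤ r j ⋆ (K ⊓ 𝐂(A)) := sup_le (by
        rw [← conj_eq_of_cent (abelian_cent' hB.1 le_rfl hC (rB j))]
        exact conj_mono _ (le_inf (h3.trans (inf_le_left.trans inf_le_right)) (h3.trans inf_le_right)))
        (iSup₂_le fun i hi => by
          rw [← mul_inv_cancel_left (r j) (r i), ← Transfer.conj_conj]
          exact conj_mono _ (h2 _ (mul_mem (inv_mem (rB j)) (rB i)) (rn j i fun e => hj (e ▸ hi))))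
      rw [conj_inf, conj_centralizer] at a
      have c := a.trans inf_le_right
      rw [Finset.iSup_insert, sup_left_comm, sup_comm, Finset.card_insert_of_notMem hj]
      refine ⟨PGroup.elemAb_sup ih.1 (PGroup.elemAb_map _ hA) c, ?_⟩
      rw [← BG.card_mul_relIndex (le_sup_left (b := r j ⋆ A)), sup_comm _ (r j ⋆ A),
        relIndex_sup_of_le_normalizer (norm_of_cent (cent_symm c)), pow_succ, ← mul_assoc]
      exact Nat.mul_le_mul ih.2 ((relIndex_conj (r j) K A).ge.trans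
        (relIndex_le_of_le_left (a.trans inf_le_left) index_ne_zero_of_finite))
  refine ⟨_, (key Finset.univ).1, le_sup_of_le_right (le_iSup₂_of_le ((1 : B) : B ⧸ B₁.subgroupOf B)
    (Finset.mem_univ _) (by simp only [r, inv_mul_cancel, OneMemClass.coe_one, conj_one, le_refl])), sup_le_sup_left (iSup₂_le fun i _ =>
      conj_le_ncl _ (rB i)) _, ?_⟩
  rw [relIndex.eq_1 B₁, index_eq_card, Nat.card_eq_fintype_card (α := _ ⧸ _)]
  exact (key Finset.univ).2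

end Cfsg.Lib.B2C
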