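import Cfsg.Agent.Lib.B2C.CM

/-! Linked pairs with `q > 2`. -/

set_option autoImplicit false

namespace Cfsg.Lib.B2C

open Subgroup Cfsg.Lib.BG Cfsg.Lib.Transfer Cfsg.Lib.Loc Cfsg.Lib.PLocal Cfsg.Lib.CGT Cfsg.Lib.PU
open Cfsg.Lib.CS Cfsg.Lib.Root Cfsg.Lib.Core Cfsg.Lib.GC
open scoped commutatorElement MatrixGroups
variable {G : Type*} [Group G] [Finite G] {B P S X X' : Subgroup G} {t b : G}

omit [Finite G] in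
/-- Elements which normalize the data act semilinearly on the line. -/
theorem hf_sig {F : Type} [Field F] [Finite F] {A D L Q : Subgroup G} {s : Sec SL(2, F) (Fin 2 → F) L A D} (h : Hf P Q s)
    (h1 : b ∈ 𝐍(A)) (h2 : b ∈ 𝐍(P)) (h3 : b ∈ 𝐍(D)) :
    ∃ (σ : RingAut F) (k : F), ∀ c ∈ A ⊓ 𝐂(P), s.ψ (b * c * b⁻¹) 0 = k * σ (s.ψ c 0) := by
  have n : b ∈ 𝐍(A ⊓ 𝐂(P)) := zpowers_le.1 (norm_inf (zpowers_le.2 h1) (norm_cent (zpowers_le.2 h2)))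
  have ad : ∀ {x y}, x ∈ A → y ∈ A → s.ψ (x * y) 0 = s.ψ x 0 + s.ψ y 0 := fun a c => congrFun (s.add _ a _ c) 0
  choose f f1 f2 using h.exists_C
  have k : ∀ c ∈ A ⊓ 𝐂(P), s.ψ (b * c * b⁻¹) 0 = s.ψ (b * f (s.ψ c 0) * b⁻¹) 0 := fun c hc => by
    have e : (f (s.ψ c 0))⁻¹ * c ∈ D := (h.mem_D (mul_mem (inv_mem (f1 _)) hc)).2 (by
      rw [ad (A.inv_mem (f1 _).1) hc.1, s.psi_inv (f1 _).1, Pi.neg_apply, f2, neg_add_cancel])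
    rw [← mul_inv_cancel_left (f (s.ψ c 0)) c, conj_mul', ad (conj_mem_of_norm h1 (f1 _).1)
      (s.le (conj_mem_of_norm h3 e)), s.psi_eq_zero (conj_mem_of_norm h3 e), mul_inv_cancel_left]
    exact add_zero _
  choose u u1 u2 using h.exists_B
  choose v v1 v2 using fun a : F => s.surj ![0, a]
  obtain ⟨σ, -, e⟩ := exists_aut (α := fun a => s.ψ (b * f a * b⁻¹) 0) (τ := fun a => s.ρ (b * u a * b⁻¹) 0 1)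
    (γ := fun a => s.ψ (b * v a * b⁻¹) 1) (fun x y => by
      have := k _ (mul_mem (f1 x) (f1 y))
      rw [ad (f1 x).1 (f1 y).1, f2, f2, conj_mul', ad (conj_mem_of_norm h1 (f1 _).1) (conj_mem_of_norm h1 (f1 _).1)] at this
      exact this.symm)
    (fun a e => by
      rw [← f2 a, ← h.mem_D (f1 a), mem_normalizer_iff.1 h3, h.mem_D (conj_mem_of_norm n (f1 a))]
      exact e) fun x y => by
      have := k _ (h.cm_mem (u1 x) (v1 y))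
      rw [GC.conj_cm, h.psi_cm (u1 x) (v1 y), h.psi_cm (conj_mem_of_norm h2 (u1 x)) (conj_mem_of_norm h1 (v1 y)), u2, v2] at this
      exact this.symm
  exact ⟨σ, _, fun c hc => (k c hc).trans (e _)⟩

omit [Finite G] in
theorem le_or_le {H K : Subgroup G} (o : ∀ x ∈ B, x ∈ H ∨ x ∈ K) : B ≤ H ∨ B ≤ K := by
  refine or_iff_not_imp_left.2 fun e v hv => by_contra fun e' => ?_
  obtain ⟨u, hu, e⟩ := SetLike.not_le_iff_exists.1 e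
  exact (o _ (mul_mem hu hv)).elim (fun a => e ((H.mul_mem_cancel_right ((o v hv).resolve_right e')).1 a))
    fun a => e' ((K.mul_mem_cancel_left ((o u hu).resolve_left e)).1 a)

theorem pow_big {q : ℕ} (hq : 16 ≤ q) : ∀ k, 4 * (k + 2) * q < q ^ (k + 2)
  | 0 => by rw [zero_add, pow_two]; exact Nat.mul_lt_mul_of_pos_right (by omega) (by omega)
  | k + 1 => by
    rw [pow_succ q (k + 2)]
    refine Nat.mul_lt_mul_of_pos_right (lt_of_le_of_lt ?_ (pow_big hq k)) (by omega)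
    exact le_trans (by omega) (Nat.mul_le_mul_left _ hq)

theorem card_mul_idx {A C : Subgroup G} (hn : A ≤ 𝐍(B)) (h : B ⊓ A ≤ C) : Nat.card B * C.relIndex A ≤ Nat.card ↥(B ⊔ A) := by
  rw [← BG.card_mul_relIndex (le_sup_left (b := A)), sup_comm _ A, relIndex_sup_of_le_normalizer hn, ← inf_relIndex_right B A]
  exact Nat.mul_le_mul_left _ (relIndex_le_of_le_left h index_ne_zero_of_finite)

namespace LS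

variable (h : LS t S P X X')
include h

/-- Coordinates of `X'` (`exists_hf`): `f ∈ T` induces additive bijections `α` of `R / C_R(X') ≅ F`, `τ` of
`P / Q' ≅ F`, `β` of `Y' / C_{Y'}(P) ≅ F` with `α (s y) = τ s * β y` (`Hf.psi_cm`), so `α = k σ` (`exists_aut`; pattern
`AB.exists_sig`, `AB.exists_theta`, `AB.i2_of_sq`).  If `f² = 1` and `σ = 1` then `k = 1` and `f ∈ C(R)` by `pt'`;
`eq_of_sq_one`. -/
theorem th (hB : IsElementaryAbelian 2 B) (h1 : B ≤ S ⊓ 𝐍(𝐖 X)) : I2 𝐂(⁅𝐘 X, P⁆) B := by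
  obtain ⟨F, _, _, _, s, k⟩ := h.r.hf
  have n : B ≤ 𝐍(X') := h1.trans (h.T_le.trans (inf_le_left.trans inf_le_right))
  have n' : B ≤ 𝐍(P) := h1.trans (h.T_le.trans inf_le_right)
  have nc : ∀ {x c}, x ∈ B → c ∈ 𝐘 X' ⊓ 𝐂(P) → x * c * x⁻¹ ∈ 𝐘 X' ⊓ 𝐂(P) := fun hx =>
    conj_mem_of_norm (norm_inf (n.trans h.r.nY) (norm_cent n') hx)
  have sg := fun x (hx : x ∈ B) => hf_sig k (h.r.nY (n hx)) (n' hx) (norm_inf (n.trans h.r.nY) (norm_cent n) hx)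
  have sq : ∀ x ∈ B, ∀ c, x * (x * c * x⁻¹) * x⁻¹ = c := fun x hx c => by
    rw [el_inv hB hx, ← mul_assoc, ← mul_assoc, el_sq hB hx, one_mul, mul_assoc, el_sq hB hx, mul_one]
  have fx : ∀ x ∈ B, ∀ m, (∀ c ∈ 𝐘 X' ⊓ 𝐂(P), s.ψ (x * c * x⁻¹) 0 = m * s.ψ c 0) → x ∈ 𝐂(⁅𝐘 X, P⁆) := fun x hx m e => by
    obtain ⟨c, hc, c1⟩ := k.exists_C 1
    have := e _ (nc hx hc)
    rw [sq x hx, e c hc, c1, mul_one, eq_comm, mul_self_eq_one_iff, CharTwo.neg_eq, or_self] at this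
    refine (h.pt' (h1 hx) fun r hr => ?_).1
    have a : r ∈ 𝐘 X' ⊓ 𝐂(P) := inf_le_inf_right _ h.r.W_le_Y (h.r.W_inf.ge (h.R_symm.ge hr))
    refine cent_anti (res_le 2 X') ((k.mem_D (mul_mem (nc hx a) (inv_mem a))).2 ?_).2
    rw [s.add _ (nc hx a).1 _ (inv_mem a.1), s.psi_inv a.1, Pi.add_apply, e r a, this, one_mul, Pi.neg_apply, add_neg_cancel]
  have iv : ∀ x ∈ B, x ∉ 𝐂(⁅𝐘 X, P⁆) → ∃ (σ : RingAut F) (m : F), σ * σ = 1 ∧ σ ≠ 1 ∧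
      ∀ c ∈ 𝐘 X' ⊓ 𝐂(P), s.ψ (x * c * x⁻¹) 0 = m * σ (s.ψ c 0) := fun x hx a => by
    obtain ⟨σ, m, e⟩ := sg x hx
    have z : ∀ y, m * σ m * σ (σ y) = y := fun y => by
      obtain ⟨c, hc, rfl⟩ := k.exists_C y
      rw [mul_assoc, ← map_mul, ← e c hc, ← e _ (nc hx hc), sq x hx]
    have z1 := z 1
    rw [map_one, map_one, mul_one] at z1
    exact ⟨σ, m, RingEquiv.ext fun y => by simpa [z1] using z y, fun d => a (fx x hx m (by subst d; exact e)), e⟩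
  intro x hx y hy a c
  obtain ⟨σ, m, s1, s2, e⟩ := iv x hx a
  obtain ⟨τ, l, t1, t2, e'⟩ := iv y hy c
  obtain rfl := eq_of_sq_one s1 t1 s2 t2
  rw [el_inv hB hx]
  refine fx _ (mul_mem hx hy) (m * σ l) fun c hc => ?_
  rw [show x * y * c * (x * y)⁻¹ = x * (y * c * y⁻¹) * x⁻¹ by group, e _ (nc hy hc), e' c hc, map_mul, ← RingAut.mul_apply, s1, mul_assoc]
  rfl

theorem tri (hb : b ∈ S ⊓ 𝐍(𝐉 P)) : (b ⋆ 𝐖 X = 𝐖 X ∧ b ⋆ 𝐖 X' = 𝐖 X') ∨ (b ⋆ 𝐖 X = 𝐖 X' ∧ b ⋆ 𝐖 X' = 𝐖 X) ∨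
    b ⋆ 𝐖 X ⊔ b ⋆ 𝐖 X' ≤ 𝐂(𝐖 X ⊔ 𝐖 X') := by
  have k := h.conj_le (conj_le_of_mem h.le hb.1)
  rw [conj_W, conj_W]
  rcases h.c1 k (by rw [← conj_thompsonSubgroupOf, conj_eq_of_norm hb.2]) with (e | e) | e
  exacts [.inl ⟨h.W_eq_of_res k e.1, h.symm.W_eq_of_res k.symm e.2⟩,
    .inr (.inl ⟨h.symm.W_eq_of_res k e.1, h.W_eq_of_res k.symm e.2⟩), .inr (.inr e)]

theorem sw (hb : b ∈ S ⊓ 𝐍(𝐉 P)) (h1 : b ∈ 𝐍(𝐖 X ⊔ 𝐖 X')) (h2 : b ∉ 𝐍(𝐖 X)) : b ⋆ 𝐖 X = 𝐖 X' ∧ b ⋆ 𝐖 X' = 𝐖 X := by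
  rcases h.tri hb with e | e | e
  · exact absurd (norm_of_conj_eq e.1) h2
  · exact e
  rw [← Transfer.conj_sup, conj_eq_of_norm h1] at e
  exact absurd (cent_mono e le_sup_left le_sup_right) h.ncomm

theorem far (hb : b ∈ S ⊓ 𝐍(𝐉 P)) (h1 : b ∉ 𝐍(𝐖 X ⊔ 𝐖 X')) : b ⋆ 𝐖 X ≤ 𝐂(𝐑 X) ⊓ 𝐂(𝐖 X) := by
  rcases h.tri hb with e | e | e
  · exact absurd (norm_of_conj_eq (by rw [Transfer.conj_sup, e.1, e.2])) h1
  · exact absurd (norm_of_conj_eq (by rw [Transfer.conj_sup, e.1, e.2, sup_comm])) h1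
  refine le_inf ?_ (cent_mono e le_sup_left le_sup_left)
  rw [conj_W, conj_W] at e
  exact conj_W b X ▸ h.W_cent (h.conj_le (conj_le_of_mem h.le hb.1)) e

theorem T_le_J : S ⊓ 𝐍(𝐖 X) ≤ S ⊓ 𝐍(𝐉 P) :=
  le_inf inf_le_left (h.T_le.trans (inf_le_right.trans (normalizer_le_normalizer_thompsonSubgroupOf P)))

theorem j0 (hq : 4 ≤ (𝐐 X).relIndex P) (hB : B ∈ maxIn 2 (S ⊓ 𝐍(𝐉 P)))
    (h0 : B ⊓ 𝐍(𝐖 X) ⊓ 𝐂(⁅𝐘 X, P⁆) ≤ 𝐂(𝐖 X)) : B ≤ 𝐍(𝐖 X) := by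
  have el := hB.2.1
  have aT := h.l.W_le.trans (h.P_le_T.trans h.T_le_J)
  have bS : B ⊓ 𝐍(𝐖 X) ≤ S ⊓ 𝐍(𝐖 X) := inf_le_inf_right _ (hB.1.trans inf_le_left)
  have i1 : I2 𝐍(𝐖 X) (B ⊓ 𝐍(𝐖 X ⊔ 𝐖 X')) := fun x hx y hy a c => norm_of_conj_eq (by
    rw [← Transfer.conj_conj, (h.sw (hB.1 hy.1) hy.2 c).1, ← (h.sw (hB.1 hx.1) hx.2 a).1, inv_conj_conj])
  have c1 := i1.card_le.trans (Nat.mul_le_mul_left 2 (card_le_of_le (inf_le_inf_right _ inf_le_left)))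
  have c2 := (h.th (PGroup.elemAb_of_le el inf_le_left) bS).card_le
  have c3 := card_eq_mul 𝐍(𝐖 X ⊔ 𝐖 X') B
  have l0 : B ⊓ 𝐍(𝐖 X) ⊓ 𝐂(⁅𝐘 X, P⁆) ≤ B := inf_le_left.trans inf_le_left
  have p0 : 0 < Nat.card ↥(B ⊓ 𝐍(𝐖 X) ⊓ 𝐂(⁅𝐘 X, P⁆)) := Nat.card_pos
  obtain e | e | ⟨k, e⟩ : 𝐍(𝐖 X ⊔ 𝐖 X').relIndex B = 0 ∨ 𝐍(𝐖 X ⊔ 𝐖 X').relIndex B = 1 ∨ ∃ k, 𝐍(𝐖 X ⊔ 𝐖 X').relIndex B = k + 2 := by
    rcases 𝐍(𝐖 X ⊔ 𝐖 X').relIndex B with _ | _ | k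
    exacts [.inl rfl, .inr (.inl rfl), .inr (.inr ⟨k, rfl⟩)]
  · exact absurd e index_ne_zero_of_finite
  · refine fun x hx => by_contra fun n => ?_
    have a := h.sw (hB.1 hx) (relIndex_eq_one.1 e hx) n
    have a' : B ⊓ 𝐍(𝐖 X) ⊓ 𝐂(⁅𝐘 X, P⁆) ≤ 𝐂(𝐖 X') := by
      rw [← a.1, ← conj_centralizer, ← conj_eq_of_cent (abelian_cent' el.1 le_rfl l0 hx)]
      exact conj_mono x h0
    have r : B ⊓ 𝐍(𝐖 X) ⊓ 𝐂(⁅𝐘 X, P⁆) ⊓ 𝐖 X ≤ ⁅𝐘 X, P⁆ ⊓ B := le_inf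
      ((le_inf inf_le_right (inf_le_left.trans a')).trans h.W_inf_C.le) (inf_le_left.trans l0)
    have c4 := (card_mul_idx (norm_of_cent (cent_symm h0)) r).trans (hB.2.2 _ (sup_le (l0.trans hB.1) aT)
      (PGroup.elemAb_sup (PGroup.elemAb_of_le el l0) h.l.W_el h0))
    rw [← relIndex_mul_relIndex _ _ _ inf_le_left h.l.R_le, inf_relIndex_left, ← h.l.W_inf, inf_relIndex_left, h.l.idx_P,
      h.l.W_inf] at c4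
    rw [e] at c3
    by_cases d : ⁅𝐘 X, P⁆ ≤ B
    · rw [inf_eq_left.2 (inf_le_left.trans (abelian_cent' el.1 le_rfl d))] at c4 p0
      rw [relIndex_eq_one.2 d] at c4
      nlinarith
    · have : 2 ≤ B.relIndex ⁅𝐘 X, P⁆ := (Nat.two_le_iff _).2 ⟨index_ne_zero_of_finite, mt relIndex_eq_one.1 d⟩
      have := (Nat.mul_le_mul_left _ (Nat.mul_le_mul this hq)).trans c4
      omega
  exfalso
  obtain ⟨D, d1, -, d2, d3⟩ := exists_big (K := 𝐂(𝐑 X)) (C := B ⊓ 𝐍(𝐖 X) ⊓ 𝐂(⁅𝐘 X, P⁆) ⊓ 𝐂(𝐑 X)) el h.l.W_el inf_le_left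
    (fun b hb n => h.far (hB.1 hb) fun m => n ⟨hb, m⟩) (le_inf (inf_le_inf_right _ l0) (inf_le_left.trans h0))
  have c4 := d3.trans (hB.2.2 D (d2.trans (sup_le (inf_le_left.trans (l0.trans hB.1)) (ncl_le aT (le_norm_of_le hB.1)))) d1)
  have c5 := card_eq_mul 𝐂(𝐑 X) (B ⊓ 𝐍(𝐖 X) ⊓ 𝐂(⁅𝐘 X, P⁆))
  have c6 := idx_le (((le_inf (l0.trans (hB.1.trans inf_le_left)) h0).trans h.F_le).trans (sup_le_sup_left inf_le_right _))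
    (h.l.W_le.trans h.l.nC)
  have c7 := pow_big (q := 𝐂(𝐑 X).relIndex (𝐖 X)) (by rw [h.l.idx_E]; nlinarith) k
  have p1 : 0 < Nat.card ↥(B ⊓ 𝐍(𝐖 X) ⊓ 𝐂(⁅𝐘 X, P⁆) ⊓ 𝐂(𝐑 X)) := Nat.card_pos
  rw [inf_relIndex_left, e] at c4
  rw [e] at c3
  have c8 := Nat.mul_lt_mul_of_pos_left c7 p1
  have c9 := Nat.mul_le_mul_left (Nat.card ↥(B ⊓ 𝐍(𝐖 X) ⊓ 𝐂(⁅𝐘 X, P⁆) ⊓ 𝐂(𝐑 X))) c6
  have := Nat.mul_le_mul_right (k + 2) (c1.trans (Nat.mul_le_mul_left 2 (c2.trans (Nat.mul_le_mul_left 2 (c5.le.trans c9)))))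
  nlinarith

/-- Let `T' = N_S(J(P)) ≥ T`, `B ∈ 𝒜(T')`; show `B ≤ T` (then `J(T') = J(P)`, `T' = S`).  `B₁ = N_B(A A')`,
`k = |B : B₁|`; by `c1`, `cm` for `conj_le`: `b ⋆ A ≤ C(E)` for `b ∉ B₁`, `b ⋆ A ∈ {A, A'}` for `b ∈ B₁`.
`B₂ = N_B(A)`, `B₀ = C_{B₂}(R)`, `|B₁ : B₀| ≤ 4` (`th`), `B₀ ≤ C(A)` or `C(A')` (`inv_T1`), say `C(A)`.
`k ≥ 2`: `C = C_{B₀}(E)` has index `≤ q²` in `B₀` (`F_le`); `exists_big` with `K = C(E)` gives `D ≤ T'` with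
`|D| ≥ |C| q^{2k} > 4 k q² |C| ≥ |B|`.  `k = 1`, `B ≰ T`: an element of `B` swaps `A`, `A'`, so `B₀ ≤ C(A')`,
`A ⊓ B₀ ≤ R`, `|B₀ A| ≥ q |B₀|`; `|B| ≤ 2 |B₀|` if `B₂ = B₀`; otherwise `R ≰ B`, `|B₀ A| ≥ 2 q |B₀| > |B|`. -/
theorem j1 (hq : 4 ≤ (𝐐 X).relIndex P) : 𝐉 S = 𝐉 P := by
  have a : ∀ B ∈ maxIn 2 (S ⊓ 𝐍(𝐉 P)), B ∈ maxIn 2 P := fun B hB => by
    have bS := hB.1.trans inf_le_left
    refine h.max_T.1 (mem_maxIn_of_le hB ?_ h.T_le_J)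
    rcases le_or_le (B := B ⊓ 𝐍(𝐖 X) ⊓ 𝐂(⁅𝐘 X, P⁆)) fun x hx => h.inv_T1 ⟨⟨bS hx.1.1, hx.1.2⟩, hx.2⟩ (el_sq hB.2.1 hx.1.1) with e | e
    · exact le_inf bS (h.j0 hq hB e)
    · exact (le_inf bS (h.symm.j0 (h.q_eq ▸ hq) hB (le_trans (inf_le_inf (le_inf inf_le_left
        ((inf_le_inf_right _ bS).trans (h.T_symm.le.trans inf_le_right))) (h.R_symm ▸ le_rfl)) e))).trans h.T_symm.le
  have c : 𝐉 (S ⊓ 𝐍(𝐉 P)) = 𝐉 P := (thompsonSubgroupOf_eq_of_le (thompsonSubgroupOf_le_iff.2 fun B hB => (a B hB).1)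
    (h.P_le_T.trans h.T_le_J)).symm
  have d : S ≤ 𝐍(𝐉 P) := by_contra fun e => (PGroup.lt_inf_normalizer h.pg (inf_lt_left.2 e)).not_ge (inf_le_inf_left _
    ((normalizer_le_normalizer_thompsonSubgroupOf (e := 2) _).trans (by rw [c])))
  rwa [inf_eq_left.2 d] at c

theorem big_le (hq : 4 ≤ (𝐐 X).relIndex P) : P ≤ 𝐁 S ∧ ∀ D ∈ maxIn 2 P, D ∈ maxIn 2 S :=
  let ⟨_, hB⟩ := exists_mem_maxIn 2 S
  h.le_baum hB ((le_thompsonSubgroupOf hB).trans ((h.j1 hq).le.trans ((thompsonSubgroupOf_le P).trans h.l.nP)))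

end LS

end Cfsg.Lib.B2C
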