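import Cfsg.Agent.Lib.B2C.LP2

/-! Two linked pairs inside `S`. -/

set_option autoImplicit false

namespace Cfsg.Lib.B2C

open Subgroup Cfsg.Lib.BG Cfsg.Lib.Transfer Cfsg.Lib.Loc Cfsg.Lib.PLocal Cfsg.Lib.CGT Cfsg.Lib.PU
open Cfsg.Lib.CS Cfsg.Lib.Root Cfsg.Lib.Core Cfsg.Lib.GC
open scoped commutatorElement
variable {G : Type*} [Group G] [Finite G] {P P₁ S U U' X X' : Subgroup G} {t g : G}

omit [Finite G] in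
theorem Cm.symm (h : Cm X X' U U') : Cm U U' X X' := ⟨cent_symm h.a, cent_symm h.c, cent_symm h.b, cent_symm h.d⟩

namespace LS

variable (h : LS t S P X X')
include h

theorem N_le_P : 𝐖 X ⊔ 𝐖 X' ≤ P := sup_le h.l.W_le h.r.W_le

theorem W_le_J : 𝐖 X ≤ 𝐉 P := h.l.W_le_Y.trans (h.Y_le_J.trans h.J_le)

/-- `x ∈ E` with `X = ⟨P, x ⋆ P⟩`, `y = g x g⁻¹`: `y t y⁻¹ = x t x⁻¹`, so `u = x⁻¹ y ∈ C(t) ⊓ C(A)` normalizes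
`S`, `F`, `T`, so `Q = B(F)`, `P = B(T)`, `X'`, `A'`; `g ⋆ (x ⋆ A') = y ⋆ A' = x ⋆ A'`; `res_eq`. -/
theorem u1 (hg : g ∈ 𝐂(𝐖 X ⊔ 𝐖 X')) (e : t * (g⁻¹ * t * g) ∈ 𝐂(𝐑 X)) : g ∈ 𝐍(𝐑 X) := by
  obtain ⟨x, hx, a⟩ := h.l.exists_gen
  have hX := res_le 2 X hx
  have ga := cent_anti le_sup_left hg
  have c : ⁅x, t⁆ * g = g * ⁅x, t⁆ := BG.mem_cent.1 ga _ (commutator_comm (𝐘 X) X ▸ commutator_mem_commutator hX h.t_mem.1)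
  have d := BG.mem_cent.1 e _ (inv_mem hx)
  have ti : t⁻¹ = t := inv_eq_of_mul_eq_one_left h.t2
  have u1 : x⁻¹ * (g * x * g⁻¹) ∈ 𝐂[t] := mem_cent1.2 (by
    have : g * x * g⁻¹ * t * (g * x * g⁻¹)⁻¹ = x * t * x⁻¹ := calc
      _ = g * x * t⁻¹ * (t * (g⁻¹ * t * g) * x⁻¹) * g⁻¹ := by group
      _ = g * ⁅x, t⁆ * t * t * g⁻¹ * t := by rw [← d, commutatorElement_def, ti]; simp [mul_assoc, ← mul_assoc t t, h.t2]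
      _ = _ := by rw [← c, commutatorElement_def, ti]; simp [mul_assoc, ← mul_assoc t t, h.t2]
    calc _ = x⁻¹ * (g * x * g⁻¹ * t * (g * x * g⁻¹)⁻¹) * (g * x * g⁻¹) := by group
      _ = _ := by rw [this]; group)
  have u2 : x⁻¹ * (g * x * g⁻¹) ∈ 𝐍(𝐖 X) := cent_le_norm _ (by
    have := mul_mem (conj_mem_of_norm' (norm_cent h.l.nW' hX) ga) (inv_mem ga)
    simpa [mul_assoc] using this)
  have n : zpowers (x⁻¹ * (g * x * g⁻¹)) ≤ 𝐍(S) := zpowers_le.2 (h.nrm u1)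
  have m := zpowers_le.2 u2
  have k := h.r.nW (h.norm_le ⟨h.baum_T ▸ normalizer_le_baum _ (zpowers_le.1 (norm_inf n (norm_norm m))),
    h.baum_F ▸ normalizer_le_baum _ (zpowers_le.1 (norm_inf n (norm_cent m)))⟩).2
  have gb := conj_eq_of_cent (cent_anti le_sup_right hg)
  rw [← h.res_eq hX a]
  refine normalizer_le_normalizer_res 2 _ (norm_of_conj_eq ?_)
  rw [conj_sup, gb, Transfer.conj_conj, show g * x = x * (x⁻¹ * (g * x * g⁻¹)) * g by group, ← Transfer.conj_conj, gb,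
    ← Transfer.conj_conj, conj_eq_of_norm k]

variable (k : LS t S P₁ U U')
include k

theorem R_cent (e : 𝐖 U ⊔ 𝐖 U' ≤ 𝐂(𝐖 X ⊔ 𝐖 X')) : ⁅𝐘 U, P₁⁆ ≤ 𝐂(𝐑 X) :=
  have a := le_inf (k.N_le_P.trans k.le) e
  k.R_eq.le.trans ((commutator_mono (le_sup_left.trans a) (le_sup_right.trans a)).trans h.der_N)

/-- `R₁ = [A₁, A₁'] ≤ C(E)` and `R ≤ C(E₁)` by `der_N`.  `Hy.move` for `U`, `K = C_S(E)` (`not_mem_C`): `r w ∈ C(E)` with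
`r ∈ R ∖ C(E)`; `e = x t x⁻¹` (`Ct.cartan`) with `e r ∈ C(X)`, `e t ∈ A ⊓ C(P) = R ≤ C(E₁)`, `y = t`. -/
theorem W_cent (e : 𝐖 U ⊔ 𝐖 U' ≤ 𝐂(𝐖 X ⊔ 𝐖 X')) : 𝐖 U ≤ 𝐂(𝐑 X) := by
  refine (k.toHy.move (K := S ⊓ 𝐂(𝐑 X)) k.l.toFF (fun d a b => h.not_mem_C b a)
    (le_inf (k.l.R_le.trans k.W_le_S) (h.R_cent k e)) fun w hw n => ?_).trans inf_le_right
  have ws := k.W_le_S hw
  obtain ⟨r, hr, a⟩ := h.exists_mul ⟨ws, e (mem_sup_left hw)⟩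
  have r1 := h.l.W_inf.ge hr
  obtain ⟨x, hx, b⟩ := h.toCt.cartan h.l h.le h.t_mem ⟨h.l.W_le_Y r1.1, r1.2⟩ h.t_not
    fun c => n ⟨ws, (mul_mem_cancel_left c).1 a⟩
  have hX := res_le 2 X hx.1
  refine ⟨_, isConj_iff.2 ⟨x, rfl⟩, t, k.t_mem, k.t_not, k.R_cent h (cent_symm e) (h.l.W_inf.le ⟨?_,
    mul_mem (conj_mem_of_norm (norm_cent le_rfl hx.2) h.t_mem.2) h.t_mem.2⟩),
    mul_mem (h.le (h.l.core_le (oz_le _ (conj_mem_of_norm (norm_Y 2 X hX) h.t_mem.1)))) ws, ?_⟩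
  · have := commutator_mem_commutator hX h.t_mem.1
    rwa [commutator_comm, commutatorElement_def, inv_eq_of_mul_eq_one_left h.t2] at this
  · have := mul_mem (cent_anti (res_le 2 X) b) a
    rwa [mul_assoc, ← mul_assoc r, el_sq h.l.W_el r1.1, one_mul] at this

theorem cm₁ (e : 𝐖 U ⊔ 𝐖 U' ≤ 𝐂(𝐖 X ⊔ 𝐖 X')) : 𝐑 U ≤ 𝐂(𝐑 X) := by
  obtain ⟨x, hx, a⟩ := h.l.exists_gen
  have c : 𝐑 U ≤ 𝐂(𝐖 X') := cent_symm (k.W_cent h.symm (sup_comm (𝐖 X) _ ▸ cent_symm e))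
  have n : x ∈ 𝐍(𝐑 U) := k.u1 (cent_symm (sup_le (h.W_cent k e) (h.W_cent k.symm (sup_comm (𝐖 U) _ ▸ e))) hx)
    (k.W_cent h (cent_symm e) (by
      simpa [commutatorElement_def, inv_eq_of_mul_eq_one_left h.t2, mul_assoc] using
        commutator_mem_commutator h.t_mem.1 (inv_mem (res_le 2 X hx))))
  exact (le_inf c (by rw [← conj_eq_of_norm n, ← conj_centralizer]; exact conj_mono x c)).trans (h.cent_E (res_le 2 X hx) a)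

/-- By `u1`, `E ≤ N(E₁)`, so `E₁ = x ⋆ E₁` centralizes `A'` and `x ⋆ A'`. -/
theorem cm (e : 𝐖 U ⊔ 𝐖 U' ≤ 𝐂(𝐖 X ⊔ 𝐖 X')) : Cm X X' U U' :=
  have d := (sup_comm (𝐖 U') (𝐖 U)).le.trans e
  have c := cent_anti (sup_comm (𝐖 X') (𝐖 X)).le
  ⟨h.cm₁ k e, h.symm.cm₁ k (e.trans c), h.cm₁ k.symm d, h.symm.cm₁ k.symm (d.trans c)⟩

theorem of_cm (e : Cm X X' U U') : 𝐖 U ⊔ 𝐖 U' ≤ 𝐂(𝐖 X ⊔ 𝐖 X') := sup_le
  (le_cent_sup (cent_mono e.a k.l.W_le_E h.l.W_le_E) (cent_mono e.b k.l.W_le_E h.r.W_le_E))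
  (le_cent_sup (cent_mono e.c k.r.W_le_E h.l.W_le_E) (cent_mono e.d k.r.W_le_E h.r.W_le_E))

theorem J_sub (e : 𝐉 P₁ = 𝐉 P) (n : ¬ 𝐖 X ≤ 𝐂(𝐖 U')) : 𝐉 (𝐐 X) ≤ 𝐉 (𝐐 U) := thompsonSubgroupOf_le_iff.2 fun B a => by
  obtain ⟨B₀, b0, b1⟩ := h.exists_max
  have b := mem_maxIn_of_exists_le b0 b1 h.l.core_le a
  have c := (le_thompsonSubgroupOf b).trans (e.ge.trans (thompsonSubgroupOf_le _))
  obtain ⟨B₁, d⟩ := exists_mem_maxIn 2 P₁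
  exact le_thompsonSubgroupOf (mem_maxIn_of_le (mem_maxIn_of_card_le d c b.2.1 (b.2.2 _ ((le_thompsonSubgroupOf d).trans
    (e.le.trans (thompsonSubgroupOf_le _))) d.2.1)) ((k.el_or b.2.1 c).resolve_right fun f =>
      n (h.l.W_le_Y.trans ((h.l.Y_le_max b a.1).trans (f.trans k.r.Q_cent)))) k.l.core_le)

theorem res_of_J (e : 𝐉 P₁ = 𝐉 P) (n : ¬ 𝐖 X ≤ 𝐂(𝐖 U')) (m : ¬ 𝐖 U ≤ 𝐂(𝐖 X')) : 𝐑 U = 𝐑 X := by
  rw [← h.res_J, ← k.res_J, e, le_antisymm (h.J_sub k e n) (k.J_sub h e.symm m)]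

theorem c0 (e : 𝐉 P₁ = 𝐉 P) (m : ¬ 𝐖 U ≤ 𝐂(𝐖 X')) : 𝐑 U = 𝐑 X ∧ 𝐑 U' = 𝐑 X' := by
  have a : 𝐖 U ≤ P := k.W_le_J.trans (e.le.trans (thompsonSubgroupOf_le _))
  have a' : 𝐖 U' ≤ P := k.symm.W_le_J.trans (e.le.trans (thompsonSubgroupOf_le _))
  have b : 𝐖 X' ≤ P₁ := h.symm.W_le_J.trans (e.ge.trans (thompsonSubgroupOf_le _))
  have m' : ¬ 𝐖 X' ≤ 𝐂(𝐖 U) := fun c => m (cent_symm c)
  have n : ¬ 𝐖 U' ≤ 𝐂(𝐖 X) := fun c => h.r.not_R_le (by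
    have d := cent_symm (((k.el_or h.r.W_el b).resolve_left fun f => m' (f.trans k.l.Q_cent)).trans k.r.Q_cent)
    have n := h.r.nC
    rw [h.r.R_eq]
    refine (commutator_mono le_rfl (h.r.pair k.l.toFF b a m').1).trans (comm_sup_le' (a.trans n) (h.r.core_le.trans n) ?_
      ((comm_eq_bot_iff'.2 h.r.Q_cent).le.trans bot_le))
    rw [commutator_comm]
    refine (commutator_mono k.l.W_le_Y b).trans (k.R_eq.le.trans ?_)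
    rw [commutator_comm]
    exact (commutator_mono (le_inf ((le_inf a' d).trans h.r.inf_cent_W.le) ((le_inf a' c).trans h.l.inf_cent_W.le)) a).trans
      h.symm.comm_D)
  exact ⟨h.res_of_J k e (fun c => n (cent_symm c)) m, h.symm.res_of_J k.symm e m' n⟩

/-- All four modules lie in `J ≤ P ⊓ P₁`, each in `Q` or `Q'` and in `Q₁` or `Q₁'`.  Say `[A', A₁] ≠ 1`; then
`[A, A₁] = 1 = [A', A₁']`, `R = [A', A₁] = R₁` (`FF.pair`).  If `[A, A₁'] = 1` then `R₁ ≤ [D, P] ≤ C(E)`, absurd.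
Otherwise `𝒜(Q) = 𝒜(Q₁)`, `𝒜(Q') = 𝒜(Q₁')` and `res_J` applies. -/
theorem c1 (e : 𝐉 P₁ = 𝐉 P) : Sm X X' U U' ∨ 𝐖 U ⊔ 𝐖 U' ≤ 𝐂(𝐖 X ⊔ 𝐖 X') := or_iff_not_imp_left.2 fun n => sup_le
  (le_cent_sup (by_contra fun m => n (.inr (h.symm.c0 k e m))) (by_contra fun m => n (.inl (h.c0 k e m))))
  (le_cent_sup (by_contra fun m => n (.inl (h.symm.c0 k.symm e m).symm)) (by_contra fun m => n (.inr (h.c0 k.symm e m).symm)))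

end LS

end Cfsg.Lib.B2C
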