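import Cfsg.Agent.Lib.B2C.Def

/-!
Pure 2-group theory: the reflections `I` generate a dihedral group with centre `z`.
-/

set_option autoImplicit false

namespace Cfsg.Lib.B2C

open Subgroup Cfsg.Lib.BG Cfsg.Lib.Transfer Cfsg.Lib.Loc Cfsg.Lib.PLocal Cfsg.Lib.CGT Cfsg.Lib.PU
open Cfsg.Lib.CS Cfsg.Lib.Root Cfsg.Lib.Core Cfsg.Lib.GC
open scoped commutatorElement
variable {G : Type*} [Group G] [Finite G] {B S : Subgroup G} {I : Set G} {a a' b c u z ρ : G} {k : ℕ}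

/-- Dihedral coordinates. -/
structure Dd (z : G) (I : Set G) (a ρ : G) (k : ℕ) : Prop where
  ord : orderOf ρ = 2 ^ (k + 2)
  inv : a * ρ * a = ρ⁻¹
  pow : ρ ^ 2 ^ (k + 1) = z
  iff : ∀ b, b ∈ I ↔ ∃ i : ℤ, b = a * ρ ^ i

section Iv

omit [Finite G]

theorem cj_zpow (h : b * b = 1) (ρ : G) (i : ℤ) : b * ρ ^ i * b = (b * ρ * b) ^ i := by
  have := @conj_zpow _ _ i b ρ
  rwa [inv_eq_of_mul_eq_one_left h, eq_comm] at this

theorem iv1 (h : a * a = 1) (e : a * ρ * a = ρ⁻¹) (i : ℤ) : ρ ^ i * a = a * ρ ^ (-i) := by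
  rw [zpow_neg, ← inv_zpow, ← e, ← cj_zpow h, ← mul_assoc, ← mul_assoc, h, one_mul]

theorem iv2 (h : a * a = 1) (e : a * ρ * a = ρ⁻¹) (i j : ℤ) : a * ρ ^ i * (a * ρ ^ j) = ρ ^ (j - i) := by
  rw [mul_assoc, ← mul_assoc (ρ ^ i), iv1 h e, ← mul_assoc, ← mul_assoc, h, one_mul, ← zpow_add, neg_add_eq_sub]

theorem iv0 (h : a * a = 1) (h' : b * b = 1) : a * (a * b) * a = (a * b)⁻¹ := by
  rw [← mul_assoc, h, one_mul, mul_inv_rev, inv_eq_of_mul_eq_one_left h, inv_eq_of_mul_eq_one_left h']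

theorem zp_one (o : orderOf ρ = 2 ^ k) {i : ℤ} : ρ ^ i = 1 ↔ (2 : ℤ) ^ k ∣ i := by
  rw [← orderOf_dvd_iff_zpow_eq_one, o, Nat.cast_pow, Nat.cast_ofNat]

theorem zp_two (o : orderOf ρ = 2 ^ (k + 2)) (p : ρ ^ 2 ^ (k + 1) = z) {i : ℤ} (h : (2 : ℤ) ^ (k + 2) ∣ 2 * i) :
    ρ ^ i = 1 ∨ ρ ^ i = z := by
  rw [pow_succ', mul_dvd_mul_iff_left two_ne_zero] at h
  obtain ⟨t, rfl⟩ := h
  have z2 : z ^ (2 : ℤ) = 1 := by rw [← p, ← zpow_natCast, ← zpow_mul, zp_one o]; exact ⟨1, by push_cast; ring⟩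
  rw [zpow_mul, show ρ ^ (2 : ℤ) ^ (k + 1) = z by rw [← p, ← zpow_natCast]; push_cast; rfl]
  obtain ⟨s, rfl | rfl⟩ := t.even_or_odd'
  exacts [.inl (by rw [zpow_mul, z2, one_zpow]), .inr (by rw [zpow_add, zpow_mul, z2, one_zpow, one_mul, zpow_one])]

theorem Dd.pw (d : Dd z I a ρ k) : ρ ^ (2 : ℤ) ^ (k + 1) = z := by rw [← d.pow, ← zpow_natCast]; push_cast; rfl

theorem Dd.mem (d : Dd z I a ρ k) (i : ℤ) : a * ρ ^ i ∈ I := (d.iff _).2 ⟨i, rfl⟩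

theorem Dd.mem0 (d : Dd z I a ρ k) : a ∈ I := by simpa using d.mem 0

theorem Dd.mem1 (d : Dd z I a ρ k) : a * ρ ∈ I := by simpa using d.mem 1

end Iv

namespace Rs

variable (h : Rs S z I)
include h

omit [Finite G] in
theorem all (ha : a ∈ I) (hb : b ∈ I) (i : ℤ) : a * (a * b) ^ i ∈ I := by
  have m := mul_mem (h.mem a ha) (h.mem b hb)
  have c : Commute (a * b) z := Commute.mul_left (h.cz a ha) (h.cz b hb)
  have k : ∀ j : ℤ, ∀ x ∈ I, x * (a * b) * x = (a * b)⁻¹ → x * (a * b) ^ (2 * j) ∈ I := fun j x hx e => by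
    have := h.cj _ (zpow_mem m (-j)) (c.zpow_left _) x hx
    rwa [iv1 (h.sq x hx) e, ← zpow_neg, neg_neg, mul_assoc, ← zpow_add, ← two_mul] at this
  obtain ⟨j, rfl | rfl⟩ := i.even_or_odd'
  · exact k j a ha (iv0 (h.sq a ha) (h.sq b hb))
  · have := k j b hb (by
      rw [mul_assoc, mul_assoc, h.sq b hb, mul_one, mul_inv_rev, inv_eq_of_mul_eq_one_left (h.sq a ha),
        inv_eq_of_mul_eq_one_left (h.sq b hb)])
    rwa [add_comm, zpow_add, zpow_one, ← mul_assoc, ← mul_assoc, h.sq a ha, one_mul]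

/-- `σ = a b` has order `2^(j+2)`; `u = σ^(2^(j+1))`; `a u` is conjugate to `a` under `⟨σ⟩` and commutes with
`a`, so `u = z`. -/
theorem ord (ha : a ∈ I) (hb : b ∈ I) (h1 : b ≠ a) (h2 : b ≠ a * z) :
    ∃ j, orderOf (a * b) = 2 ^ (j + 2) ∧ (a * b) ^ 2 ^ (j + 1) = z := by
  obtain ⟨m, o⟩ := IsPGroup.iff_orderOf.1 h.pg ⟨_, mul_mem (h.mem a ha) (h.mem b hb)⟩
  rw [← orderOf_coe] at o
  change orderOf (a * b) = _ at o
  have iv := iv0 (h.sq a ha) (h.sq b hb)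
  have n : ¬ (2 : ℤ) ^ m ∣ 2 := fun e => by
    have := inv_eq_of_mul_eq_one_left ((zpow_two _).symm.trans ((zp_one o).2 e))
    rw [mul_inv_rev, inv_eq_of_mul_eq_one_left (h.sq a ha), inv_eq_of_mul_eq_one_left (h.sq b hb)] at this
    exact (h.cm a ha b hb this.symm).elim h1 h2
  obtain ⟨j, rfl⟩ : ∃ j, m = j + 2 := by
    rcases m with _ | _ | j
    exacts [absurd (by simp) n, absurd (by simp) n, ⟨j, rfl⟩]
  refine ⟨j, o, ?_⟩
  have e : (a * b) ^ 2 ^ (j + 1) = (a * b) ^ (2 : ℤ) ^ (j + 1) := by rw [← zpow_natCast]; push_cast; rfl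
  rcases h.cm a ha _ (h.all ha hb (2 ^ (j + 1))) (by
    rw [mul_assoc, iv1 (h.sq a ha) iv, mul_right_inj, mul_right_inj, ← mul_inv_eq_one, ← zpow_sub, zp_one o]
    exact ⟨1, by ring⟩) with f | f
  · rw [mul_eq_left, zp_one o] at f
    exact absurd (Int.le_of_dvd (by positivity) f) (not_le.2 (pow_lt_pow_right₀ one_lt_two (by omega)))
  · rw [e, mul_left_cancel f]

/-- `r = σ^(2^j)`; all `a σ^i` are conjugate to `a` or `b`. -/
theorem pr (ha : a ∈ I) (hb : b ∈ I) (h1 : b ≠ a) (h2 : b ≠ a * z) :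
    ∃ r ∈ zpowers (a * b), a * r ∈ I ∧ a * r * a * (a * r) = a * z := by
  obtain ⟨j, -, e⟩ := h.ord ha hb h1 h2
  refine ⟨(a * b) ^ 2 ^ j, pow_mem (mem_zpowers _) _, zpow_natCast (a * b) _ ▸ h.all ha hb _, ?_⟩
  rw [mul_assoc (a * _), ← mul_assoc a a, h.sq a ha, one_mul, mul_assoc, ← pow_add, ← two_mul, ← pow_succ', e]

omit [Finite G] in
theorem ptn (ha : a ∈ I) (ha' : a' ∈ I) (e : a' * a * a' = a * z) (hb : b ∈ S) (h1 : b * b = 1) (h2 : b * z = z * b)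
    (f : b * a * b = a * z) : b * a' = a' * b := by
  obtain ⟨c, hc, -, k⟩ := h.pt a ha
  have := k b hb h1 f
  rcases h.cm c hc a' ha' (k a' (h.mem _ ha') (h.sq _ ha') e).symm with rfl | rfl
  exacts [this, Commute.mul_right this h2]

omit [Finite G] in
/-- the partner in coordinates -/
theorem ptw (a2 : a * a = 1) (iv : a * ρ * a = ρ⁻¹) (p : ρ ^ (2 : ℤ) ^ (k + 1) = z) (i : ℤ) :
    a * ρ ^ (i + 2 ^ k) * (a * ρ ^ i) * (a * ρ ^ (i + 2 ^ k)) = a * ρ ^ i * z := by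
  rw [mul_assoc, iv2 a2 iv, mul_assoc, mul_assoc, ← p, ← zpow_add, ← zpow_add]; congr 2; ring

/-- Choose `a₀, a₂ ∈ I` with `ρ = a₀ a₂` of maximal order `n`, `D = ⟨a₀, a₂⟩`.  If `I ⊄ D` there is `b ∈ I ∖ D`
normalizing `D` (go up normalizers in the 2-group `S ⊓ C(z)`: the last term `K` with `I ⊓ K = I ⊓ D` has
`N(K) ≤ N(D)`).  `b` commutes with no reflection of `D` (`cm`); `b a₀ b = a₀ ρ^(2j)` since otherwise `a₀ b` has
order `2n`; `b ρ b = ρ^ε`, `ε² ≡ 1`, `b a₀ ρ^i b = a₀ ρ^(2j + ε i)`.  `ε ≡ -1` mod `n/2`, `ε ≢ 1` mod `4`: a fixed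
reflection exists.  `ε ≡ 1` mod `n/2`, `ρ²` centralized and `ρ^(2j)` inverted: `b a₀ b = a₀ z`, so `b` commutes
with the partner of `a₀` (`pt`), which lies in `D` (`pr`, `pt`, `cm`).  Finally rebase at `a`. -/
theorem dih (ha : a ∈ I) : ∃ ρ k, Dd z I a ρ k := by
  obtain ⟨⟨a₀, b₀⟩, ⟨h0, h0'⟩, mx⟩ := (Set.toFinite (I ×ˢ I)).exists_maximalFor (fun p => orderOf (p.1 * p.2)) _ ⟨(a, a), ha, ha⟩
  replace mx : ∀ x ∈ I, ∀ y ∈ I, orderOf (x * y) ≤ orderOf (a₀ * b₀) := fun x hx y hy =>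
    (le_total _ _).elim id (mx (j := (x, y)) ⟨hx, hy⟩)
  have a2 := h.sq a₀ h0
  obtain ⟨k, o, p⟩ : ∃ j, orderOf (a₀ * b₀) = 2 ^ (j + 2) ∧ (a₀ * b₀) ^ 2 ^ (j + 1) = z := by
    obtain ⟨c, hc, e, -⟩ := h.pt a ha
    have n : a * c ≠ c * a := fun f => h.z1 (by rwa [← f, mul_assoc, h.sq c hc, mul_right_inj, eq_comm] at e)
    obtain ⟨j, f, -⟩ := h.ord ha hc (fun f => n (f ▸ rfl)) fun f => n (by rw [f, mul_assoc, h.cz a ha])
    have := f ▸ mx a ha c hc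
    have t : 2 < 2 ^ (j + 2) := by rw [pow_add]; have := Nat.two_pow_pos j; omega
    refine h.ord h0 h0' (fun f => ?_) fun f => ?_
    · rw [f, a2, orderOf_one] at this; omega
    · rw [f, ← mul_assoc, a2, one_mul, orderOf_eq_prime ((pow_two z).trans h.z2) h.z1] at this; omega
  have iv := iv0 a2 (h.sq b₀ h0')
  have al := h.all h0 h0'
  generalize a₀ * b₀ = ρ at *
  have p' : ρ ^ (2 : ℤ) ^ (k + 1) = z := by rw [← p, ← zpow_natCast]; push_cast; rfl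
  let R : Set G := {x | ∃ i : ℤ, x = a₀ * ρ ^ i}
  suffices e : I ⊆ R by
    obtain ⟨l, rfl⟩ := e ha
    refine ⟨ρ, k, o, by rw [mul_assoc a₀, ← zpow_add_one, iv2 a2 iv, ← zpow_neg_one]; congr 1; ring,
      p, fun b => ⟨fun m => ?_, ?_⟩⟩
    · obtain ⟨i, rfl⟩ := e m
      exact ⟨i - l, by rw [mul_assoc, ← zpow_add, add_sub_cancel]⟩
    · rintro ⟨i, rfl⟩; rw [mul_assoc, ← zpow_add]; exact al _
  have nr : ∀ s : G, (∀ x ∈ R, s * x * s⁻¹ ∈ R) → s ∈ normalizer R := fun s e =>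
    mem_normalizer_fintype (S := R) e
  have key : ∀ b ∈ I, b ∈ normalizer R → b ∈ R := fun b hb n => by
    by_contra nb
    have b2 := h.sq b hb
    have nc : ∀ i : ℤ, b * (a₀ * ρ ^ i) ≠ a₀ * ρ ^ i * b := fun i e => nb <| by
      rcases h.cm _ (al i) b hb e.symm with f | f
      exacts [⟨i, f⟩, ⟨i + 2 ^ (k + 1), by rw [f, zpow_add, p', mul_assoc]⟩]
    have cj : ∀ i : ℤ, ∃ m : ℤ, b * (a₀ * ρ ^ i) * b = a₀ * ρ ^ m := fun i => by
      have := (mem_set_normalizer_iff.1 n _).1 ⟨i, rfl⟩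
      rwa [inv_eq_of_mul_eq_one_left b2] at this
    obtain ⟨m, e0⟩ := cj 0
    obtain ⟨m', e1⟩ := cj 1
    rw [zpow_zero, mul_one] at e0
    have e2 : b * ρ * b = ρ ^ (m' - m) := by
      rw [← iv2 a2 iv, ← e0, ← e1, zpow_one, mul_assoc (b * a₀), ← mul_assoc b (b * _), ← mul_assoc b b, b2, one_mul,
        mul_assoc b a₀, ← mul_assoc a₀, ← mul_assoc a₀, a2, one_mul, mul_assoc]
    have e3 : ∀ i : ℤ, b * (a₀ * ρ ^ i) * b = a₀ * ρ ^ (m + (m' - m) * i) := fun i => by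
      rw [zpow_add, zpow_mul, ← e2, ← cj_zpow b2, ← mul_assoc a₀, ← e0, mul_assoc (b * a₀), ← mul_assoc b (b * _), ← mul_assoc b b,
        b2, one_mul]
      simp only [mul_assoc]
    have ev : ∀ i : ℤ, Even (m + (m' - m) * i - i) := fun i => Int.not_odd_iff_even.1 fun od => by
      have e : (a₀ * ρ ^ i * b) ^ (2 : ℤ) = ρ ^ (m + (m' - m) * i - i) := by
        rw [← iv2 a2 iv, ← e3, zpow_two]; simp only [mul_assoc]
      obtain ⟨j, f, -⟩ := h.ord (al i) hb (fun f => nb ⟨i, f⟩) fun f => nb ⟨i + 2 ^ (k + 1), by rw [f, zpow_add, p', mul_assoc]⟩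
      have l := mx _ (al i) b hb
      rw [f, o, Nat.pow_le_pow_iff_right one_lt_two] at l
      have : ((a₀ * ρ ^ i * b) ^ (2 : ℤ)) ^ (2 : ℤ) ^ (k + 1) = 1 := by
        rw [← zpow_mul, zp_one f, ← pow_succ']; exact pow_dvd_pow 2 l
      rw [e, ← zpow_mul, zp_one o, pow_succ' (2 : ℤ) (k + 1), mul_dvd_mul_iff_right (by positivity)] at this
      exact Int.not_even_iff_odd.2 od (even_iff_two_dvd.2 this)
    obtain ⟨j, rfl⟩ : ∃ j, m = 2 * j := by obtain ⟨t, ht⟩ := ev 0; exact ⟨t, by omega⟩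
    obtain ⟨e, he⟩ : ∃ e, m' - 2 * j = 2 * e + 1 := by obtain ⟨t, ht⟩ := ev 1; exact ⟨t - j, by omega⟩
    rw [he] at e3
    have fx : ∀ i : ℤ, ¬ (2 : ℤ) ^ (k + 2) ∣ 2 * j + 2 * e * i := fun i f => nc i (by
      rw [← mul_left_inj b, e3, mul_assoc _ b, b2, mul_one, show 2 * j + (2 * e + 1) * i = 2 * j + 2 * e * i + i by ring, zpow_add,
        (zp_one o).2 f, one_mul])
    rcases e.even_or_odd with ee | eo
    · have d : (2 : ℤ) ^ (k + 2) ∣ 2 * (2 * j) * (e + 1) := by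
        have := e3 (2 * j)
        rw [← e0, ← mul_assoc, ← mul_assoc, b2, one_mul, mul_assoc, b2, mul_one, eq_comm, mul_eq_left, zp_one o] at this
        convert this using 1; ring
      rcases zp_two o p ((Int.isCoprime_two_left.2 ee.add_one).pow_left.dvd_of_dvd_mul_right d) with f | f
      · exact fx 0 (by simpa using (zp_one o).1 f)
      · have := h.ptn (al 0) (al _) (h.ptw a2 iv p' 0) (h.mem b hb) b2 (h.cz b hb) (by rw [zpow_zero, mul_one, e0, f])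
        exact nc _ this
    · obtain ⟨x, y, f⟩ := (Int.isCoprime_two_left.2 eo).pow_left (m := k + 2)
      exact fx (-j * y) ⟨2 * j * x, by linear_combination (-2 * j) * f⟩
  by_contra n
  have lt : S ⊓ 𝐂[z] ⊓ normalizer R < S ⊓ 𝐂[z] := inf_lt_left.2 fun l => n fun b hb =>
    key b hb (l ⟨h.mem b hb, mem_cent1.2 (h.cz b hb)⟩)
  obtain ⟨x, hx, n1, -, n2⟩ := PGroup.exists_mem_normalizer_of_lt (h.pg.to_le inf_le_left) lt
  refine n1 ⟨hx, nr x ?_⟩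
  rintro _ ⟨i, rfl⟩
  refine key _ (h.cj x hx.1 (mem_cent1.1 hx.2) _ (al i)) (conj_mem_of_norm n2 ⟨⟨h.mem _ (al i), mem_cent1.2 (h.cz _ (al i))⟩, nr _ ?_⟩).2
  rintro _ ⟨j, rfl⟩
  exact ⟨i - j + i, by rw [inv_eq_of_mul_eq_one_left (h.sq _ (al i)), mul_assoc, iv2 a2 iv, mul_assoc, ← zpow_add, add_comm]⟩

omit [Finite G] in
theorem coord (d : Dd z I a ρ k) (hb : b ∈ S) (h2 : b * z = z * b) :
    ∃ m e : ℤ, b * a * b⁻¹ = a * ρ ^ m ∧ b * ρ * b⁻¹ = ρ ^ (2 * e + 1) := by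
  obtain ⟨m, e0⟩ := (d.iff _).1 (h.cj b hb h2 _ d.mem0)
  obtain ⟨m', e1⟩ := (d.iff _).1 (h.cj b hb h2 _ d.mem1)
  have a2 := h.sq a d.mem0
  have e2 : b * ρ * b⁻¹ = ρ ^ (m' - m) := by
    rw [← iv2 a2 d.inv, ← e0, ← e1, conj_mul, ← mul_assoc a, a2, one_mul]
  obtain ⟨e, he | he⟩ := (m' - m).even_or_odd'
  · have : (b * ρ * b⁻¹) ^ (2 : ℤ) ^ (k + 1) = 1 := by rw [e2, ← zpow_mul, zp_one d.ord, he]; exact ⟨e, by ring⟩
    rw [conj_zpow, d.pw, conj_eq_one_iff] at this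
    exact absurd this h.z1
  · exact ⟨m, e, e0, he ▸ e2⟩

/-- `b a ρ^i b = a ρ^(j + ε i)`.  If `b c b = c z` for a reflection `c` then `b` fixes the partner `c ρ^(±n/4)`. -/
theorem inv (d : Dd z I a ρ k) (hb : b ∈ S) (h1 : b * b = 1) (h2 : b * z = z * b) :
    (∀ c ∈ I, b * c = c * b) ∨ b * ρ * b = ρ⁻¹ ∨ 1 ≤ k ∧ b * ρ * b = ρ⁻¹ * z := by
  obtain ⟨m, e, e0, e2⟩ := h.coord d hb h2
  rw [inv_eq_of_mul_eq_one_left h1] at e0 e2
  have a2 := h.sq a d.mem0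
  have o := d.ord
  have e3 : ∀ i : ℤ, b * (a * ρ ^ i) * b = a * ρ ^ (m + (2 * e + 1) * i) := fun i => by
    rw [zpow_add, zpow_mul, ← e2, ← cj_zpow h1, ← mul_assoc a, ← e0, mul_assoc (b * a), ← mul_assoc b (b * _), ← mul_assoc b b,
      h1, one_mul]
    simp only [mul_assoc]
  have d1 : (2 : ℤ) ^ (k + 2) ∣ 2 * (2 * e) * (e + 1) := by
    have : b * (b * ρ * b) * b = ρ := by rw [← mul_assoc, ← mul_assoc, h1, one_mul, mul_assoc, h1, mul_one]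
    rw [e2, cj_zpow h1, e2, ← zpow_mul, ← mul_inv_eq_one, ← zpow_sub_one, zp_one o] at this
    convert this using 1; ring
  rcases e.even_or_odd with ee | eo
  · have c := (Int.isCoprime_two_left.2 ee.add_one).pow_left (m := k + 2)
    have d2 : (2 : ℤ) ^ (k + 2) ∣ 2 * m * (e + 1) := by
      have := e3 m
      rw [← e0, ← mul_assoc, ← mul_assoc, h1, one_mul, mul_assoc, h1, mul_one, eq_comm, mul_eq_left, zp_one o] at this
      convert this using 1; ring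
    have nz : ∀ i : ℤ, ρ ^ (m + 2 * e * i) ≠ z := fun i f => h.z1 <| by
      have g : ∀ j : ℤ, b * (a * ρ ^ j) * b = a * ρ ^ j * ρ ^ (m + 2 * e * j) := fun j => by
        rw [e3, mul_assoc, ← zpow_add]; congr 2; ring
      have := h.ptn (d.mem i) (d.mem _) (h.ptw a2 d.inv d.pw i) hb h1 h2 (by rw [g, f])
      rw [← mul_left_inj b, g, mul_assoc _ b, h1, mul_right_inj, mul_add, ← add_assoc, zpow_add, f] at this
      obtain ⟨t, rfl⟩ := ee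
      rwa [(zp_one o).2 ⟨t, by ring⟩, mul_one] at this
    have m0 := (zp_two o d.pow (c.dvd_of_dvd_mul_right d2)).resolve_right (by simpa using nz 0)
    have m1 := (zp_two o d.pow (c.dvd_of_dvd_mul_right d1)).resolve_right (by simpa [zpow_add, m0] using nz 1)
    refine .inl fun c hc => ?_
    obtain ⟨i, rfl⟩ := (d.iff c).1 hc
    rw [← mul_left_inj b, e3, mul_assoc _ b, h1, mul_one, zpow_add, m0, one_mul, zpow_mul, zpow_add, m1, one_mul, zpow_one]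
  · have d2 : (2 : ℤ) ^ (k + 2) ∣ 2 * (2 * (e + 1)) :=
      ((Int.isCoprime_two_left.2 eo).pow_left (m := k + 2)).dvd_of_dvd_mul_right (by rwa [show 2 * (2 * (e + 1)) * e = 2 * (2 * e) * (e + 1) by ring])
    have g : b * ρ * b = ρ⁻¹ * ρ ^ (2 * (e + 1)) := by rw [e2, ← zpow_neg_one, ← zpow_add]; congr 1; ring
    rcases zp_two o d.pow d2 with f | f
    · exact .inr (.inl (by rw [g, f, mul_one]))
    · refine .inr (.inr ⟨Nat.pos_of_ne_zero fun k0 => h.z1 ?_, by rw [g, f]⟩)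
      obtain ⟨t, rfl⟩ := eo
      rw [← f, zp_one o, k0]; exact ⟨t + 1, by ring⟩

theorem inv' (d : Dd z I a ρ k) (hb : b ∈ S) (h1 : b * b = 1) (h2 : b * z = z * b) :
    (∀ c ∈ I, b * c = c * b) ∨ b * ρ ^ (2 : ℤ) ^ k * b = ρ ^ (-(2 : ℤ) ^ k) := by
  refine (h.inv d hb h1 h2).imp_right fun e => ?_
  rw [cj_zpow h1]
  rcases e with e | ⟨l, e⟩ <;> rw [e]
  · rw [inv_zpow']
  · obtain ⟨j, rfl⟩ := Nat.exists_eq_add_of_le' l
    rw [← d.pw, ← zpow_neg_one, ← zpow_add, ← zpow_mul, ← mul_inv_eq_one, ← zpow_sub, zp_one d.ord]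
    exact ⟨2 ^ j, by ring⟩

omit h [Finite G] in
theorem _root_.Cfsg.Lib.B2C.Dd.w_ne (d : Dd z I a ρ k) : ρ ^ (2 : ℤ) ^ k ≠ ρ ^ (-(2 : ℤ) ^ k) := fun e => by
  rw [← mul_inv_eq_one, ← zpow_sub, zp_one d.ord, sub_neg_eq_add, ← two_mul, ← pow_succ'] at e
  exact absurd (Int.le_of_dvd (by positivity) e) (not_le.2 (pow_lt_pow_right₀ one_lt_two (by omega)))

omit [Finite G] in
theorem clo (d : Dd z I a ρ k) (hu : u ∈ closure I) : ∃ i : ℤ, u = ρ ^ i ∨ u = a * ρ ^ i := by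
  have a2 := h.sq a d.mem0
  refine closure_induction (p := fun u _ => ∃ i : ℤ, u = ρ ^ i ∨ u = a * ρ ^ i) (fun x m => ((d.iff x).1 m).imp fun _ => .inr)
    ⟨0, .inl (zpow_zero ρ).symm⟩ ?_ ?_ hu
  · rintro _ _ - - ⟨i, rfl | rfl⟩ ⟨j, rfl | rfl⟩
    exacts [⟨i + j, .inl (zpow_add ρ i j).symm⟩, ⟨-i + j, .inr (by rw [← mul_assoc, iv1 a2 d.inv, mul_assoc, zpow_add])⟩,
      ⟨i + j, .inr (by rw [mul_assoc, zpow_add])⟩, ⟨j - i, .inl (iv2 a2 d.inv i j)⟩]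
  · rintro _ - ⟨i, rfl | rfl⟩
    exacts [⟨-i, .inl (zpow_neg ρ i).symm⟩, ⟨i, .inr (inv_eq_of_mul_eq_one_left (h.sq _ (d.mem i)))⟩]

omit [Finite G] in
theorem rho (d : Dd z I a ρ k) : ρ ∈ closure I :=
  (mul_mem_cancel_left (subset_closure d.mem0)).1 (subset_closure d.mem1)

theorem cent (ha : a ∈ I) (ha' : a' ∈ I) (e : a' * a * a' = a * z) (hu : u ∈ closure I)
    (h1 : u * a = a * u) (h2 : u * a' = a' * u) : u = 1 ∨ u = z := by
  obtain ⟨ρ, k, d⟩ := h.dih ha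
  obtain ⟨i, rfl | rfl⟩ := h.clo d hu
  · rw [iv1 (h.sq a ha) d.inv, mul_right_inj, eq_comm, ← mul_inv_eq_one, ← zpow_sub, zp_one d.ord, sub_neg_eq_add, ← two_mul] at h1
    exact zp_two d.ord d.pow h1
  · have c : Commute a a' := by
      rcases h.cm a ha _ (d.mem i) h1.symm with f | f <;> rw [f] at h2
      exacts [h2, by simpa [mul_assoc, inv_eq_of_mul_eq_one_left h.z2, h.z2] using Commute.mul_left h2 (h.cz a' ha').symm]
    rw [← c.eq, mul_assoc, h.sq a' ha', mul_right_inj] at e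
    exact absurd e.symm h.z1

theorem i2 (hB : IsElementaryAbelian 2 B) (h1 : B ≤ S ⊓ 𝐂[z]) : I2 𝐂(closure I) B := fun x hx y hy n n' => by
  have c : ∀ b : G, (∀ c ∈ I, b * c = c * b) → b ∈ 𝐂(closure I) := fun b e =>
    centralizer_closure I ▸ fun c m => (e c m).symm
  obtain rfl | ⟨a, ha⟩ := I.eq_empty_or_nonempty
  · exact c _ fun _ m => m.elim
  obtain ⟨ρ, k, d⟩ := h.dih ha
  have i : ∀ b ∈ B, _ := fun b m => h.inv' d (h1 m).1 ((pow_two b).symm.trans (hB.2 b m)) (mem_cent1.1 (h1 m).2)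
  have x2 : x * x = 1 := (pow_two x).symm.trans (hB.2 x hx)
  have ex := (i x hx).resolve_left (mt (c x) n)
  have ey := (i y hy).resolve_left (mt (c y) n')
  rw [inv_eq_of_mul_eq_one_left x2]
  refine c _ ((i _ (mul_mem hx hy)).resolve_right fun e => d.w_ne ?_)
  have cm : x * y = y * x := congrArg Subtype.val (hB.1.1.1 ⟨x, hx⟩ ⟨y, hy⟩)
  rw [← e]
  nth_rw 2 [cm]
  rw [mul_assoc x, mul_assoc x, ← mul_assoc (y * _), ey, zpow_neg, ← inv_inv x, ← mul_inv_rev, ← mul_inv_rev,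
    inv_eq_of_mul_eq_one_left x2, ex, ← zpow_neg, neg_neg]

end Rs

end Cfsg.Lib.B2C
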