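import Cfsg.Agent.Lib.B2C.Dih

/-!
Pure 2-group theory: preparation for transfer.  `Δ = closure I = ⟨a, ρ⟩ ⊴ S`, `n = |ρ|`, `ε : S → (ℤ/n)ˣ` the
action on `⟨ρ⟩`, `K = C_S(Δ)`, `C = f a ≠ 1`.
* `K ≤ ⟨z⟩ × f b` for `b ∈ I`; `K ⊓ f a ⊓ f (a ρ) = 1` (each reflection is `Δ`-conjugate to `a` or `a ρ`).
* Involutions of `f b` lie in `K` (`Rs.inv`; they centralize `ρ^(n/4)`), so `C` has a unique involution `y`,
  `K = ⟨z, y⟩`, `S`-conjugates of `y` are `y`, `y z`; `f b` has no involution but `y` or `y z`; `Δ ⊓ f b = 1`.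
* `ε(C) ≤ U₁ = {1 mod 4}` is cyclic with kernel `⟨y⟩`, so `C` is abelian.  `S* = Δ C` is the stabilizer of the
  `Δ`-class of `a`, of index `≤ 2`; `ker ε ⊓ S* = ⟨ρ, y⟩`.
* `S / Δ` is abelian: let `s ∉ S*` with `ε(s) ∈ U₁` (replace `s` by `s a`), `c ∈ C`; `[s, c] ∈ ⟨ρ, y⟩`.  If
  `ε(c) ∈ ⟨ε(s²)⟩` then `c ∈ s^(2j) ⟨ρ, y⟩` commutes with `s` modulo `Δ`.  Otherwise `ε(s) ∈ ε(C)`, replace `s` by `r`
  with `ε(r) = 1`; `r y r⁻¹ = y z`, `r² ∈ ⟨ρ⟩`, `w = a r a r ∈ ⟨ρ⟩` is centralized by `a`, so `w ∈ ⟨z⟩`; if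
  `c r c⁻¹ = r ρ^i y` then `c w c⁻¹ = w z`, absurd.
* `T` maximal with `Δ ≤ T ≤ S`, `y ∉ T`: `S / T` is abelian with a unique involution, so cyclic.  If `u ∈ T` is as
  in the statement, it commutes with a reflection `b` (else with `ρ`, against `Rs.inv`), `u ∈ ⟨b, z⟩ c`, `c ∈ f b`,
  `c² = 1`, and `c = 1` since `y ∉ T`.
-/

set_option autoImplicit false

namespace Cfsg.Lib.B2C

open Subgroup Cfsg.Lib.BG Cfsg.Lib.Transfer Cfsg.Lib.Loc Cfsg.Lib.PLocal Cfsg.Lib.CGT Cfsg.Lib.PU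
open Cfsg.Lib.CS Cfsg.Lib.Root Cfsg.Lib.Core Cfsg.Lib.GC
open scoped commutatorElement

theorem lift_pow {a : ℕ} {o e : ℤ} (ha : 2 ≤ a) (ho : Odd o) (he : 2 ^ a ∣ e - 1) (m : ℕ) :
    ∃ j : ℕ, (2 : ℤ) ^ (a + m) ∣ e - (1 + 2 ^ a * o) ^ j := by
  obtain ⟨b, rfl⟩ := Nat.exists_eq_add_of_le' ha
  have k : ∀ m, ∃ o', Odd o' ∧ (1 + 2 ^ (b + 2) * o) ^ 2 ^ m = 1 + 2 ^ (b + 2 + m) * o' := fun m => by
    induction m with
    | zero => exact ⟨o, ho, by simp⟩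
    | succ m ih =>
      obtain ⟨p, hp, e⟩ := ih
      exact ⟨p + 2 * (2 ^ (b + m) * p ^ 2), hp.add_even (even_two_mul _), by rw [pow_succ 2 m, pow_mul, e]; ring⟩
  induction m with
  | zero => exact ⟨0, by simpa using he⟩
  | succ m ih =>
    obtain ⟨j, t, e1⟩ := ih
    obtain ⟨p, hp, e2⟩ := k m
    rcases t.even_or_odd with ⟨s, rfl⟩ | ht
    · exact ⟨j, s, by rw [e1]; ring⟩
    · have : Odd (1 + 2 ^ (b + 2) * o) := ⟨2 ^ (b + 1) * o, by ring⟩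
      obtain ⟨s, hs⟩ := ht.sub_odd ((this.pow (n := j)).mul hp)
      exact ⟨j + 2 ^ m, s, by rw [pow_add _ j, e2]; linear_combination e1 + 2 ^ (b + 2 + m) * hs⟩

theorem chain (n : ℕ) {e f : ℤ} (he : 4 ∣ e - 1) (hf : 4 ∣ f - 1) :
    (∃ j : ℕ, (2 : ℤ) ^ n ∣ e - f ^ j) ∨ ∃ j : ℕ, (2 : ℤ) ^ n ∣ f - e ^ j := by
  have k : ∀ e : ℤ, 4 ∣ e - 1 → e = 1 ∨ ∃ a o, 2 ≤ a ∧ Odd o ∧ e = 1 + 2 ^ a * o := fun e h => or_iff_not_imp_left.2 fun n => by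
    obtain ⟨t, ht⟩ := h
    obtain ⟨a, o, h1, h2⟩ := WfDvdMonoid.max_power_factor (a₀ := t) (by rintro rfl; omega) Int.prime_two.irreducible
    exact ⟨a + 2, o, by omega, Int.not_even_iff_odd.1 (mt even_iff_two_dvd.1 h1), by linear_combination ht + 4 * h2⟩
  obtain rfl | ⟨a, o, h1, h2, rfl⟩ := k e he
  · exact .inl ⟨0, by simp⟩
  obtain rfl | ⟨b, p, h3, h4, rfl⟩ := k f hf
  · exact .inr ⟨0, by simp⟩
  refine (le_total b a).imp (fun l => ?_) fun l => ?_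
  exacts [(lift_pow h3 h4 (by simpa using (pow_dvd_pow 2 l).mul_right o) n).imp fun _ => (pow_dvd_pow 2 (by omega)).trans,
    (lift_pow h1 h2 (by simpa using (pow_dvd_pow 2 l).mul_right p) n).imp fun _ => (pow_dvd_pow 2 (by omega)).trans]

variable {G : Type*} [Group G] [Finite G] {S : Subgroup G} {I : Set G} {a b c l r s u v y z ρ : G} {k : ℕ} {f : G → Subgroup G}

/-- The hypotheses of `Rs.transfer` with coordinates. -/
structure Tf (S : Subgroup G) (z : G) (I : Set G) (f : G → Subgroup G) (a ρ : G) (k : ℕ) (y : G) : Prop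
    extends Rs S z I, Dd z I a ρ k where
  hz : S ≤ 𝐂[z]
  h1 : ∀ a ∈ I, f a ≤ S ⊓ 𝐂[a]
  h2 : ∀ a ∈ I, ∀ a' ∈ I, a' * a * a' = a * z → f a ≤ 𝐂[a']
  h3 : ∀ a ∈ I, S ⊓ 𝐂[a] ≤ zpowers a ⊔ zpowers z ⊔ f a
  h4 : ∀ a ∈ I, z ∉ f a
  h5 : ∀ s ∈ S, ∀ a ∈ I, f (s * a * s⁻¹) = s ⋆ f a
  h6 : ∀ c, (∀ a ∈ I, c ∈ f a) → c = 1
  ym : y ∈ f a
  y1 : y ≠ 1
  y2 : y * y = 1

namespace Tf

variable (h : Tf S z I f a ρ k y)
include h

omit [Finite G]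

theorem a2 : a * a = 1 := h.sq a h.toDd.mem0
theorem zc (m : s ∈ S) : Commute s z := mem_cent1.1 (h.hz m)
theorem ρS : ρ ∈ S := (mul_mem_cancel_left (h.mem a h.toDd.mem0)).1 (h.mem _ h.toDd.mem1)
theorem fS (hb : b ∈ I) (m : c ∈ f b) : c ∈ S := (h.h1 b hb m).1
theorem fc (hb : b ∈ I) (m : c ∈ f b) : Commute c b := mem_cent1.1 (h.h1 b hb m).2

theorem cK : (∀ c ∈ I, u * c = c * u) ↔ Commute u a ∧ Commute u ρ :=
  ⟨fun e => ⟨e a h.toDd.mem0, by simpa [← mul_assoc, h.a2] using Commute.mul_right (e a h.toDd.mem0) (e _ h.toDd.mem1)⟩,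
    fun e c m => by obtain ⟨i, rfl⟩ := (h.iff c).1 m; exact e.1.mul_right (e.2.zpow_right i)⟩

theorem par (hb : b ∈ I) : ∃ b' ∈ I, b' * b * b' = b * z ∧ b * b' = ρ ^ (2 : ℤ) ^ k := by
  obtain ⟨i, rfl⟩ := (h.iff b).1 hb
  exact ⟨_, h.toDd.mem _, h.toRs.ptw h.a2 h.toDd.inv h.toDd.pw i, by rw [iv2 h.a2 h.toDd.inv, add_sub_cancel_left]⟩

theorem fw (hb : b ∈ I) (m : c ∈ f b) : Commute c (ρ ^ (2 : ℤ) ^ k) :=
  let ⟨b', a, e, e'⟩ := h.par hb; e' ▸ (h.fc hb m).mul_right (mem_cent1.1 (h.h2 b hb b' a e m))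

theorem dec (hb : b ∈ I) (m : u ∈ S) (e : Commute u b) : ∃ c ∈ f b, ∃ v, (v = 1 ∨ v = z ∨ v = b ∨ v = b * z) ∧ u = v * c := by
  have t : ∀ {x t : G}, t * t = 1 → x ∈ zpowers t → x = 1 ∨ x = t := by
    rintro _ t e ⟨i, rfl⟩
    obtain ⟨s, rfl | rfl⟩ := i.even_or_odd' <;> simp [zpow_add, zpow_mul, pow_two, e]
  obtain ⟨v, i, c, j, rfl⟩ := (mem_sup_left_norm (norm_of_cent (le_centralizer_iff.1 (sup_le (zpowers_le.2 fun c m => h.fc hb m)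
    (zpowers_le.2 fun c m => h.zc (h.fS hb m)))))).1 (h.h3 b hb ⟨m, mem_cent1.2 e⟩)
  obtain ⟨p, i', q, j', rfl⟩ := (mem_sup_left_norm (norm_of_cent (zpowers_le.2 fun c m => by
    obtain ⟨i, rfl⟩ := m; exact Commute.zpow_left (h.cz b hb) i))).1 i
  refine ⟨c, j, _, ?_, rfl⟩
  rcases t (h.sq b hb) i' with rfl | rfl <;> rcases t h.z2 j' with rfl | rfl <;> simp

theorem f3 (hb : b ∈ I) (m : u ∈ S) (e : ∀ c ∈ I, u * c = c * u) : u ∈ f b ∨ z * u ∈ f b := by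
  obtain ⟨c, j, v, i, rfl⟩ := h.dec hb m (e b hb)
  obtain ⟨b', a, e1, -⟩ := h.par hb
  have c1 : Commute v b' := by simpa using Commute.mul_left (e b' a) (Commute.inv_left (mem_cent1.1 (h.h2 b hb b' a e1 j)))
  have n : ¬ Commute b b' := fun k => h.z1 (by rwa [← k.eq, mul_assoc, h.sq b' a, mul_right_inj, eq_comm] at e1)
  rcases i with rfl | rfl | rfl | rfl
  exacts [.inl (by simpa using j), .inr (by rwa [← mul_assoc, h.z2, one_mul]), absurd c1 n,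
    absurd (by simpa [mul_assoc, h.z2] using c1.mul_left (h.cz b' a).symm) n]

theorem ev (i j : ℤ) : ρ ^ (-j) * (a * ρ ^ i) * (ρ ^ (-j))⁻¹ = a * ρ ^ (2 * j + i) := by
  rw [← mul_assoc, iv1 h.a2 h.toDd.inv, ← zpow_neg, neg_neg, mul_assoc, mul_assoc, ← zpow_add, ← zpow_add]; congr 2; ring

theorem fev (e : Commute u ρ) (i j : ℤ) : u ∈ f (a * ρ ^ (2 * j + i)) ↔ u ∈ f (a * ρ ^ i) := by
  rw [← h.ev, h.h5 _ (zpow_mem h.ρS _) _ (h.toDd.mem i), mem_conj, ← (e.zpow_right _).inv_right.eq, inv_mul_cancel_right]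

theorem f4 (e : Commute u ρ) (m : u ∈ f a) (m' : u ∈ f (a * ρ)) : u = 1 := h.h6 u fun b hb => by
  obtain ⟨i, rfl⟩ := (h.iff b).1 hb
  obtain ⟨j, rfl | rfl⟩ := i.even_or_odd'
  exacts [add_zero (2 * j) ▸ (h.fev e 0 j).2 (by simpa using m), (h.fev e 1 j).2 (by simpa using m')]

theorem act (m : s ∈ S) : ∃ m e : ℤ, s * a * s⁻¹ = a * ρ ^ m ∧ s * ρ * s⁻¹ = ρ ^ (2 * e + 1) :=
  h.toRs.coord h.toDd m (h.zc m)

theorem ch (m : u ∈ S) (m' : v ∈ S) (c : Commute u (ρ ^ (2 : ℤ) ^ k)) (c' : Commute v (ρ ^ (2 : ℤ) ^ k)) :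
    (∃ j : ℕ, Commute ((v ^ j)⁻¹ * u) ρ) ∨ ∃ j : ℕ, Commute ((u ^ j)⁻¹ * v) ρ := by
  have k1 : ∀ u ∈ S, Commute u (ρ ^ (2 : ℤ) ^ k) → ∃ e : ℤ, 4 ∣ e - 1 ∧ u * ρ * u⁻¹ = ρ ^ e := fun u m c => by
    obtain ⟨-, e, -, g⟩ := h.act m
    refine ⟨_, ?_, g⟩
    have := c.mul_inv_cancel
    rw [← conj_zpow, g, ← zpow_mul, ← mul_inv_eq_one, ← zpow_sub, zp_one h.toDd.ord,
      show (2 * e + 1) * 2 ^ k - 2 ^ k = 2 ^ k * (2 * e + 1 - 1) by ring, pow_add, mul_dvd_mul_iff_left (by positivity)] at this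
    exact this
  have k2 : ∀ {u v : G} {e g : ℤ}, u * ρ * u⁻¹ = ρ ^ e → v * ρ * v⁻¹ = ρ ^ g → (∃ j : ℕ, (2 : ℤ) ^ (k + 2) ∣ e - g ^ j) →
      ∃ j : ℕ, Commute ((v ^ j)⁻¹ * u) ρ := fun {u v e g} p q ⟨j, d⟩ => ⟨j, by
    have : ∀ j : ℕ, v ^ j * ρ * (v ^ j)⁻¹ = ρ ^ g ^ j := fun j => by
      induction j with
      | zero => simp
      | succ j ih => rw [pow_succ g, mul_comm, zpow_mul, ← q, conj_zpow, ← ih, pow_succ']; group
    have := this j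
    rw [← zp_one h.toDd.ord, zpow_sub, mul_inv_eq_one, ← p, ← this] at d
    rw [commute_iff_eq, mul_assoc, mul_inv_eq_iff_eq_mul.1 d]; group⟩
  obtain ⟨e, a1, a2⟩ := k1 u m c
  obtain ⟨g, b1, b2⟩ := k1 v m' c'
  exact (chain (k + 2) a1 b1).imp (k2 a2 b2) (k2 b2 a2)

variable [Finite G]

theorem f2 (hb : b ∈ I) (m : c ∈ f b) (e : c * c = 1) : ∀ x ∈ I, c * x = x * c :=
  (h.toRs.inv' h.toDd (h.fS hb m) e (h.zc (h.fS hb m))).resolve_right fun g =>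
    h.toDd.w_ne (by rw [← g, (h.fw hb m).eq, mul_assoc, e, mul_one])

theorem yS : y ∈ S := h.fS h.toDd.mem0 h.ym
theorem yK : ∀ x ∈ I, y * x = x * y := h.f2 h.toDd.mem0 h.ym h.y2
theorem yρ : Commute y ρ := (h.cK.1 h.yK).2
theorem yn : y ∉ f (a * ρ) := fun m => h.y1 (h.f4 h.yρ h.ym m)

theorem ka (m : u ∈ f a) (e : Commute u ρ) : u = 1 ∨ u = y := by
  have m0 := h.toDd.mem0
  refine (h.f3 h.toDd.mem1 (h.fS m0 m) (h.cK.2 ⟨h.fc m0 m, e⟩)).imp (h.f4 e m) fun g => ?_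
  have := mul_mem (inv_mem ((h.f3 h.toDd.mem1 h.yS h.yK).resolve_left h.yn)) g
  rw [mul_inv_rev, mul_assoc, inv_mul_cancel_left] at this
  exact (inv_mul_eq_one.1 (h.f4 (h.yρ.inv_left.mul_left e) (mul_mem (inv_mem h.ym) m) this)).symm

theorem k4 (m : u ∈ S) (e : ∀ c ∈ I, u * c = c * u) : (u = 1 ∨ u = y) ∨ u = z ∨ u = z * y := by
  refine (h.f3 h.toDd.mem0 m e).imp (h.ka · (h.cK.1 e).2) fun g => ?_
  refine (h.ka g ((h.zc h.ρS).symm.mul_left (h.cK.1 e).2)).imp (fun e => ?_) fun e => ?_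
  exacts [by rw [← one_mul u, ← h.z2, mul_assoc, e, mul_one], by rw [← e, ← mul_assoc, h.z2, one_mul]]

theorem cy (m : s ∈ S) : s * y * s⁻¹ = y ∨ s * y * s⁻¹ = z * y := by
  rcases h.k4 (mul_mem (mul_mem m h.yS) (inv_mem m)) (fun c hc => by
    have := h.yK _ (h.cj _ (inv_mem m) (h.zc m).inv_left c hc)
    rw [inv_inv] at this
    calc _ = s * (y * (s⁻¹ * c * s)) * s⁻¹ := by group
      _ = _ := by rw [this]; group) with (e | e) | e | e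
  · exact absurd (conj_eq_one_iff.1 e) h.y1
  · exact .inl e
  · rw [mul_inv_eq_iff_eq_mul, ← (h.zc m).eq, mul_right_inj] at e
    exact absurd (e ▸ h.ym) (h.h4 a h.toDd.mem0)
  · exact .inr e

theorem fy (m : c ∈ f a) : Commute c y := by
  refine mul_inv_eq_iff_eq_mul.1 ((h.cy (h.fS h.toDd.mem0 m)).resolve_right fun e => h.h4 a h.toDd.mem0 ?_)
  exact (mul_mem_cancel_right h.ym).1 (e ▸ mul_mem (mul_mem m h.ym) (inv_mem m))

theorem ff (m : c ∈ f a) (m' : u ∈ f a) : Commute c u := by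
  have k : ∀ {c u}, c ∈ f a → u ∈ f a → (∃ j : ℕ, Commute ((u ^ j)⁻¹ * c) ρ) → Commute c u := fun {c u} m m' ⟨j, e⟩ => by
    rcases h.ka (mul_mem (inv_mem (pow_mem m' j)) m) e with g | g <;> rw [inv_mul_eq_iff_eq_mul.1 g]
    exacts [(mul_one (u ^ j)).symm ▸ Commute.pow_self u j, (Commute.pow_self u j).mul_left (h.fy m').symm]
  have m0 := h.toDd.mem0
  exact (h.ch (h.fS m0 m) (h.fS m0 m') (h.fw m0 m) (h.fw m0 m')).elim (k m m') fun e => (k m' m e).symm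

theorem l0 (m : l ∈ S) (c : Commute l ρ) {j : ℤ} (e : l * a * l⁻¹ = a * ρ ^ (2 * j)) : ∃ i : ℤ, l = ρ ^ i ∨ l = ρ ^ i * y := by
  have := h.ev 0 j
  rw [zpow_zero, mul_one, add_zero, ← e] at this
  rcases h.k4 (mul_mem (zpow_mem h.ρS j) m) (h.cK.2 ⟨by
    rw [commute_iff_eq, mul_assoc, mul_inv_eq_iff_eq_mul.1 this.symm]; group, (Commute.zpow_self ρ j).mul_left c⟩) with (g | g) | g | g <;>
    rw [← eq_inv_mul_iff_mul_eq, ← zpow_neg] at g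
  exacts [⟨-j, .inl (by simpa using g)⟩, ⟨-j, .inr g⟩, ⟨_, .inl (by rw [g, ← h.toDd.pw, ← zpow_add])⟩,
    ⟨_, .inr (by rw [g, ← h.toDd.pw, ← mul_assoc, ← zpow_add])⟩]

theorem lr (m : r ∈ S) (c1 : Commute r ρ) {j : ℤ} (e : r * a * r⁻¹ = a * ρ ^ (2 * j + 1)) (hc : c ∈ f a) :
    ∃ i : ℤ, c * r * c⁻¹ = r * ρ ^ i := by
  have m0 := h.toDd.mem0
  have ry : r * y * r⁻¹ = z * y := (h.cy m).resolve_left fun g => h.yn (by
    have := (h.fev h.yρ 1 j).1 (by rw [← e, h.h5 r m a m0, ← g]; exact conj_mem_conj.2 h.ym)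
    simpa using this)
  have ra : r * a = a * ρ ^ (2 * j + 1) * r := mul_inv_eq_iff_eq_mul.1 e
  obtain ⟨i, r2⟩ : ∃ i : ℤ, r * r = ρ ^ i := by
    obtain ⟨i, g | g⟩ := h.l0 (mul_mem m m) (c1.mul_left c1) (j := 2 * j + 1) (by
      calc _ = r * (r * a * r⁻¹) * r⁻¹ := by group
        _ = r * a * r⁻¹ * (r * ρ ^ (2 * j + 1) * r⁻¹) := by conv_lhs => rw [e]
                                                            group
        _ = _ := by rw [e, (c1.zpow_right _).mul_inv_cancel, mul_assoc, ← zpow_add, ← two_mul])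
    · exact ⟨i, g⟩
    · have : Commute r y := by simpa [g] using ((c1.zpow_right i).inv_right.mul_right ((Commute.refl r).mul_right (.refl r)))
      rw [this.mul_inv_cancel, right_eq_mul] at ry
      exact absurd ry h.z1
  obtain ⟨-, t, -, g⟩ := h.act (h.fS m0 hc)
  obtain ⟨-, t', -, g'⟩ := h.act (inv_mem (h.fS m0 hc))
  have c2 : Commute (c * r * c⁻¹) ρ := by
    have := (c1.zpow_right (2 * t' + 1)).conj c
    rw [← g'] at this
    simpa [mul_assoc] using this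
  have cS := h.fS m0 hc
  obtain ⟨i', q | q⟩ := h.l0 (l := r⁻¹ * (c * r * c⁻¹)) (mul_mem (inv_mem m) (mul_mem (mul_mem cS m) (inv_mem cS)))
    (c1.inv_left.mul_left c2) (j := (2 * j + 1) * t) (by
      have e1 : c * r * c⁻¹ * a * (c * r * c⁻¹)⁻¹ = a * ρ ^ ((2 * t + 1) * (2 * j + 1)) := by
        rw [zpow_mul, ← g, conj_zpow]
        calc _ = c * (r * (c⁻¹ * a * c) * r⁻¹) * c⁻¹ := by group
          _ = c * a * c⁻¹ * (c * ρ ^ (2 * j + 1) * c⁻¹) := by rw [(h.fc m0 hc).inv_mul_cancel, e]; group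
          _ = _ := by rw [(h.fc m0 hc).mul_inv_cancel]
      calc _ = r⁻¹ * (c * r * c⁻¹ * a * (c * r * c⁻¹)⁻¹) * r := by group
        _ = r⁻¹ * (a * ρ ^ (2 * j + 1) * r) * ρ ^ (2 * ((2 * j + 1) * t)) := by
          rw [e1, mul_assoc, mul_assoc, ← (c1.zpow_right _).eq, mul_assoc, mul_assoc, mul_assoc, (c1.zpow_right (2 * (_ * t))).eq,
            (c1.zpow_right _).eq, ← mul_assoc (ρ ^ _), ← zpow_add]
          congr 4; ring
        _ = _ := by rw [← ra, inv_mul_cancel_left])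
  · exact ⟨i', inv_mul_eq_iff_eq_mul.1 q⟩
  exfalso
  rw [inv_mul_eq_iff_eq_mul] at q
  have w : a * r * (a * r) = ρ ^ (2 * j + 1 + i) := by
    rw [mul_assoc, ← mul_assoc r, ra, zpow_add _ _ i, ← r2, ← mul_assoc, ← mul_assoc, ← mul_assoc, h.a2, one_mul, mul_assoc]
  have wa : Commute (ρ ^ (2 * j + 1 + i)) a := by
    have := (w ▸ (Commute.refl (a * r)).mul_left (.refl _)).mul_right (c1.zpow_right _).symm.inv_right
    rwa [mul_inv_cancel_right] at this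
  rw [commute_iff_eq, iv1 h.a2 h.toDd.inv, mul_right_inj, eq_comm, ← mul_inv_eq_one, ← zpow_sub, zp_one h.toDd.ord, sub_neg_eq_add,
    ← two_mul] at wa
  have wc : c * (a * r * (a * r)) * c⁻¹ = a * r * (a * r) := by
    rw [w]
    rcases zp_two h.toDd.ord h.toDd.pow wa with o | o <;> rw [o]
    exacts [by simp, (h.zc cS).mul_inv_cancel]
  rw [← conj_mul, ← conj_mul, q, (h.fc m0 hc).mul_inv_cancel] at wc
  have yr : y * r = r * (z * y) := by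
    rw [← mul_assoc, (h.zc m).eq, ← mul_left_cancel_iff (a := z), mul_assoc z r, ← mul_assoc z z, h.z2, one_mul, ← mul_assoc, ← ry,
      inv_mul_cancel_right]
  refine h.z1 (mul_left_cancel (a := a * r * (a * r)) ?_)
  calc _ = a * r * a * (ρ ^ (-i') * (r * ρ ^ i')) * z * (y * y) := by
        rw [(c1.zpow_right _).eq, ← mul_assoc (ρ ^ _), ← zpow_add, h.y2]; simp [mul_assoc]
    _ = a * (r * (a * ρ ^ (-i') * (r * (ρ ^ i' * z * y) * y))) := by simp only [mul_assoc]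
    _ = a * (r * (ρ ^ i' * (a * (r * (z * y) * (ρ ^ i' * y))))) := by
        rw [← iv1 h.a2 h.toDd.inv, (h.zc (zpow_mem h.ρS _)).eq, mul_assoc z]
        nth_rw 1 [← (h.yρ.zpow_right i').eq]
        simp only [mul_assoc]
    _ = a * (r * (ρ ^ i' * y)) * (a * (r * (ρ ^ i' * y))) := by
        rw [← yr, ← mul_assoc a (y * r), ← mul_assoc a y, ← h.yK a m0]; simp only [mul_assoc]
    _ = _ := by rw [wc, mul_one]

theorem hom : ∃ ψ : S →* ℂˣ, (∀ s : S, s.1 ∈ closure I → ψ s = 1) ∧ ψ ⟨y, h.yS⟩ ≠ 1 := by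
  classical
  have m0 := h.toDd.mem0
  have nΔ : ((closure I).subgroupOf S).Normal := (normal_subgroupOf_iff_le_normalizer ((closure_le S).2 h.mem)).2 fun s m =>
    mem_normalizer_of_conj_le (map_le_iff_le_comap.2 ((closure_le _).2 fun c hc => subset_closure (h.cj s m (h.zc m) c hc)))
  let π : G → S ⧸ (closure I).subgroupOf S := fun g => if m : g ∈ S then (⟨g, m⟩ : S) else 1
  have pm : ∀ {s t}, s ∈ S → t ∈ S → π (s * t) = π s * π t := fun a b => by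
    simp only [π, dif_pos a, dif_pos b, dif_pos (mul_mem a b)]; rfl
  have p1 : ∀ {s}, s ∈ S → (π s = 1 ↔ s ∈ closure I) := fun a => by
    simp only [π, dif_pos a]; exact QuotientGroup.eq_one_iff _
  have pp : ∀ {s}, s ∈ S → ∀ j : ℕ, π (s ^ j) = π s ^ j := fun a j => by simp only [π, dif_pos a, dif_pos (pow_mem a j)]; rfl
  have pρ : ∀ i : ℤ, π (ρ ^ i) = 1 := fun i => (p1 (zpow_mem h.ρS i)).2 (zpow_mem (h.toRs.rho h.toDd) i)
  have pz : π z = 1 := h.toDd.pw ▸ pρ _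
  have pI : ∀ b ∈ I, π b = 1 := fun b m => (p1 (h.mem b m)).2 (subset_closure m)
  have pc : ∀ {s t}, s ∈ S → t ∈ S → Commute s t → Commute (π s) (π t) := fun a b c => by rw [commute_iff_eq, ← pm a b, ← pm b a, c.eq]
  have py : ∀ {s}, s ∈ S → Commute (π s) (π y) := fun a => by
    rw [commute_iff_eq, ← pm a h.yS]
    rcases h.cy a with e | e <;> rw [mul_inv_eq_iff_eq_mul.1 e]
    exacts [pm h.yS a, by rw [pm (mul_mem h.zS h.yS) a, pm h.zS h.yS, pz, one_mul]]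
  have g : ∀ s ∈ S, ∀ r ∈ S, ∀ i j : ℤ, s * a * s⁻¹ = a * ρ ^ (2 * j + i) → r * a * r⁻¹ = a * ρ ^ i →
      ∃ c ∈ f a, π s = π r * π c := fun s m r m' i j e e' => by
    have := h.ev i j
    rw [← e, ← e'] at this
    have mj := zpow_mem h.ρS (-j)
    obtain ⟨c, hc, v, hv, q⟩ := h.dec (u := (ρ ^ (-j) * r)⁻¹ * s) m0 (mul_mem (inv_mem (mul_mem mj m')) m) (by
      rw [commute_iff_eq, mul_assoc, mul_inv_eq_iff_eq_mul.1 this.symm]; group)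
    have vv : v ∈ S ∧ π v = 1 := by
      rcases hv with rfl | rfl | rfl | rfl
      exacts [⟨one_mem _, (p1 (one_mem _)).2 (one_mem _)⟩, ⟨h.zS, pz⟩, ⟨h.mem _ m0, pI _ m0⟩, ⟨h.mem _ (h.mz _ m0), pI _ (h.mz _ m0)⟩]
    exact ⟨c, hc, by rw [inv_mul_eq_iff_eq_mul.1 q, pm (mul_mem mj m') (mul_mem vv.1 (h.fS m0 hc)), pm mj m', pm vv.1 (h.fS m0 hc), pρ,
      vv.2, one_mul, one_mul]⟩
  have g0 : ∀ s ∈ S, ∀ j : ℤ, s * a * s⁻¹ = a * ρ ^ (2 * j) → ∃ c ∈ f a, π s = π c := fun s m j e => by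
    simpa [(p1 (one_mem S)).2 (one_mem _)] using g s m 1 (one_mem _) 0 j (by simpa using e) (by simp)
  obtain ⟨r, hr, cr, gr⟩ : ∃ r ∈ S, (∀ c ∈ f a, Commute (π r) (π c)) ∧ ∀ s ∈ S, ∃ c ∈ f a, π s = π c ∨ π s = π r * π c := by
    have fin : ∀ r ∈ S, ∀ j : ℤ, r * a * r⁻¹ = a * ρ ^ (2 * j + 1) → ∀ s ∈ S, ∃ c ∈ f a, π s = π c ∨ π s = π r * π c :=
      fun r m j e s m' => by
        obtain ⟨i, -, e', -⟩ := h.act m'
        obtain ⟨i, rfl | rfl⟩ := i.even_or_odd'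
        exacts [(g0 s m' i e').imp fun _ => And.imp_right .inl,
          (g s m' r m _ (i - j) (by rw [e']; congr 2; ring) e).imp fun _ => And.imp_right .inr]
    by_cases c1 : ∃ r ∈ S, Commute r ρ ∧ ∃ j : ℤ, r * a * r⁻¹ = a * ρ ^ (2 * j + 1)
    · obtain ⟨r, m, c, j, e⟩ := c1
      refine ⟨r, m, fun c' hc => ?_, fin r m j e⟩
      obtain ⟨i, q⟩ := h.lr m c e hc
      rw [commute_iff_eq, ← pm (h.fS m0 hc) m, mul_inv_eq_iff_eq_mul.1 q, pm (mul_mem m (zpow_mem h.ρS i)) (h.fS m0 hc),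
        pm m (zpow_mem h.ρS i), pρ, mul_one]
    by_cases c2 : ∃ r ∈ S, ∃ j : ℤ, r * a * r⁻¹ = a * ρ ^ (2 * j + 1)
    swap
    · refine ⟨1, one_mem _, fun c _ => by rw [(p1 (one_mem S)).2 (one_mem _)]; exact .one_left _, fun s m => ?_⟩
      obtain ⟨i, -, e', -⟩ := h.act m
      obtain ⟨i, rfl | rfl⟩ := i.even_or_odd'
      exacts [(g0 s m i e').imp fun _ => And.imp_right .inl, absurd ⟨s, m, i, e'⟩ c2]
    obtain ⟨r, m, c, j, e⟩ : ∃ r ∈ S, Commute r (ρ ^ (2 : ℤ) ^ k) ∧ ∃ j : ℤ, r * a * r⁻¹ = a * ρ ^ (2 * j + 1) := by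
      obtain ⟨r, m, j, e⟩ := c2
      obtain ⟨-, t, -, q⟩ := h.act m
      have q' : ∀ i : ℤ, r * ρ ^ i = ρ ^ ((2 * t + 1) * i) * r := fun i => by rw [zpow_mul, ← q, conj_zpow, inv_mul_cancel_right]
      obtain ⟨t, rfl | rfl⟩ := t.even_or_odd'
      · refine ⟨r, m, ?_, j, e⟩
        rw [commute_iff_eq, q', mul_left_inj, ← mul_inv_eq_one, ← zpow_sub, zp_one h.toDd.ord]
        exact ⟨t, by ring⟩
      · refine ⟨r * a, mul_mem m (h.mem a m0), ?_, j, by rw [← e]; group⟩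
        rw [commute_iff_eq, mul_assoc, ← neg_neg ((2 : ℤ) ^ k), ← iv1 h.a2 h.toDd.inv, ← mul_assoc, q', mul_assoc, mul_left_inj,
          ← mul_inv_eq_one, ← zpow_sub, zp_one h.toDd.ord]
        exact ⟨-t - 1, by ring⟩
    refine ⟨r, m, fun c' hc => ?_, fin r m j e⟩
    have k : ∀ u ∈ S, ∀ v ∈ S, (∃ j : ℕ, Commute ((v ^ j)⁻¹ * u) ρ) → Commute (π u) (π v) := fun u m v m' ⟨j, e⟩ => by
      have ml := mul_mem (inv_mem (pow_mem m' j)) m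
      obtain ⟨i, -, e', -⟩ := h.act ml
      obtain ⟨i, rfl | rfl⟩ := i.even_or_odd'
      · obtain ⟨i, q | q⟩ := h.l0 ml e e' <;> rw [inv_mul_eq_iff_eq_mul.1 q]
        · rw [pm (pow_mem m' j) (zpow_mem h.ρS i), pρ, mul_one, pp m']; exact Commute.pow_self _ j
        · rw [pm (pow_mem m' j) (mul_mem (zpow_mem h.ρS i) h.yS), pm (zpow_mem h.ρS i) h.yS, pρ, one_mul, pp m']
          exact (Commute.pow_self _ j).mul_left (py m').symm
      · exact absurd ⟨_, ml, e, i, e'⟩ c1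
    exact (h.ch m (h.fS m0 hc) c (h.fw m0 hc)).elim (k _ m _ (h.fS m0 hc)) fun e => (k _ (h.fS m0 hc) _ m e).symm
  have cm : ∀ s ∈ S, ∀ t ∈ S, Commute (π s) (π t) := fun s m t m' => by
    obtain ⟨c, hc, e⟩ := gr s m
    obtain ⟨d, hd, e'⟩ := gr t m'
    have := pc (h.fS m0 hc) (h.fS m0 hd) (h.ff hc hd)
    rcases e with e | e <;> rcases e' with e' | e' <;> rw [e, e']
    exacts [this, (cr c hc).symm.mul_right this, (cr d hd).mul_left this,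
      ((Commute.refl _).mul_right (cr d hd)).mul_left ((cr c hc).symm.mul_right this)]
  have pe : ∀ s : S, π s = s := fun s => dif_pos s.2
  have mc : ∀ a b : S ⧸ (closure I).subgroupOf S, a * b = b * a := fun a b => by
    obtain ⟨s, rfl⟩ := QuotientGroup.mk_surjective a
    obtain ⟨t, rfl⟩ := QuotientGroup.mk_surjective b
    exact pe s ▸ pe t ▸ cm s s.2 t t.2
  letI : CommGroup (S ⧸ (closure I).subgroupOf S) := { mul_comm := mc }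
  obtain ⟨φ, e⟩ := CommGroup.exists_apply_ne_one_of_hasEnoughRootsOfUnity _ ℂ (a := π y) fun e => by
    obtain ⟨b', m', e', -⟩ := h.par m0
    rcases h.toRs.cent m0 m' e' ((p1 h.yS).1 e) (h.yK a m0) (h.yK b' m') with q | q
    exacts [h.y1 q, h.h4 a m0 (q ▸ h.ym)]
  exact ⟨φ.comp (QuotientGroup.mk' _), fun s m => by
    rw [MonoidHom.comp_apply, QuotientGroup.mk'_apply, ← pe, (p1 s.2).2 m, map_one], by rwa [pe ⟨y, h.yS⟩] at e⟩

end Tf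

theorem Rs.transfer {G : Type*} [Group G] [Finite G] {S : Subgroup G} {I : Set G} {z : G} (h : Rs S z I)
    (hz : S ≤ 𝐂[z]) (f : G → Subgroup G) (h1 : ∀ a ∈ I, f a ≤ S ⊓ 𝐂[a])
    (h2 : ∀ a ∈ I, ∀ a' ∈ I, a' * a * a' = a * z → f a ≤ 𝐂[a'])
    (h3 : ∀ a ∈ I, S ⊓ 𝐂[a] ≤ zpowers a ⊔ zpowers z ⊔ f a) (h4 : ∀ a ∈ I, z ∉ f a)
    (h5 : ∀ s ∈ S, ∀ a ∈ I, f (s * a * s⁻¹) = s ⋆ f a) (h6 : ∀ c, (∀ a ∈ I, c ∈ f a) → c = 1) :
    (∀ a ∈ I, f a = ⊥) ∨ ∃ a ∈ I, ∃ y ∈ f a, y ≠ 1 ∧ y * y = 1 ∧ I2 𝐂[y] S ∧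
      ∃ (T : Subgroup G) (_ : (T.subgroupOf S).Normal), IsCyclic (S ⧸ T.subgroupOf S) ∧
        ∀ u ∈ T ⊓ S, u * u = 1 → I2 𝐂[u] S → u = 1 ∨ u = z ∨ u ∈ I := by
  refine or_iff_not_imp_left.2 fun n => ?_
  push Not at n
  obtain ⟨a, ha, n⟩ := n
  obtain ⟨ρ, k, d⟩ := h.dih ha
  obtain ⟨y, hy, o⟩ := Inv.exists_involution_mem_of_isPGroup (h.pg.to_le ((h1 a ha).trans inf_le_left)) n
  have t : Tf S z I f a ρ k y := ⟨h, d, hz, h1, h2, h3, h4, h5, h6, hy, Inv.ne_one_of_orderOf o, Inv.mul_self_of_orderOf o⟩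
  obtain ⟨ψ, p1, p2⟩ := t.hom
  have e : (ψ.ker.map S.subtype).subgroupOf S = ψ.ker := comap_map_eq_self_of_injective S.subtype_injective _
  have : ((ψ.ker.map S.subtype).subgroupOf S).Normal := e.symm ▸ inferInstance
  refine ⟨a, ha, y, hy, t.y1, t.y2, fun x hx x' hx' n n' => mem_cent1.2 ?_, _, this, isCyclic_of_injective_ringHom
    ((Units.coeHom ℂ).comp (QuotientGroup.lift _ ψ e.le)) (Units.val_injective.comp ((QuotientGroup.injective_lift_iff ..).2 e)), ?_⟩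
  · have := ((t.cy hx).resolve_left fun e => n (mem_cent1.2 (mul_inv_eq_iff_eq_mul.1 e))).trans
      ((t.cy hx').resolve_left fun e => n' (mem_cent1.2 (mul_inv_eq_iff_eq_mul.1 e))).symm
    rw [mul_assoc, mul_inv_eq_iff_eq_mul.1 this.symm]; group
  rintro _ ⟨⟨u, m, rfl⟩, -⟩ u2 i
  change (u : G) * u = 1 at u2
  change I2 𝐂[(u : G)] S at i
  change (u : G) = 1 ∨ (u : G) = z ∨ (u : G) ∈ I
  have zI : z ∈ closure I := d.pw ▸ zpow_mem (h.rho d) _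
  have key : ∀ b ∈ I, Commute (u : G) b → (u : G) = 1 ∨ (u : G) = z ∨ (u : G) ∈ I := fun b hb c => by
    obtain ⟨x, hx, v, hv, q⟩ := t.dec hb u.2 c
    have vv : v ∈ closure I ∧ v * v = 1 ∧ Commute (u : G) v := by
      rcases hv with rfl | rfl | rfl | rfl
      exacts [⟨one_mem _, one_mul 1, .one_right _⟩, ⟨zI, h.z2, t.zc u.2⟩, ⟨subset_closure hb, h.sq _ hb, c⟩,
        ⟨subset_closure (h.mz b hb), h.sq _ (h.mz b hb), c.mul_right (t.zc u.2)⟩]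
    have xe : x = v * u := by rw [q, ← mul_assoc, vv.2.1, one_mul]
    have vS : v ∈ S := (closure_le S).2 h.mem vv.1
    have px : ψ ⟨x, t.fS hb hx⟩ = 1 := by
      rw [show (⟨x, t.fS hb hx⟩ : S) = ⟨v, vS⟩ * u from Subtype.ext xe, map_mul, p1 _ vv.1, m, one_mul]
    rcases t.k4 (t.fS hb hx) (t.f2 hb hx (by rw [xe, ← pow_two, vv.2.2.symm.mul_pow, pow_two, pow_two, vv.2.1, u2, one_mul])) with
      (rfl | rfl) | rfl | rfl
    · rw [q, mul_one]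
      rcases hv with rfl | rfl | rfl | rfl
      exacts [.inl rfl, .inr (.inl rfl), .inr (.inr hb), .inr (.inr (h.mz b hb))]
    · exact absurd px p2
    · exact absurd hx (h4 b hb)
    · rw [show (⟨z * y, _⟩ : S) = ⟨z, h.zS⟩ * ⟨y, t.yS⟩ from rfl, map_mul, p1 _ zI, one_mul] at px
      exact absurd px p2
  by_cases c0 : a ∈ 𝐂[(u : G)]
  · exact key a ha (mem_cent1.1 c0).symm
  by_cases c1 : a * ρ ∈ 𝐂[(u : G)]
  · exact key _ d.mem1 (mem_cent1.1 c1).symm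
  have c := mem_cent1.1 (i a (h.mem a ha) _ (h.mem _ d.mem1) c0 c1)
  rw [inv_mul_cancel_left] at c
  exact ((h.inv' d u.2 u2 (t.zc u.2)).elim (fun e => c0 (mem_cent1.2 (e a ha).symm)) fun e =>
    d.w_ne (by rw [← e, ← (Commute.zpow_left c _).eq, mul_assoc, u2, mul_one])).elim

end Cfsg.Lib.B2C
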