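import Cfsg.Agent.Lib.B2C.Big

/-!
The final configuration for `q > 2`.  `C = C_S(E)`, `C' = C_S(E')`, `R C = R C' = C_S(A A')` (`cent_N`, `C_cent`),
so commutators and squares of `C` lie in `C ⊓ C' = 1`; `F = A C` is elementary abelian and contains
`B ∈ 𝒜(Q) ⊆ 𝒜(S)` (`exists_max`, `big_le`), `B ≤ Q ≤ F`, so `Q = F = Y`.  `Z = Q ⊓ Q' = ΩZ(P) = R C`.  If `C ≠ 1`:
for `c ∈ C#`, `z₁ ∈ Z ∖ C'` `Ct.cartan` for `X'` gives `x ∈ E' ⊓ N(P)` (it normalizes `X`, `C` by `norm_le`) with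
`x c x⁻¹ z₁ ∈ C'`: `Z = C C'`, `|C| = q`; with `c₁ ∈ C ∖ {1, c}` and `x c₁ x⁻¹ (c c₁) ∈ C ⊓ C'`: `c ∈ [Y', E'] = A'`.
So `C ≤ A' ⊓ Q = R`, `Q = A`.
-/

set_option autoImplicit false

namespace Cfsg.Lib.B2C

open Subgroup Cfsg.Lib.BG Cfsg.Lib.Transfer Cfsg.Lib.Loc Cfsg.Lib.PLocal Cfsg.Lib.CGT Cfsg.Lib.PU
open Cfsg.Lib.CS Cfsg.Lib.Root Cfsg.Lib.Core Cfsg.Lib.GC
open scoped commutatorElement
variable {G : Type*} [Group G] [Finite G] {B P S X X' : Subgroup G} {t d u : G}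

/-- The final configuration. -/
structure Eb (t : G) (S P X X' : Subgroup G) : Prop extends LS t S P X X' where
  hq : 4 ≤ (𝐐 X).relIndex P
  hc : 𝐂(𝐑 X) ⊓ 𝐂(𝐑 X') = ⊥

namespace Eb

variable (h : Eb t S P X X')
include h

theorem symm : Eb t S P X' X := ⟨h.toLS.symm, h.q_eq ▸ h.hq, inf_comm 𝐂(𝐑 X) _ ▸ h.hc⟩

theorem conj (g : G) : Eb (g * t * g⁻¹) (g ⋆ S) (g ⋆ P) (g ⋆ X) (g ⋆ X') := ⟨h.toLS.conj g, by rw [← conj_core, relIndex_conj]; exact h.hq, by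
    rw [← conj_res, ← conj_res, ← conj_centralizer, ← conj_centralizer, ← conj_inf, h.hc, Subgroup.map_bot]⟩

omit [Finite G] in
/-- The same pair inside another Sylow subgroup. -/
theorem of_le {g : G} (hg : P ≤ g ⋆ S) : Eb (g * t * g⁻¹) (g ⋆ S) P X X' := ⟨⟨h.toCt.conj g, h.toLP, hg⟩, h.hq, h.hc⟩

omit [Finite G] in
theorem one {c : G} (h1 : c ∈ 𝐂(𝐑 X)) (h2 : c ∈ 𝐂(𝐑 X')) : c = 1 := mem_bot.1 (h.hc.le ⟨h1, h2⟩)

theorem R_le : ⁅𝐘 X, P⁆ ≤ 𝐖 X := h.l.W_inf.ge.trans inf_le_left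

theorem el_W : IsElementaryAbelian 2 (𝐖 X) := PGroup.elemAb_of_le (oz_elemAb _) h.l.W_le_Y

theorem F_eq : S ⊓ 𝐂(𝐖 X) = 𝐐 X ∧ IsElementaryAbelian 2 (𝐐 X) := by
  have e : IsElementaryAbelian 2 (S ⊓ 𝐂(𝐖 X)) := PGroup.elemAb_of_le (PGroup.elemAb_sup h.el_W (el_of_sq fun c hc => by
    have k := h.C_cent hc
    obtain ⟨r, hr, e⟩ := h.toLS.symm.exists_mul ⟨hc.1, sup_comm (𝐖 X) _ ▸ k⟩
    have a := h.symm.R_le hr
    have := mul_mem e e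
    rw [← Commute.mul_mul_mul_comm (BG.mem_cent.1 k r (mem_sup_right a)), el_sq h.symm.el_W a, one_mul] at this
    exact h.one (mul_mem hc.2 hc.2) this) (cent_symm (h.C_cent.trans (cent_anti le_sup_left)))) h.F_le
  have := h.baum_F
  rw [baum, inf_eq_left.2 (abelian_cent' e.1 le_rfl (zj_le _))] at this
  exact ⟨this, this ▸ e⟩

theorem C_le' : S ⊓ 𝐂(𝐑 X) ≤ 𝛀 P := by
  have a : S ⊓ 𝐂(𝐑 X) ≤ 𝐐 X := (le_inf inf_le_left (h.C_cent.trans (cent_anti le_sup_left))).trans h.F_eq.1.le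
  exact le_oz (PGroup.elemAb_of_le h.F_eq.2 a) (a.trans h.l.core_le) ((le_cent_sup (h.C_cent.trans (cent_anti le_sup_right))
    (abelian_cent' h.F_eq.2.1 a le_rfl)).trans (cent_anti h.P_le))

theorem car {y z : G} (hy : y ∈ 𝛀 P) (hz : z ∈ 𝛀 P) (h1 : y ∉ 𝐂(𝐑 X')) (h2 : z ∉ 𝐂(𝐑 X')) :
    ∃ x ∈ X', x ∈ 𝐍(𝐂(𝐑 X)) ∧ x ∈ 𝐍(𝛀 P) ∧ x * y * x⁻¹ * z ∈ 𝐂(X') := by
  obtain ⟨x, ⟨a, b⟩, e⟩ := h.toCt.cartan h.r h.le (h.r.oz_eq ▸ hy) (h.r.oz_eq ▸ hz) h1 h2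
  exact ⟨x, res_le 2 _ a, norm_cent (normalizer_le_normalizer_res 2 X) (h.toLS.symm.norm_le ⟨b, le_normalizer_core 2 X' (res_le 2 _ a)⟩).2,
    normalizer_le_normalizer_oz P b, e⟩

theorem Q_eq : 𝐐 X = 𝐖 X := by
  refine le_antisymm (h.Q_le.trans (sup_le le_rfl fun c hc => ?_)) h.l.W_le_Q
  by_cases c1 : c = 1
  · exact c1 ▸ one_mem _
  have el := oz_elemAb (p := 2) P
  have n : c ∉ 𝐂(𝐑 X') := fun e => c1 (h.one hc.2 e)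
  have cz := h.C_le' ⟨h.le hc.1, hc.2⟩
  obtain ⟨z, hz, z1, z2⟩ : ∃ z ∈ 𝛀 P, z ∉ 𝐂(𝐑 X') ∧ z * c ∉ 𝐂(𝐑 X') := by
    by_contra! k
    have r : ⁅𝐘 X', P⁆ ≤ 𝛀 P := h.r.oz_eq ▸ h.r.W_inf ▸ inf_le_inf_right _ h.r.W_le_Y
    have := I2.relIndex_le (H := 𝐂(𝐑 X')) (K := ⁅𝐘 X', P⁆) fun x hx y hy a b => by
      have := mul_mem (inv_mem (k x (r hx) a)) (k y (r hy) b)
      rwa [el_comm el (r hx) cz, el_comm el (r hy) cz, mul_inv_rev, mul_assoc, inv_mul_cancel_left] at this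
    exact absurd (h.symm.hq.trans (h.r.idx_R.ge.trans this)) (by decide)
  obtain ⟨x, -, a, b, e⟩ := h.car cz hz n z1
  have a := conj_mem_of_norm a hc.2
  have b := conj_mem_of_norm b cz
  replace e := cent_anti (res_le 2 X') e
  generalize x * c * x⁻¹ = c' at a b e
  obtain ⟨x, hx, a', -, e'⟩ := h.car b (mul_mem cz b) (fun k => z1 ((mul_mem_cancel_left k).1 e)) fun k => z2 (by
    have := mul_mem k e
    rwa [mul_assoc, ← mul_assoc c', el_sq el b, one_mul, el_comm el cz hz] at this)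
  have := h.one (mul_mem (conj_mem_of_norm a' a) (mul_mem hc.2 a)) (cent_anti (res_le 2 X') e')
  rw [el_comm el cz b, ← mul_assoc, mul_eq_one_iff_eq_inv, el_inv el cz] at this
  refine h.R_le (h.R_symm ▸ h.toLS.symm.W_inf_Q ▸ ⟨?_, (h.C_le hc).1⟩)
  rw [← this, commutator_comm]
  simpa [commutatorElement_def, el_inv el b] using commutator_mem_commutator hx (h.r.oz_le b)

theorem Y_eq : 𝐘 X = 𝐖 X := le_antisymm ((oz_le _).trans h.Q_eq.le) h.l.W_le_Y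

theorem cent_W : 𝐂(𝐖 X) = 𝐖 X := le_antisymm (h.Q_eq ▸ h.l.gd) (abelian_cent h.el_W.1)

theorem P_eq : 𝐖 X ⊔ 𝐖 X' = P := le_antisymm (sup_le (h.l.W_le_Q.trans h.l.core_le) (h.r.W_le_Q.trans h.r.core_le))
    (h.P_le.trans (sup_le le_sup_right (h.Q_eq.le.trans le_sup_left)))

theorem Z_eq : 𝐖 X ⊓ 𝐖 X' = ⁅𝐘 X, P⁆ := by rw [← h.symm.Q_eq, h.W_inf_Q]

theorem oz_eq : 𝛀 P = ⁅𝐘 X, P⁆ := by rw [h.l.oz_eq, ← h.l.W_inf, ← h.Y_eq]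

theorem W_max : 𝐖 X ∈ maxIn 2 S := by
  obtain ⟨B, a, b⟩ := h.exists_max
  exact (h.big_le h.hq).2 _ (eq_of_mem_maxIn_of_le a (h.l.W_le_Q.trans h.l.core_le) h.el_W (b.trans h.Q_eq.le) ▸ a)

theorem J_eq : 𝐉 S = P := le_antisymm ((h.j1 h.hq).le.trans (thompsonSubgroupOf_le P))
    (h.P_eq.ge.trans (sup_le (le_thompsonSubgroupOf h.W_max) (le_thompsonSubgroupOf h.symm.W_max)))

theorem max_iff : B ∈ maxIn 2 S ↔ B = 𝐖 X ∨ B = 𝐖 X' := by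
  refine ⟨fun a => (h.el_or a.2.1 ((le_thompsonSubgroupOf a).trans h.J_eq.le)).imp (fun e => ?_) fun e => ?_, ?_⟩
  · exact (eq_of_mem_maxIn_of_le a h.W_max.1 h.el_W (e.trans h.Q_eq.le)).symm
  · exact (eq_of_mem_maxIn_of_le a h.symm.W_max.1 h.symm.el_W (e.trans h.symm.Q_eq.le)).symm
  · rintro (rfl | rfl)
    exacts [h.W_max, h.symm.W_max]

theorem T1_eq : S ⊓ 𝐍(𝐖 X) ⊓ 𝐂(⁅𝐘 X, P⁆) = P := le_antisymm (h.T1_le.trans (sup_le h.P_eq.le (h.C_le'.trans (oz_le P))))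
    (le_inf (le_inf h.le ((h.l.syl.1.trans (le_norm X)).trans h.l.nW)) (cent_symm h.l.quad))

theorem swap (hu : u ∈ S) (h1 : u ∉ 𝐍(𝐖 X)) : u ⋆ 𝐖 X = 𝐖 X' ∧ u ⋆ X = X' := by
  have e := (h.max_iff.1 (conj_mem_maxIn_of_le h.W_max (conj_le_of_mem h.W_max.1 hu))).resolve_left fun e => h1 (norm_of_conj_eq e)
  exact ⟨e, (h.toLS.symm.eq_of_W (h.conj_le (conj_le_of_mem h.le hu)) (by rw [← e, conj_commutator, PU.conj_Y])).2.1⟩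

theorem i2 : I2 𝐍(𝐖 X) S := fun x hx y hy a b => norm_of_conj_eq (by
  rw [← Transfer.conj_conj, (h.swap hy b).1, ← (h.swap hx a).1, inv_conj_conj])

/-- `x u x⁻¹ = t c`, `c ∈ C`, by `Ct.cartan` for `X`; if `C ≠ 1` then `Z = C × C'` and `x' (t c) x'⁻¹ t ∈ C'` for
some `x' ∈ E' ⊓ N(P)`, while it lies in `C` (`t = c₀ c₀'`, `x'` centralizes `c₀'`, normalizes `C`). -/
theorem cls (hu : u ∈ ⁅𝐘 X, P⁆) (h1 : u ∉ 𝐂(𝐑 X)) (h2 : u ∉ 𝐂(𝐑 X')) : IsConj t u := by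
  have el := oz_elemAb (p := 2) P
  have tz : t ∈ 𝛀 P := h.l.oz_eq ▸ h.toCt.mem_Y h.l h.le
  have fin : ∀ {x y : G}, IsConj u y → x * y * x⁻¹ * t = 1 → IsConj t u := fun {x y} a e =>
    (a.trans (isConj_iff.2 ⟨x, by rw [eq_inv_of_mul_eq_one_left e, inv_eq_of_mul_eq_one_left h.t2]⟩)).symm
  rw [← h.oz_eq] at hu
  obtain ⟨x, -, a, b, e⟩ := h.symm.car hu tz h1 (h.toCt.t_not h.l h.le)
  by_cases c1 : x * u * x⁻¹ * t = 1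
  · exact fin (.refl u) c1
  have b := conj_mem_of_norm b hu
  have n : x * u * x⁻¹ ∉ 𝐂(𝐑 X') := fun k => h2 ((mem_normalizer_iff.1 a u).2 k)
  have cj : IsConj u (x * u * x⁻¹) := isConj_iff.2 ⟨x, rfl⟩
  replace e := cent_anti (res_le 2 X) e
  generalize x * u * x⁻¹ = v at *
  have t' := h.toCt.t_not h.r h.le
  obtain ⟨y, -, a1, b1, e1⟩ := h.car (mul_mem b tz) tz (fun k => c1 (h.one e k)) t'
  obtain ⟨x, hx, a2, b2, e2⟩ := h.car b tz n t'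
  refine fin cj (h.one ?_ (cent_anti (res_le 2 X') e2))
  have a1 := conj_mem_of_norm a1 e
  have b1 := conj_mem_of_norm b1 (mul_mem b tz)
  generalize y * (v * t) * y⁻¹ = c at *
  have := mul_mem (conj_mem_of_norm a2 (mul_mem e a1)) a1
  have k : x * (c * t) * x⁻¹ = c * t := by rw [BG.mem_cent.1 e1 x hx, mul_inv_cancel_right]
  rwa [mul_assoc v, ← el_comm el b1 tz, ← conj_mul, k, mul_assoc, mul_assoc c, ← el_comm el b1 tz, ← mul_assoc c, el_sq el b1, one_mul] at this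

end Eb

end Cfsg.Lib.B2C
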