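import Cfsg.Agent.Lib.B2C.FFb

/-!
The extremal rank one group outside `M ≥ N(B(S))` (pattern: `GC.Bs.exists_su`, `GC.exists_good_of`).
Let `e = g t g⁻¹ ∈ M`, `g ∉ M`, `I = (g ⋆ S) ⊓ M ≤ m ⋆ S` with `m ∈ M`, `d = m t m⁻¹`.  Then `d ∈ I`,
`I` is centric (`C_{g ⋆ S}(I) ≤ C(d)`), `N(I)` is good, `I < g ⋆ S` (Burnside), so `N(I) ≰ M`.
Maximize `NG.k3` over centric 2-subgroups `U ≤ M` that lie in a good `K ≰ M`; conjugate in `M` so that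
`U ≤ S`; `P = B(U) ∋ t`.  `N(P) ≤ M` (else `B(N_S(P)) = P`, so `N_S(P) = S`, `P = B(S)`).  A Sylow subgroup
`T ≥ U` of `K ⊓ M` has `B(T) = P`, so is Sylow in `K`; conjugate again so that `T ≤ S`.  `exists_good_of` inside
the group `K` (`C(ΩZ T) ≤ C(t) ≤ M`) gives `X`; `t ∈ Y_X`, `Hy.not_cent'`, and `J(P) ≰ Q` (as in `Ct.exists_off`)
give `FF` by `ff_of_max`.  `Y₁ = N_S(Q)` is centric and lies in the good group `N(Q)`, so `B(Y₁) = P`;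
`C_S(Q)` centralizes `zj Y₁ = zj P ≤ Q`, so lies in `P ⊓ C(Q) ≤ Q`: `Gd X`.  For `wc` use `N_Y(P) ≤ M`.
-/

set_option autoImplicit false

namespace Cfsg.Lib.B2C

open Subgroup Cfsg.Lib.BG Cfsg.Lib.Transfer Cfsg.Lib.Loc Cfsg.Lib.PLocal Cfsg.Lib.CGT Cfsg.Lib.PU
open Cfsg.Lib.CS Cfsg.Lib.Root Cfsg.Lib.Core Cfsg.Lib.GC
open scoped commutatorElement

section
variable {G : Type*} [Group G] [Finite G] {S M T K P Y : Subgroup G} {t : G}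

theorem baum_eq_of_inf_norm (hY : IsPGroup 2 Y) (e : 𝐁 (Y ⊓ 𝐍(P)) = P) : 𝐁 Y = P := by
  have e2 : Y ⊓ 𝐍(P) = Y := by_contra fun e' => by
    obtain ⟨x, a1, a2, -, a3⟩ := PGroup.exists_mem_normalizer_of_lt hY (inf_le_left.lt_of_ne e')
    exact a2 ⟨a1, e ▸ normalizer_le_baum _ a3⟩
  rwa [e2] at e

theorem Ct.ext_max (h : Ct t S) (h2 : 𝐍(𝐁 S) ≤ M) (hT : T ≤ S) (cT : 𝐂(T) ≤ T) (hK : Gd K)
    (sT : SylIn 2 T (K ⊓ M)) (nK : ¬ K ≤ M)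
    (hm : ∀ U K' : Subgroup G, IsPGroup 2 U → 𝐂(U) ≤ U → U ≤ M → Gd K' → U ≤ K' → ¬ K' ≤ M →
      NG.k3 U ≤ NG.k3 T) : ∃ P X, Bk P X ∧ P ≤ S ∧ ¬ X ≤ M := by
  have nS : 𝐍(S) ≤ M := (normalizer_le_baum S).trans h2
  have sM : S ≤ M := (le_norm S).trans nS
  have tc : t ∈ 𝐂(T) := le_cent1_iff.1 (hT.trans h.cen)
  have tT : t ∈ T := cT tc
  have tP : t ∈ 𝐁 T := ⟨tT, cent_anti (zj_le T) tc⟩
  have pS : 𝐁 T ≤ S := inf_le_left.trans hT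
  have b1 : ∀ U K' : Subgroup G, IsPGroup 2 U → 𝐁 T ≤ U → 𝐂(U) ≤ U → U ≤ M → Gd K' → U ≤ K' →
      ¬ K' ≤ M → 𝐁 U = 𝐁 T := fun U K' a b c d e f g => NG.baum_eq_of_k3 b (hm U K' a c d e f g)
  have b3 : 𝐍(𝐁 T) ≤ M := by_contra fun e => by
    have a : T ≤ S ⊓ 𝐍(𝐁 T) := le_inf hT ((le_norm T).trans (normalizer_le_baum T))
    have := baum_eq_of_inf_norm h.pg (b1 _ _ h.pg.to_inf_left (inf_le_left.trans a)
      ((cent_anti a).trans (cT.trans a)) (inf_le_left.trans sM) (h.gd_norm pS tP) inf_le_right e)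
    exact e (this ▸ h2)
  have tK : T ≤ K := sT.1.trans inf_le_left
  have sK : SylIn 2 T K := ⟨tK, sT.2.1, Coprime.not_dvd_relIndex_of_normalizer tK sT.2.1
    (sT.of_le (le_inf tK (le_norm T)) (inf_le_inf_left K ((normalizer_le_baum T).trans b3))).2.2⟩
  have cz : 𝐂(𝛀 T) ≤ M := (cent_le_cent1 (mem_oz.2 ⟨⟨tT, tc⟩, by rw [sq, h.t2]⟩)).trans (h.nrm.trans nS)
  obtain ⟨X, ⟨x1, ⟨M', r⟩, x2⟩⟩ : ∃ X, Good 2 (𝐁 T) M X := by
    have hf := K.subtype_injective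
    obtain ⟨T, rfl⟩ := pull tK
    obtain ⟨L, hL⟩ := exists_good_of (K := ⊤) (T := T) (H := M.subgroupOf K)
      ((isChP_map_iff hf).1 (by rw [map_subtype_top]; exact hK.chp))
      ((SylIn.map_iff hf).1 (by rwa [map_subtype_top])) le_top
      ((map_le_M _).1 ((map_cent _ le_rfl).trans (map_oz hf T ▸ cz)))
      ((map_le_M _).1 ((map_norm _ le_rfl).trans (map_baum hf T ▸ b3)))
      fun e => nK (subgroupOf_eq_top.1 (top_unique e))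
    exact ⟨_, map_baum hf T ▸ Good.map hf hL⟩
  have bb : 𝐁 (𝐁 T) = 𝐁 T := NG.baum_baum T
  generalize 𝐁 T = P at *
  have tc' : t ∈ 𝐂(P) := le_cent1_iff.1 (pS.trans h.cen)
  have tq : t ∈ 𝐂(𝐐 X) := cent_anti r.core_le tc'
  have tQ : t ∈ 𝐐 X := x1 ⟨r.le tP, tq⟩
  have tY : t ∈ 𝐘 X := mem_oz.2 ⟨⟨tQ, tq⟩, by rw [sq, h.t2]⟩
  have tn : t ∉ 𝐂(𝐑 X) := h.not_cent' (.refl t) r tc'
  obtain ⟨B, hB, nB⟩ : ∃ B ∈ maxIn 2 P, ¬ B ≤ 𝐐 X := by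
    by_contra! e
    have a := zj_eq (thompsonSubgroupOf_eq_of_le (thompsonSubgroupOf_le_iff.2 e) r.core_le)
    refine tn (cent_symm (r.res_le (norm_cent ((le_normalizer_core 2 X).trans (normalizer_le_zj _)))
      le_rfl r.not_le_core (a ▸ bb.ge.trans inf_le_right)) ?_)
    exact omegaCenter_le_zj _ tY
  have f : FF 2 P X := ff_of_max x1 r (fun e => tn (cent_symm e tY)) hB nB
  have qS : 𝐐 X ≤ S := r.core_le.trans pS
  have gd : Gd X := by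
    have nQ : X ≤ 𝐍(𝐐 X) := le_normalizer_core 2 X
    have c : S ⊓ 𝐂(𝐐 X) ≤ S ⊓ 𝐍(𝐐 X) := inf_le_inf_left S (cent_le_norm _)
    have e := b1 (S ⊓ 𝐍(𝐐 X)) _ h.pg.to_inf_left (le_inf pS (r.le.trans nQ))
      (h.centric inf_le_left ((inf_le_inf_left S (cent_anti (le_inf qS (le_norm _)))).trans c))
      (inf_le_left.trans sM) (h.gd_norm qS tQ) inf_le_right fun e => x2 (nQ.trans e)
    have z : zj 2 (S ⊓ 𝐍(𝐐 X)) ≤ 𝐐 X := by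
      rw [← zj_baum, e]
      exact (le_inf (zj_le P) ((zj_cent P).trans (cent_anti (le_sup_right.trans
        (le_thompsonSubgroupOf (f.repl hB nB)))))).trans f.cent_le
    exact h.centric qS ((le_inf ((le_inf c (inf_le_right.trans (cent_anti z))).trans (e.le.trans r.le))
      inf_le_right).trans x1)
  have cP : 𝐂(P) ≤ P := (cent_anti r.core_le).trans (gd.trans r.core_le)
  refine ⟨P, X, ⟨f, gd, bb, fun K' Y a b c d e => ?_⟩, pS, x2⟩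
  have n : P ≤ Y ⊓ 𝐍(P) := le_inf d (le_norm P)
  exact baum_eq_of_inf_norm c (b1 _ K' c.to_inf_left n ((cent_anti n).trans (cP.trans n))
    (inf_le_right.trans b3) a (inf_le_left.trans e) fun e => x2 (b.trans e))

end

theorem Ct.ext {G : Type*} [Group G] [Finite G] {S M : Subgroup G} {t : G} (h : Ct t S) (k : ¬ Ho t S)
    (h1 : M ≠ ⊤) (h2 : 𝐍(𝐁 S) ≤ M) : ∃ P X, Bk P X ∧ P ≤ S ∧ ¬ X ≤ M := by
  have nS : 𝐍(S) ≤ M := (normalizer_le_baum S).trans h2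
  have sM : SylIn 2 S M := h.syl.of_le ((le_norm S).trans nS) le_top
  obtain ⟨g, hg, gM⟩ : ∃ g, g * t * g⁻¹ ∈ M ∧ g ∉ M := by
    by_contra! e
    exact k ⟨M, h1, nS, e⟩
  let 𝒴 : Set (Subgroup G) :=
    {U | IsPGroup 2 U ∧ 𝐂(U) ≤ U ∧ U ≤ M ∧ ∃ K, Gd K ∧ U ≤ K ∧ ¬ K ≤ M}
  have ne : 𝒴.Nonempty := by
    have hc := h.conj g
    have pI : IsPGroup 2 ↥(g ⋆ S ⊓ M) := hc.pg.to_inf_left
    obtain ⟨m, hm, b⟩ := SylIn.exists_le sM pI inf_le_right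
    have hd := h.conj m
    have eI : g * t * g⁻¹ ∈ g ⋆ S ⊓ M := ⟨hc.mem, hg⟩
    have dI : m * t * m⁻¹ ∈ g ⋆ S ⊓ M := ⟨hc.mem_of_sq hd.t2 (mem_cent1.1 (hd.cen (b eI))).symm,
      conj_le_of_mem sM.1 hm hd.mem⟩
    have cM : 𝐂[m * t * m⁻¹] ≤ M := hd.nrm.trans (conj_normalizer m S ▸ conj_le_of_mem nS hm)
    refine ⟨g ⋆ S ⊓ M, pI, hc.centric inf_le_left (inf_le_inf_left _ ((cent_le_cent1 dI).trans cM)),
      inf_le_right, _, hc.gd_norm inf_le_left eI, le_norm _, fun e => ?_⟩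
    by_cases e' : g ⋆ S ⊓ M = g ⋆ S
    · rw [e'] at b
      have := hc.syl.eq_of_le hd.pg le_top b
      have a : m⁻¹ * g ∈ 𝐍(S) := norm_of_conj_eq (by rw [← Transfer.conj_conj, this, inv_conj_conj])
      exact gM (by simpa using mul_mem hm (nS a))
    · obtain ⟨x, a1, a2, -, a3⟩ := PGroup.exists_mem_normalizer_of_lt hc.pg (inf_le_left.lt_of_ne e')
      exact a2 ⟨a1, e a3⟩
  obtain ⟨U, ⟨u1, u2, u3, K, k1, k2, k3⟩, hm⟩ := Set.exists_max_image 𝒴 NG.k3 (Set.toFinite 𝒴) ne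
  obtain ⟨T, t1, t2⟩ := exists_sylIn_ge u1 (le_inf k2 u3)
  obtain ⟨m, hmM, b⟩ := SylIn.exists_le sM t2.2.1 (t2.1.trans inf_le_right)
  have eM : m⁻¹ ⋆ M = M := conj_eq_of_mem (inv_mem hmM)
  refine h.ext_max (T := m⁻¹ ⋆ T) (K := m⁻¹ ⋆ K) h2 (le_conj_iff_inv_conj_le.1 b) ?_ (k1.conj _) ?_ ?_
    fun V K' a b c d e f => ?_
  · rw [← conj_centralizer]
    exact conj_mono _ ((cent_anti t1).trans (u2.trans t1))
  · have := t2.conj m⁻¹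
    rwa [conj_inf, eM] at this
  · intro e
    exact k3 (conj_inv_conj m K ▸ conj_le_of_mem e hmM)
  · rw [NG.k3_conj]
    exact (hm V ⟨a, b, c, K', d, e, f⟩).trans (NG.k3_mono t1)

end Cfsg.Lib.B2C
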