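import Cfsg.Agent.Lib.B2C.Basic
import Cfsg.Agent.Lib.B2C.FFa

/-! Rank one groups whose Sylow subgroup `P` lies in `S`; `t ∈ Y ⊓ C(P)`, `t ∉ C(E)`. -/

set_option autoImplicit false

namespace Cfsg.Lib.B2C

open Subgroup Cfsg.Lib.BG Cfsg.Lib.Transfer Cfsg.Lib.Loc Cfsg.Lib.PLocal Cfsg.Lib.CGT Cfsg.Lib.PU
open Cfsg.Lib.CS Cfsg.Lib.Root Cfsg.Lib.Core Cfsg.Lib.GC
open scoped commutatorElement
variable {G : Type*} [Group G] [Finite G] {B H K N P S U X X₁ : Subgroup G} {t g w x y z : G}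

theorem Hy.move (_h : Hy t S) (f : FF 2 P X) (hK : ∀ d ∈ K, ¬ IsConj t d) (hR : ⁅𝐘 X, P⁆ ≤ K)
    (hw : ∀ w ∈ 𝐖 X, w ∉ K → ∃ e, IsConj t e ∧ ∃ y ∈ 𝐘 X ⊓ 𝐂(P), y ∉ 𝐂(𝐑 X) ∧ e * y ∈ 𝐂(𝐑 X) ∧
      e * w ∈ K) : 𝐖 X ≤ K := fun w h1 => by_contra fun h2 => by
  obtain ⟨e, a, y, hy, h3, h4, h5⟩ := hw w h1 h2
  obtain ⟨x, hx, r, hr, b⟩ := f.mv hy.1 h1 h3 fun c => h2 (hR (f.W_inf.le ⟨h1, (𝐂(P).mul_mem_cancel_left hy.2).1
    (cent_anti f.syl.1 (f.mem_D (mul_mem hy.1 (f.W_le_Y h1)) c).2)⟩))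
  refine hK _ (mul_mem h5 (hR hr)) (a.trans (isConj_iff.2 ⟨x, ?_⟩))
  have y2 := el_sq FF.Y_el hy.1
  calc x * e * x⁻¹ = x * (e * y) * x⁻¹ * (x * y * x⁻¹) := by simp [mul_assoc, ← mul_assoc y y, y2]
    _ = _ := by rw [BG.mem_cent.1 h4 x hx, mul_inv_cancel_right, b]; simp [mul_assoc, ← mul_assoc y y, y2]

theorem J_baum (P : Subgroup G) : 𝐉 (𝐁 P) = 𝐉 P := thompsonSubgroupOf_eq_of_le (thompson_le_baum P) inf_le_left

omit [Finite G] in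
theorem zj_eq (h : 𝐉 P = 𝐉 U) : zj 2 P = zj 2 U := by rw [zj, zj, centerThompsonOf, centerThompsonOf, h]

theorem zj_baum (P : Subgroup G) : zj 2 (𝐁 P) = zj 2 P := zj_eq (J_baum P)

omit [Finite G] in
theorem zj_cent (P : Subgroup G) : zj 2 P ≤ 𝐂(𝐉 P) := (PGroup.omegaOne_le _).trans inf_le_right

theorem idx_le {A C Y : Subgroup G} (h1 : Y ≤ A ⊔ C) (h2 : A ≤ 𝐍(C)) : C.relIndex Y ≤ C.relIndex A :=
  (relIndex_le_of_le_right h1 index_ne_zero_of_finite).trans (relIndex_sup_of_le_normalizer h2).le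

omit [Finite G] in
theorem Gd.norm (h : Gd X) : Gd 𝐍(𝐐 X) :=
  have a := Loc.le_core (le_norm _) le_rfl (core_pgroup 2 X)
  (cent_anti a).trans (h.trans a)

namespace Ct

variable (h : Ct t S) (b : Bk P X) (hP : P ≤ S)
include h b hP

theorem inf_eq : S ⊓ X = P := (b.syl.eq_of_le h.pg.to_inf_left inf_le_right (le_inf hP b.syl.1)).symm

theorem nl (hy : y ∈ 𝐘 X ⊓ 𝐂(P)) (h1 : y ∉ 𝐂(𝐑 X)) (hg : g ∈ X) (e : g * y * g⁻¹ ∈ 𝐂(P)) :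
    g ∈ 𝐍(P) := by
  have a := (h.conj g).le b.syl.2.1 (le_cent1_iff.2
    (conj_mem_of_norm (b.line hy h1 hg e) (h.mem_Y b hP)).2)
  refine inv_mem_iff.1 (mem_normalizer_of_conj_le ?_)
  rw [← h.inf_eq b hP, ← le_conj_iff_inv_conj_le, conj_inf, conj_eq_of_mem hg, h.inf_eq b hP]
  exact le_inf a b.syl.1

theorem nl' (hg : g ∈ X) (e : g * t * g⁻¹ ∈ 𝐂(P)) : g ∈ 𝐍(P) := h.nl b hP (h.mem_Y b hP) (h.t_not b hP) hg e

/-- Trivial intersections. -/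
theorem ti (hx : x ∈ P) (h1 : x ∉ 𝐐 X) (hg : g ∈ X) (e : g * x * g⁻¹ ∈ P) : g ∈ 𝐍(P) := by
  refine inv_mem_iff.1 (h.nl' b hP (inv_mem hg) ((b.nd' hx (conj_mem_of_norm (norm_Y 2 X (inv_mem hg))
    (h.mem_Y b hP).1) ?_).resolve_left h1))
  have := mem_cent1.1 (h.cen (hP e))
  calc x * (g⁻¹ * t * g⁻¹⁻¹) = g⁻¹ * (g * x * g⁻¹ * t) * g := by group
    _ = _ := by rw [this]; group

theorem max_le {M : Subgroup G} (r : Rk0 2 P M X) : M ≤ 𝐍(P) := fun g hg => by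
  obtain ⟨F, _, _, s, k⟩ := exists_hf b.toFF
  have hg' := r.pmin.lt.le hg
  have ht := h.mem_Y b hP
  by_cases e : s.ρ g ∈ 𝐍(upperUnipotentSL2 F)
  · refine h.nl' b hP hg' (k.line _ (s.conj_mem hg' ht.1) ?_)
    rw [s.conj g hg' t ht.1, sl_smul, mulVec_apply_one, (k.mem_C ht.1).1 ht.2, mem_norm_upper.1 e]
    simp
  have a : s.im M = ⊤ := eq_top_of_conj (k.up ▸ s.im_mono r.pmin.le) e (by
    rw [← k.up, ← s.im_conj hg' k.le]; exact s.im_mono (conj_le_of_mem r.pmin.le hg))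
  exact (r.pmin.not_le ((s.le_sup_K le_rfl (a ▸ le_top)).trans (sup_le le_rfl ((le_inf (s.pre_le _)
    (b.ker' k)).trans ((r.res_le_or (norm_cent (norm_Y 2 X))).resolve_left b.nc).1)))).elim

theorem gen (hg : g ∈ X) (h1 : g ∉ 𝐍(P)) (hw : w ∈ P) (h2 : w ∉ 𝐐 X) : X ≤ zpowers w ⊔ g ⋆ P := by
  obtain ⟨M, r⟩ := b.rk
  have r' := r.conj g
  rw [conj_eq_of_mem hg] at r'
  have a : zpowers w ≤ P := zpowers_le.2 hw
  refine (r'.pmin.eq_of_not_le le_sup_right (sup_le (a.trans r.le) r'.le) fun e => h1 ?_).ge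
  have n := (le_sup_left.trans e).trans (conj_normalizer g P ▸ conj_mono g (h.max_le b hP r))
  have := (r'.syl.eq_of_le (pgroup_sup r'.pmin.pgroup (r.pmin.pgroup.to_le a) n)
    (sup_le r'.le (a.trans r.le)) le_sup_left).ge (mem_sup_right (mem_zpowers w))
  exact inv_mem_iff.1 (h.ti b hP hw h2 (inv_mem hg) (by simpa using Transfer.mem_conj.1 this))

theorem cartan (hy : y ∈ 𝐘 X ⊓ 𝐂(P)) (hz : z ∈ 𝐘 X ⊓ 𝐂(P)) (h1 : y ∉ 𝐂(𝐑 X)) (h2 : z ∉ 𝐂(𝐑 X)) :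
    ∃ x ∈ 𝐑 X ⊓ 𝐍(P), x * y * x⁻¹ * z ∈ 𝐂(X) :=
  let ⟨x, hx, e⟩ := b.trans hy.1 hz.1 h1 h2
  ⟨x, ⟨hx, h.nl b hP hy h1 (res_le 2 X hx) ((𝐂(P).mul_mem_cancel_right hz.2).1 (cent_anti b.syl.1 e))⟩, e⟩

theorem exists_off : ∃ B ∈ maxIn 2 P, ¬ B ≤ 𝐐 X := by
  by_contra! e
  obtain ⟨M, r⟩ := b.rk
  have a := zj_eq (thompsonSubgroupOf_eq_of_le (thompsonSubgroupOf_le_iff.2 e) r.core_le)
  have ht := h.mem_Y b hP
  refine h.t_not b hP (cent_symm (r.res_le (norm_cent ((le_normalizer_core 2 X).trans (normalizer_le_zj _)))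
    le_rfl r.not_le_core (a ▸ b.bm.ge.trans inf_le_right)) ?_)
  exact omegaCenter_le_zj _ ht.1

theorem cover (hK : Gd K) (h1 : X ≤ K) (h2 : ncl (zpowers t) K ≤ 𝐘 X) : 𝐑 (ncl (𝐉 P) K) = 𝐑 X := by
  obtain ⟨F, _, _, s, k⟩ := exists_hf b.toFF
  obtain ⟨M, r⟩ := b.rk
  obtain ⟨B, hB, h3⟩ := h.exists_off b hP
  refine res_eq_of_le (r.res_le (h1.trans (norm_ncl _ K)) hB.1 h3 ((le_thompsonSubgroupOf hB).trans
    (le_ncl _ K))) (ncl_le_iff.2 fun g hg => ?_)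
  obtain ⟨x, hx, e⟩ := k.exists_conj (h2 (conj_le_ncl _ hg (Transfer.conj_mem_conj.2 (mem_zpowers t))))
  have hm := mul_mem (h1 hx) hg
  have a := b.wc K ((x * g) ⋆ S ⊓ K) hK h1 (h.conj (x * g)).pg.to_inf_left (le_inf ((h.conj (x * g)).le
    r.pmin.pgroup (le_cent1_iff.2 (by simpa [mul_assoc] using e))) (r.le.trans h1)) inf_le_right
  have c := J_baum ((x * g) ⋆ S ⊓ K)
  rw [a] at c
  have d : (x * g) ⋆ 𝐉 P = 𝐉 P := c ▸ conj_thompsonSubgroupOf_eq_of_le (c ▸ le_inf (conj_mono _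
    ((thompsonSubgroupOf_le P).trans hP)) (conj_le_of_mem ((thompsonSubgroupOf_le P).trans (r.le.trans h1)) hm))
  rw [← inv_mul_cancel_left x g, ← Transfer.conj_conj, d]
  exact conj_le_of_mem ((thompsonSubgroupOf_le P).trans r.le) (inv_mem hx)

theorem cover' (hK : Gd K) (h1 : X ≤ K) (h2 : ncl (zpowers t) K ≤ 𝐘 X) : K ≤ 𝐍(𝐑 X) :=
  h.cover b hP hK h1 h2 ▸ (norm_ncl _ K).trans (normalizer_le_normalizer_res 2 _)

theorem cover_Q : 𝐑 (ncl (𝐉 P) 𝐍(𝐐 X)) = 𝐑 X := h.cover b hP b.gd.norm (le_normalizer_core 2 X)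
  (ncl_le (zpowers_le.2 (h.mem_Y b hP).1) (normalizer_le_normalizer_oz _))

theorem eq_of_core (b₁ : Bk P X₁) (e : 𝐐 X = 𝐐 X₁) : X = X₁ := by
  have a := h.cover_Q b hP
  rw [e, h.cover_Q b₁ hP] at a
  exact le_antisymm (b.le_sup.trans (sup_le (a.ge.trans (res_le 2 _)) b₁.syl.1))
    (b₁.le_sup.trans (sup_le (a.le.trans (res_le 2 _)) b.syl.1))

theorem norm_X : 𝐍(P) ⊓ 𝐍(𝐐 X) ≤ 𝐍(X) := fun n hn => norm_of_conj_eq (h.eq_of_core b hP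
  (conj_eq_of_norm hn.1 ▸ b.conj n) ((conj_eq_of_norm hn.2).symm.trans (conj_core n X))).symm

end Ct

/-- Minimal offenders. -/
theorem Ct.t3 (h : Ct t S) (hP : P ≤ S) {𝒴 : Set (Subgroup G)} (ne : 𝒴.Nonempty)
    (bk : ∀ X ∈ 𝒴, Bk P X) (_inv : ∀ n ∈ 𝐍(P), ∀ X ∈ 𝒴, n ⋆ X ∈ 𝒴)
    (hV : ncl (zpowers t) (sSup 𝒴 ⊔ 𝐍(P)) ≤ P) : ∃ X ∈ 𝒴, ∀ W ∈ 𝒴, X ≤ 𝐍(𝐘 W ⊔ 𝐘 X) := by
  set V := ncl (zpowers t) (sSup 𝒴 ⊔ 𝐍(P))
  have nV : sSup 𝒴 ⊔ 𝐍(P) ≤ 𝐍(V) := norm_ncl _ _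
  have tV : t ∈ V := le_ncl _ _ (mem_zpowers t)
  have el : IsElementaryAbelian 2 V := elemAb_ncl (el_zp h.t2) fun g hg =>
    cent_zpowers t ▸ (conj_le_ncl _ hg).trans (hV.trans (hP.trans h.cen))
  have n1 : ∀ X ∈ 𝒴, X ≤ 𝐍(V) := fun X hX => (le_sup_of_le_left (le_sSup hX)).trans nV
  have vQ : ∀ X ∈ 𝒴, V ≤ 𝐐 X := fun X hX => Loc.le_core (hV.trans (bk X hX).syl.1) (n1 X hX) (elab_pgroup el)
  have wV : ∀ X ∈ 𝒴, 𝐖 X ≤ V := fun X hX => (bk X hX).W_le_of (h.mem_Y (bk X hX) hP).1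
    (h.t_not (bk X hX) hP) fun x hx => mul_mem tV (conj_mem_of_norm (n1 X hX hx) tV)
  obtain ⟨⟨B, X⟩, ⟨hB, hX, h0⟩, mn⟩ := Set.exists_min_image
    {p : Subgroup G × Subgroup G | p.1 ∈ maxIn 2 P ∧ p.2 ∈ 𝒴 ∧ ¬ p.1 ≤ 𝐐 p.2} (fun p => 𝐂(V).relIndex p.1)
    (Set.toFinite _) (let ⟨X, hX⟩ := ne; let ⟨B, a, c⟩ := h.exists_off (bk X hX) hP; ⟨(B, X), a, hX, c⟩)
  dsimp only at hB hX h0 mn
  have b := bk X hX
  have cj : ∀ g ∈ 𝐍(V), (∀ D ∈ maxIn 2 P, 𝐂(V).relIndex D < 𝐂(V).relIndex B → g ⋆ D ≤ P) →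
      g ∈ 𝐍(sSup {D ∈ maxIn 2 P | 𝐂(V).relIndex D < 𝐂(V).relIndex B}) := fun g hg a =>
    mem_normalizer_of_conj_le (conj_le_iff_le_inv_conj.2 (sSup_le fun D hD => conj_le_iff_le_inv_conj.1
      (le_sSup ⟨conj_mem_maxIn_of_le hD.1 (a D hD.1 hD.2), by
        rw [← conj_eq_of_norm (norm_cent le_rfl hg), relIndex_conj, conj_eq_of_norm (norm_cent le_rfl hg)]
        exact hD.2⟩)))
  have j0 : V ≤ 𝐂(sSup {D ∈ maxIn 2 P | 𝐂(V).relIndex D < 𝐂(V).relIndex B}) := ncl_le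
    (zpowers_le.2 (le_cent1_iff.1 (sSup_le fun D hD => hD.1.1.trans (hP.trans h.cen))))
    (norm_cent (sup_le (sSup_le fun W hW g hg => cj g (n1 W hW hg) fun D hD a =>
      (conj_le_of_norm (by_contra fun c => (mn (D, W) ⟨hD, hW, c⟩).not_gt a)
        (le_normalizer_core 2 W hg)).trans (bk W hW).core_le)
      fun g hg => cj g (nV (mem_sup_right hg)) fun D hD _ => conj_le_of_norm hD.1 hg))
  have c1 : B ⊓ 𝐂(V) ≤ B ⊓ 𝐐 X := le_inf inf_le_left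
    ((inf_le_inf hB.1 (cent_anti (wV X hX))).trans b.inf_cent_W.le)
  have yV : 𝐘 X ≤ 𝐂(V) := (oz_le_centralizer _).trans (cent_anti (vQ X hX))
  have c2 : B ⊓ 𝐐 X ≤ 𝐂(V) := by
    refine le_sup_left.trans ((le_sSup (Set.mem_sep (b.repl hB h0) ?_)).trans (cent_symm j0))
    refine (idx_le (sup_le_sup_left yV _) (norm_cent
      (((inf_le_left.trans hB.1).trans b.syl.1).trans (n1 X hX)))).trans_lt ?_
    rw [← inf_relIndex_left B, ← relIndex_mul_relIndex _ _ _ c1 inf_le_left, inf_relIndex_left B (𝐐 X),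
      ← inf_relIndex_left (B ⊓ 𝐐 X) (B ⊓ _), ← inf_assoc, inf_eq_left.2 inf_le_left, inf_relIndex_left]
    exact lt_mul_of_one_lt_right (Nat.pos_of_ne_zero index_ne_zero_of_finite)
      (lt_of_le_of_ne (Nat.pos_of_ne_zero index_ne_zero_of_finite) fun e => h0 (relIndex_eq_one.1 e.symm))
  have c3 : V ≤ 𝐖 X ⊔ V ⊓ 𝐂(B) := by
    obtain ⟨u, hu, h2⟩ := SetLike.not_le_iff_exists.1 h0
    refine le_sup_of_relIndex_le (wV X hX) inf_le_left ((wV X hX).trans (abelian_norm el.1 inf_le_left)) ?_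
    rw [inf_relIndex_left]
    refine (max_off hB hV el).trans ?_
    rw [← inf_relIndex_left B, le_antisymm c1 (le_inf inf_le_left c2), inf_relIndex_left,
      ← inf_relIndex_left (𝐖 X)]
    exact (relIndex_le_of_le_right hB.1 index_ne_zero_of_finite).trans (b.idx_P.ge.trans
      (relIndex_le_of_le_left (fun y hy => (b.nd' (hB.1 hu) (b.W_le_Y hy.1)
        (BG.mem_cent.1 hy.2.2 u hu)).resolve_left h2) index_ne_zero_of_finite))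
  have nW : X ≤ 𝐍(𝐖 X) := (le_norm X).trans b.nW
  have c4 : ⁅V, 𝐑 X⁆ ≤ 𝐖 X := b.rk.elim fun _ r => r.comm_res_le hB.1 h0 (n1 X hX) nW
    ((commutator_mono le_rfl c3).trans (comm_sup_le' (le_norm _) (inf_le_left.trans
      (abelian_norm el.1 (wV X hX))) (comm_le_right ((hB.1.trans r.le).trans nW))
        ((comm_eq_bot_iff'.2 inf_le_right).le.trans bot_le)))
  refine ⟨X, hX, fun W hW => b.le_sup.trans (sup_le (norm_of_comm_le ?_) (norm_sup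
    ((bk W hW).syl.1.trans (norm_Y 2 W)) (b.syl.1.trans (norm_Y 2 X))))⟩
  have c5 : 𝐘 W ≤ V ⊔ 𝐘 X := (bk W hW).Y_le_sup.trans (sup_le_sup (wV W hW) ((inf_le_inf_left _
    (cent_anti (bk W hW).syl.1)).trans ((bk W hW).oz_eq.ge.trans b.oz_le)))
  exact (commutator_mono (sup_le c5 le_sup_right) le_rfl).trans ((comm_sup_le (norm_of_cent (cent_symm yV))
    (le_norm _) (c4.trans b.W_le_Y) (b.W_eq.ge.trans b.W_le_Y)).trans le_sup_right)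

end Cfsg.Lib.B2C
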