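import Cfsg.Agent.Lib.B2C.Graph

/-! Unlinked groups. -/

set_option autoImplicit false

namespace Cfsg.Lib.B2C

open Subgroup Cfsg.Lib.BG Cfsg.Lib.Transfer Cfsg.Lib.Loc Cfsg.Lib.PLocal Cfsg.Lib.CGT Cfsg.Lib.PU
open Cfsg.Lib.CS Cfsg.Lib.Root Cfsg.Lib.Core Cfsg.Lib.GC
open scoped commutatorElement
variable {G : Type*} [Group G] [Finite G] {B P S X W : Subgroup G} {t : G}

theorem cent_off (b : FF 2 P X) (hB : B ≤ P) (h0 : ¬ B ≤ 𝐐 X) : 𝐘 X ⊓ 𝐂(B) ≤ 𝐂(P) := fun _ hy =>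
  let ⟨x, hx, c⟩ := SetLike.not_le_iff_exists.1 h0
  (b.nd' (hB hx) hy.1 (BG.mem_cent.1 hy.2 x hx)).resolve_left c

section

variable (b : FF 2 P X) (b' : FF 2 P W) (h1 : 𝐘 W ≤ 𝐐 X) (h2 : X ≤ 𝐍(𝐘 W ⊔ 𝐘 X))
include b b' h1

omit [Finite G] b b' in
theorem zl_el : IsElementaryAbelian 2 (𝐘 W ⊔ 𝐘 X) :=
  PGroup.elemAb_sup FF.Y_el FF.Y_el (h1.trans (le_centralizer_oz _))

theorem zl_idx (hB : B ∈ maxIn 2 P) {Q : Subgroup G} (e : B ⊓ Q ≤ 𝐂(𝐘 W ⊔ 𝐘 X)) :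
    𝐂(B).relIndex (𝐘 W ⊔ 𝐘 X) ≤ Q.relIndex P := ((max_off hB (sup_le b'.Y_le b.Y_le) (zl_el h1)).trans
  (inf_relIndex_left B Q ▸ relIndex_le_of_le_left e index_ne_zero_of_finite)).trans
    (relIndex_le_of_le_right hB.1 index_ne_zero_of_finite)

include h2

omit h1 in
theorem zl_cent : ⁅𝐘 W ⊔ 𝐘 X, 𝐐 X⁆ ≤ 𝐂(X) := by
  obtain ⟨g, hg, e⟩ := b.exists_gen
  have c : ⁅𝐘 W ⊔ 𝐘 X, 𝐐 X⁆ ≤ 𝐂(P) := (comm_sup_le (N := ⁅𝐘 W, P⁆) (left_norm_comm _ _)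
    (b.Y_le.trans (right_norm_comm _ _)) (commutator_mono le_rfl b.core_le)
      ((comm_eq_bot_iff.2 (oz_le_centralizer _)).le.trans bot_le)).trans b'.quad
  refine cent_symm (e.trans (sup_le (cent_symm c) (cent_symm ?_)))
  rw [← conj_centralizer]
  exact (conj_eq_of_norm (norm_comm h2 (le_normalizer_core 2 X) (res_le 2 X hg))).ge.trans (conj_mono g c)

theorem zl_max (hB : B ∈ maxIn 2 P) (h0 : ¬ B ≤ 𝐐 X) (h3 : 𝐐 X ≠ 𝐐 W) :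
    ∃ B ∈ maxIn 2 P, B ≤ 𝐐 W ∧ ¬ B ≤ 𝐐 X := by
  by_contra! k
  have h4 := fun e => h0 (k B hB e)
  have c := le_sup_left.trans (k _ (b'.repl hB h4) (sup_le inf_le_right (Loc.oz_le _)))
  have nB := (hB.1.trans b.syl.1).trans (le_normalizer_core 2 X)
  obtain ⟨u, hu, h5⟩ := SetLike.not_le_iff_exists.1 fun e : 𝐐 X ≤ 𝐐 W => h3 (e.antisymm
    ((le_inf (b'.core_le.trans ((b.le_sup_max hB h0).trans (sup_comm _ _).le)) le_rfl).trans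
      ((modular_left e nB).le.trans (sup_le le_rfl c))))
  obtain ⟨q, hq, v, hv, rfl⟩ := (mem_sup_left_norm ((hB.1.trans b'.syl.1).trans (le_normalizer_core 2 W))).1
    (((b'.le_sup_max hB h4).trans (sup_comm _ _).le) (b.core_le hu))
  obtain ⟨y, hy, h6⟩ := SetLike.not_le_iff_exists.1 fun e : 𝐘 X ≤ 𝐂(P) =>
    b.not_comm_le ((comm_eq_bot_iff.2 e).le.trans bot_le)
  have i : 𝐂(B).relIndex (𝐘 W ⊔ 𝐘 X) ≤ 𝐂(B).relIndex (𝐘 W) := (zl_idx b b' h1 hB (Q := 𝐐 W) (by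
    rw [cent_sup]
    exact le_inf (inf_le_right.trans (le_centralizer_oz _)) (c.trans (le_centralizer_oz _)))).trans
      (b'.natSec.2.1.ge.trans (inf_relIndex_left (𝐘 W) 𝐂(B) ▸
        relIndex_le_of_le_left (cent_off b' hB.1 h4) index_ne_zero_of_finite))
  obtain ⟨w, hw, z, hz, rfl⟩ := (mem_sup_left_norm (inf_le_left.trans (abelian_norm (zl_el h1).1 le_sup_left))).1
    (CS.le_sup_of_relIndex_le le_sup_left i (mem_sup_right hy))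
  have e1 : ⁅v, w * z⁆ = ⁅v, w⁆ := by
    rw [comm_mul_r, comm_eq_one.2 (BG.mem_cent.1 hz.2 v hv), mul_one, mul_inv_cancel, mul_one]
  have e2 : ⁅q * v, w⁆ = ⁅v, w⁆ := by
    rw [comm_mul_l, comm_eq_one.2 (BG.mem_cent.1 (oz_le_centralizer _ hw) q hq), mul_one, BG.mem_cent.1
      (oz_le_centralizer _ (comm_mem_r (norm_Y 2 W (b'.syl.1 (hB.1 hv))) hw)) q hq, mul_inv_cancel_right]
  have e3 := (b.nd (hB.1 hv) hy (e1 ▸ e2 ▸ cent_anti (res_le 2 X) (zl_cent b b' h2 ((commutator_comm _ _).le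
    (commutator_mem_commutator hu (mem_sup_left hw)))))).resolve_right h6
  exact h6 (cent_off b hB.1 h0 ⟨hy, mul_mem (cent_anti hB.1 ((b'.nd' (hB.1 hv) hw (comm_eq_one.1 (e1.symm.trans
    (comm_eq_one.2 (BG.mem_cent.1 (oz_le_centralizer _ hy) v e3))))).resolve_left fun f => h5 (mul_mem hq f))) hz.2⟩)

theorem zl_dec (hB : B ∈ maxIn 2 P) (h0 : ¬ B ≤ 𝐐 X) (h3 : B ≤ 𝐐 W) :
    𝐘 W ≤ 𝐘 X ⊔ (𝐘 W ⊔ 𝐘 X) ⊓ (𝐂(𝐑 X) ⊓ 𝐂(B)) := by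
  obtain ⟨M, r⟩ := b.rk
  have s := b.le_sup_max hB h0
  obtain ⟨g, hg, e⟩ := r.exists_gen hB.1 s b.syl
  replace e : X ≤ (g ⋆ B ⊔ 𝐐 X) ⊔ B := e.trans (sup_le_sup_right ((conj_mono g s).trans (by
    rw [conj_sup, conj_eq_of_norm (le_normalizer_core 2 X hg)])) _)
  have i := zl_idx b b' h1 hB (Q := 𝐐 X) (by
    rw [cent_sup]
    exact le_inf (inf_le_left.trans (h3.trans (le_centralizer_oz _))) (inf_le_right.trans (le_centralizer_oz _)))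
  have i' : 𝐂(g ⋆ B).relIndex (𝐘 W ⊔ 𝐘 X) ≤ (𝐐 X).relIndex P := by
    rwa [← conj_eq_of_norm (h2 hg), ← conj_centralizer, relIndex_conj]
  have j : (𝐂(g ⋆ B) ⊓ 𝐂(B)).relIndex (𝐘 W ⊔ 𝐘 X) ≤ (𝐂(g ⋆ B) ⊓ 𝐂(B)).relIndex (𝐘 X) := by
    refine relIndex_inf_le.trans ((Nat.mul_le_mul i' i).trans ?_)
    rw [← pow_two, ← b.idx_E, ← inf_relIndex_left (𝐘 X)]
    refine (relIndex_le_of_le_right b.W_le_Y index_ne_zero_of_finite).trans (relIndex_le_of_le_left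
      (cent_symm ((res_le 2 X).trans (e.trans (cent_symm ?_)))) index_ne_zero_of_finite)
    rw [cent_sup, cent_sup]
    exact le_inf (le_inf (inf_le_right.trans inf_le_left) (inf_le_left.trans (oz_le_centralizer _)))
      (inf_le_right.trans inf_le_right)
  refine (le_sup_left.trans (CS.le_sup_of_relIndex_le le_sup_right j)).trans (sup_le_sup_left
    (le_inf inf_le_left <| le_inf (cent_symm (res_le_centralizer_of_commutator (W := (𝐘 W ⊔ 𝐘 X) ⊓ 𝐂(X))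
      (elab_pgroup (zl_el h1)).to_inf_left ((commutator_mono le_rfl ((res_le 2 X).trans e)).trans ?_)
      ((res_le 2 X).trans (cent_symm inf_le_right)))) (inf_le_right.trans inf_le_right)) _)
  have n : X ≤ 𝐍((𝐘 W ⊔ 𝐘 X) ⊓ 𝐂(X)) := norm_of_cent (cent_symm inf_le_right)
  have n1 := hB.1.trans b.syl.1
  have n2 := conj_le_of_norm n1 (le_norm X hg)
  exact comm_sup_le' ((sup_le n2 (Loc.core_le 2 X)).trans n) (n1.trans n) (comm_sup_le' (n2.trans n)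
    ((Loc.core_le 2 X).trans n) ((comm_eq_bot_iff.2 (inf_le_right.trans inf_le_left)).le.trans bot_le)
    ((commutator_mono inf_le_left le_rfl).trans (le_inf (comm_le_left ((Loc.core_le 2 X).trans h2))
      (zl_cent b b' h2)))) ((comm_eq_bot_iff.2 (inf_le_right.trans inf_le_right)).le.trans bot_le)

end

namespace Ct

variable (h : Ct t S) (hP : P ≤ S)
include h hP

/-- Some `B ∈ 𝒜(P)` lies in `Q_W` but not in `Q_X`; `Hy.move` for `W` with `K = C(E_X) ⊓ C(B)`. -/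
theorem zl (b : Bk P X) (b' : Bk P W) (h1 : 𝐘 W ≤ 𝐐 X) (h2 : X ≤ 𝐍(𝐘 W ⊔ 𝐘 X)) (h3 : 𝐐 X ≠ 𝐐 W) :
    𝐖 W ≤ 𝐂(𝐑 X) := by
  obtain ⟨_, a, c⟩ := h.exists_off b hP
  obtain ⟨B, hB, h4, h0⟩ := zl_max b.toFF b'.toFF h1 h2 a c h3
  obtain ⟨x, hx, h5⟩ := SetLike.not_le_iff_exists.1 h0
  obtain ⟨M, r⟩ := b.rk
  have cB : 𝐘 W ≤ 𝐂(B) := (oz_le_centralizer _).trans (cent_anti h4)
  have cX : 𝐂(X) ≤ 𝐂(𝐑 X) ⊓ 𝐂(B) := le_inf (cent_anti (res_le 2 X)) (cent_anti (hB.1.trans r.le))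
  refine le_trans (h.move b'.toFF (K := 𝐂(𝐑 X) ⊓ 𝐂(B)) (fun d hd e => h.not_cent e r (hB.1 hx) h5
    (BG.mem_cent.1 hd.2 x hx) hd.1) ((comm_le_of_le_sup ((b.le_sup_max hB h0).trans (sup_comm _ _).le)
      ((b.core_le.trans b'.syl.1).trans (norm_Y 2 W)) (cent_symm cB)).trans ((commutator_mono le_sup_left
        le_rfl).trans ((zl_cent b.toFF b'.toFF h2).trans cX))) fun w hw k => ?_) inf_le_left
  obtain ⟨y, hy, z, ⟨-, hz⟩, rfl⟩ := (mem_sup_left_norm (inf_le_left.trans (abelian_norm (zl_el h1).1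
    le_sup_right))).1 (zl_dec b.toFF b'.toFF h1 h2 hB h0 h4 (b'.W_le_Y hw))
  have yB : y ∈ 𝐂(B) := (Subgroup.mul_mem_cancel_right _ hz.2).1 (cB (b'.W_le_Y hw))
  obtain ⟨g, hg, e⟩ := h.cartan b hP (h.mem_Y b hP) ⟨hy, cent_off b.toFF hB.1 h0 ⟨hy, yB⟩⟩ (h.t_not b hP)
    fun e => k (mul_mem ⟨e, yB⟩ hz)
  have m := conj_mem_of_norm (normalizer_le_normalizer_oz P hg.2) (b.oz_eq.ge (h.mem_Y b hP))
  have i : IsConj t (g * t * g⁻¹) := isConj_iff.2 ⟨g, rfl⟩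
  exact ⟨_, i, _, b'.oz_eq.le m, h.not_mem_cent b' i (oz_le_centralizer _ m), (h.conj g).t2 ▸ one_mem _,
    mul_assoc _ y z ▸ mul_mem (cX e) hz⟩

/-- `Ct.graph` for the `N(P)`-conjugates of `X`: if none is linked, `X` and `N(P)` normalize the span `V ∋ t` of
the modules, `N(V)` is good, `B(N_S(P)) = P` by `wc`, so `N_S(P) = S`. -/
theorem dich (b : Bk P X) : P = 𝐁 S ∨ ∃ X', LP P X X' := or_iff_not_imp_right.2 fun k => by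
  have bk : ∀ n ∈ 𝐍(P), Bk P (n ⋆ X) := fun n hn => conj_eq_of_norm hn ▸ b.conj n
  obtain ⟨_, ⟨n, hn, rfl⟩, e⟩ := h.graph hP (𝒴 := {U | ∃ n ∈ 𝐍(P), n ⋆ X = U}) ⟨X, 1, one_mem _, conj_one X⟩
    (fun _ ⟨n, hn, e⟩ => e ▸ bk n hn) (fun m hm _ ⟨n, hn, e⟩ => ⟨m * n, mul_mem hm hn, e ▸ (conj_conj _ _ _).symm⟩)
    fun _ ⟨n, hn, e⟩ _ ⟨m, hm, e'⟩ => by_contra fun c => k ⟨_, b, bk _ (mul_mem (inv_mem hn) hm), fun d => c (by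
      have := conj_mono n d
      rwa [PU.conj_Y, conj_core, ← conj_conj, conj_inv_conj, e, e'] at this)⟩
  let V := ⨆ m : 𝐍(P), 𝐘 (m.1 ⋆ X)
  have l : ∀ m ∈ 𝐍(P), 𝐘 (m ⋆ X) ≤ V := fun m hm => le_iSup (fun m : 𝐍(P) => 𝐘 (m.1 ⋆ X)) ⟨m, hm⟩
  have key : ∀ g, (∀ m ∈ 𝐍(P), g ⋆ 𝐘 (m ⋆ X) ≤ V) → g ∈ 𝐍(V) := fun g hg => mem_normalizer_of_conj_le (by
    rw [Subgroup.map_iSup]; exact iSup_le fun m => hg m.1 m.2)
  have n1 : 𝐍(P) ≤ 𝐍(V) := fun g hg => key g fun m hm => by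
    rw [PU.conj_Y, conj_conj]; exact l _ (mul_mem hg hm)
  have n2 : n ⋆ X ≤ 𝐍(V) := fun g hg => key g fun m hm =>
    (conj_le_of_norm le_sup_left (e _ ⟨m, hm, rfl⟩ hg)).trans (sup_le (l m hm) (l n hn))
  have e1 := b.wc _ (S ⊓ 𝐍(P)) (h.gd_norm (iSup_le fun m : 𝐍(P) => (bk m.1 m.2).Y_le.trans hP)
    (l n hn (h.mem_Y (bk n hn) hP).1)) ((conj_le_iff_le_inv_conj.1 n2).trans
      (conj_le_of_norm le_rfl (le_norm _ (inv_mem (n1 hn))))) h.pg.to_inf_left (le_inf hP (le_norm P))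
        (inf_le_right.trans n1)
  have e2 : S ⊓ 𝐍(P) = S := by_contra fun e' => by
    obtain ⟨x, a1, a2, -, a3⟩ := PGroup.exists_mem_normalizer_of_lt h.pg (inf_le_left.lt_of_ne e')
    exact a2 ⟨a1, e1 ▸ normalizer_le_baum _ a3⟩
  exact (e2 ▸ e1).symm

/-- Take a minimal nonempty `N(P)`-invariant `𝒴` of unlinked groups such that `E_X ≤ N(A_W)` for `X ∉ 𝒴`
unlinked, `W ∈ 𝒴`; remove the set `𝒴₁ ≠ ∅` given by `Ct.graph` (`zl`, `eq_of_core`); so `𝒴₁ = 𝒴`. -/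
theorem t4 (u : Ul P X) : ∃ W, Ul P W ∧ ∀ X, Ul P X → 𝐑 X ≤ 𝐍(𝐖 W) := by
  suffices ∀ 𝒴 : Set (Subgroup G), 𝒴.Nonempty → (∀ X ∈ 𝒴, Ul P X) → (∀ n ∈ 𝐍(P), ∀ X ∈ 𝒴, n ⋆ X ∈ 𝒴) →
      (∀ X, Ul P X → X ∉ 𝒴 → ∀ W ∈ 𝒴, 𝐑 X ≤ 𝐍(𝐖 W)) → ∃ W, Ul P W ∧ ∀ X, Ul P X → 𝐑 X ≤ 𝐍(𝐖 W) from
    this {X | Ul P X} ⟨X, u⟩ (fun _ => id) (fun n hn X u => ⟨conj_eq_of_norm hn ▸ u.toBk.conj n, fun X' c => by
      have := u.ul _ (conj_eq_of_norm (inv_mem hn) ▸ c.conj n⁻¹)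
      rwa [← conj_core, ← conj_le_iff_le_inv_conj, PU.conj_Y] at this⟩) fun _ a b => (b a).elim
  intro 𝒴
  induction 𝒴 using WellFoundedLT.induction with
  | ind 𝒴 ih =>
    intro ne ul inv out
    obtain ⟨U, hU, e⟩ := h.graph hP ne (fun X a => (ul X a).toBk) inv fun X a W c => (ul X a).ul W (ul W c).toBk
    have k : ∀ X, Ul P X → X ∉ {X ∈ 𝒴 | ¬ ∀ W ∈ 𝒴, X ≤ 𝐍(𝐘 W ⊔ 𝐘 X)} → ∀ W ∈ 𝒴, 𝐑 X ≤ 𝐍(𝐖 W) :=
      fun X a c W d => by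
        by_cases i : X ∈ 𝒴
        · by_cases j : 𝐐 X = 𝐐 W
          · exact h.eq_of_core a.toBk hP (ul W d).toBk j ▸ (res_le 2 X).trans (right_norm_comm _ _)
          · exact norm_of_cent (cent_symm (h.zl hP a.toBk (ul W d).toBk ((ul W d).ul X a.toBk)
              (not_not.1 (fun f => c ⟨i, f⟩) W d) j))
        · exact out X a i W d
    rcases {X ∈ 𝒴 | ¬ ∀ W ∈ 𝒴, X ≤ 𝐍(𝐘 W ⊔ 𝐘 X)}.eq_empty_or_nonempty with z | z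
    · exact ⟨U, ul U hU, fun X a => k X a (z ▸ id) U hU⟩
    · refine ih {X ∈ 𝒴 | ¬ ∀ W ∈ 𝒴, X ≤ 𝐍(𝐘 W ⊔ 𝐘 X)} ⟨Set.sep_subset _ _, fun c => (c hU).2 e⟩ z
        (fun X a => ul X a.1) (fun n hn X a => ⟨inv n hn X a.1, fun c => a.2 fun W d => ?_⟩)
        fun X a c W d => k X a c W d.1
      have := c _ (inv n hn W d)
      rwa [← PU.conj_Y, ← PU.conj_Y, ← conj_sup, ← conj_normalizer, conj_le_conj_iff] at this

end Ct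

end Cfsg.Lib.B2C
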