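import Cfsg.Agent.Lib.B2C.Rel
import Cfsg.Agent.Lib.B2C.ZL
import Cfsg.Agent.Lib.B2C.Ext

/-!
`Y` = span of the `E = 𝐑 X` with `Bk (B S) X` or `LS t S P X X'` is normalized by `N(B S)` (`le_B`, `conj_le`);
`Ct.ext`, `Ct.dich` for `M = N(B S)` and `M = N(Y)` give `1 ≠ Y ⊴ G`, `Y = L`.  An unlinked group gives a normal
2-subgroup `A_W` (`t4`, `ul`, `As.eq_bot`).  Fix a pair; `Y₀` = span of the `E` of the pairs related to it as in
`rel`, `Y₁` = span of the others; `[Y₀, Y₁] = 1`, `Y₀ ⊴ L`, `Y₀ = L`, `Y₁ = 1`.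
-/

set_option autoImplicit false

namespace Cfsg.Lib.B2C

open Subgroup Cfsg.Lib.BG Cfsg.Lib.Transfer Cfsg.Lib.Loc Cfsg.Lib.PLocal Cfsg.Lib.CGT Cfsg.Lib.PU
open Cfsg.Lib.CS Cfsg.Lib.Root Cfsg.Lib.Core Cfsg.Lib.GC
open scoped commutatorElement

section
variable {G : Type*} [Group G] [Finite G] {S L M N P X X' : Subgroup G} {t g : G} {p : Subgroup G → Prop}

/-- The span of the residuals of the groups in a class. -/
def spn (p : Subgroup G → Prop) : Subgroup G := ⨆ X, ⨆ _ : p X, 𝐑 X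

omit [Finite G] in
theorem le_spn (h : p X) : 𝐑 X ≤ spn p := le_iSup₂_of_le X h le_rfl

omit [Finite G] in
theorem spn_le (h : ∀ X, p X → 𝐑 X ≤ N) : spn p ≤ N := iSup₂_le h

theorem norm_spn (h : ∀ X, p X → p (g ⋆ X)) : g ∈ 𝐍(spn p) := mem_normalizer_of_conj_le
  (conj_le_iff_le_inv_conj.2 (spn_le fun X e => conj_le_iff_le_inv_conj.1 (by
    rw [conj_res]; exact le_spn (h X e))))

theorem Bk.not_E (b : Bk P X) : ¬ 𝐑 X ≤ 𝐂(𝐑 X) := fun e => b.not_R_le (b.R_le.trans (b.W_le_E.trans e))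

theorem Ct.t_B (h : Ct t S) : t ∈ 𝐁 S := ⟨h.mem, le_cent1_iff.1 ((zj_le S).trans h.cen)⟩

theorem Ct.ext' (h : Ct t S) (k : ¬ Ho t S) (h1 : M ≠ ⊤) (h2 : 𝐍(𝐁 S) ≤ M) :
    ∃ X, (Bk (𝐁 S) X ∨ ∃ P X', LS t S P X X') ∧ ¬ 𝐑 X ≤ M := by
  obtain ⟨P, X, b, c, d⟩ := h.ext k h1 h2
  have e := fun (f : P ≤ 𝐁 S) (g : 𝐑 X ≤ M) => d (b.le_sup.trans (sup_le g (f.trans ((le_norm _).trans h2))))
  rcases h.dich c b with f | ⟨X', f⟩
  · exact ⟨X, .inl (f ▸ b), e f.le⟩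
  · exact ⟨X, .inr ⟨P, X', h, f, c⟩, e (LS.le_B ⟨h, f, c⟩).1⟩

theorem Ct.le_span (h : Ct t S) (a : As t L) (k : ¬ Ho t S) :
    L ≤ spn fun X => Bk (𝐁 S) X ∨ ∃ P X', LS t S P X X' := by
  have n : 𝐍(𝐁 S) ≤ 𝐍(spn fun X => Bk (𝐁 S) X ∨ ∃ P X', LS t S P X X') := fun g hg =>
    norm_spn fun X e => e.imp (fun b => conj_eq_of_norm hg ▸ b.conj g) fun ⟨_, _, b⟩ =>
      ⟨_, _, b.conj_le ((conj_le_of_norm b.le_B.1 hg).trans inf_le_left)⟩
  have : (spn fun X => Bk (𝐁 S) X ∨ ∃ P X', LS t S P X X').Normal := normalizer_eq_top_iff.1 (by_contra fun e =>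
    let ⟨_, b, c⟩ := h.ext' k e n
    c (le_norm_of_le (le_spn b)))
  obtain ⟨X, b, c⟩ := h.ext' k (fun e => h.t1 (mem_bot.1 ((a.eq_bot h.t2 (h.pg.to_le inf_le_left)
    (le_top.trans e.ge) (e.ge trivial)).le h.t_B))) le_rfl
  exact a.le_of_normal fun e => c (((le_spn b).trans e.le).trans bot_le)

theorem Ct.le_span' (h : Ct t S) (a : As t L) (k : ¬ Ho t S) : L ≤ spn fun X => ∃ P X', LS t S P X X' := by
  have o : ∀ X, Bk (𝐁 S) X → Ul (𝐁 S) X ∨ ∃ P X', LS t S P X X' := fun X b => or_iff_not_imp_right.2 fun e =>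
    ⟨b, fun X' c => by_contra fun d => e ⟨_, X', h, ⟨b, c, d⟩, inf_le_left⟩⟩
  refine (h.le_span a k).trans (spn_le fun X e => le_spn (e.elim (fun b => (o X b).resolve_left fun u => ?_) id))
  obtain ⟨W, w, n⟩ := h.t4 inf_le_left u
  have l : ∀ X, (∃ P X', LS t S P X X') → 𝐑 X ≤ 𝐍(𝐖 W) := fun _ ⟨_, _, c⟩ => norm_of_cent (cent_symm (c.ul w))
  exact w.not_R_le (w.R_le.trans ((a.eq_bot h.t2 (PGroup.elemAb_isPGroup w.W_el) ((h.le_span a k).trans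
    (spn_le fun X e => e.elim (fun b => (o X b).elim (n X) (l X)) (l X))) (w.toBk.nP h.t_B)).le.trans bot_le))

theorem LS.not_cm (h : LS t S P X X') (a : As t L) (k : ¬ Ho t S) {P₁ U U' : Subgroup G} (l : LS t S P₁ U U') :
    ¬ Cm X X' U U' := fun c => by
  let p := fun V => ∃ P V', LS t S P V V' ∧ Cm X X' V V'
  have n : L ≤ 𝐍(spn p) := (h.toCt.le_span' a k).trans (spn_le fun V ⟨P₂, V', m⟩ => by
    rcases h.rel m with d | ⟨-, -, d⟩ | ⟨-, d, e⟩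
    · exact le_norm_of_le (le_spn ⟨_, _, m, d⟩)
    · exact norm_of_cent (cent_symm (spn_le fun W ⟨_, _, _, f⟩ => d.elim (fun e => e.1 ▸ f.a) fun e => e.1 ▸ f.b))
    · refine norm_of_cent (cent_symm (spn_le fun W ⟨_, _, o, f⟩ => ?_))
      rcases m.rel o with i | ⟨i, -⟩ | ⟨-, -, i⟩
      · exact i.a
      · omega
      · exact (h.l.not_R_le (e ▸ i ▸ h.R_cent o (h.of_cm o f))).elim)
  have : (spn p).Normal := normal_of_top_le_normalizer (a.sup.ge.trans (sup_le n (zpowers_le.2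
    (norm_spn fun V e => by
      obtain ⟨_, _, m, -⟩ := id e
      rwa [conj_eq_of_mem (m.l.syl.1 (m.l.Y_le m.t_mem.1))]))))
  exact h.l.not_E ((a.res_le h.t2 X).trans ((a.le_of_normal (K := spn p) fun e => l.l.not_E
    (((le_spn (p := p) ⟨_, _, l, c⟩).trans e.le).trans bot_le)).trans (spn_le fun V ⟨_, _, _, f⟩ => f.a)))

end

theorem Ct.glue {G : Type*} [Group G] [Finite G] {S L : Subgroup G} {t : G} (h : Ct t S) (a : As t L)
    (k : ¬ Ho t S) : (∃ P X X', LS t S P X X' ∧ 4 ≤ (𝐐 X).relIndex P ∧ 𝐂(𝐑 X) ⊓ 𝐂(𝐑 X') = ⊥) ∨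
      ∃ P X X' z, LS t S P X X' ∧
        (∀ P U U', LS t S P U U' → (𝐐 U).relIndex P = 2 ∧ ⁅𝐘 U, P⁆ = zpowers z) ∧
        ∀ c, (∀ P U U', LS t S P U U' → c ∈ 𝐂(𝐑 U)) → c = 1 := by
  have n := h.le_span' a k
  obtain ⟨X, P, X', l⟩ : ∃ X P X', LS t S P X X' := by_contra fun e => a.not_pg (IsPGroup.of_bot.to_le
    (n.trans (spn_le fun X b => (e ⟨X, b⟩).elim)))
  have r := fun P₁ U U' (m : LS t S P₁ U U') => (l.rel m).resolve_left (l.not_cm a k m)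
  rcases l.l.two_or with q | q
  · obtain ⟨z, -, -, hz⟩ := l.exists_z q
    refine .inr ⟨P, X, X', z, l, fun P₁ U U' m => (r _ _ _ m).elim (fun e => by omega) fun e => ⟨e.2.1, e.2.2.trans hz⟩,
      fun c e => mem_bot.1 (a.cen.le (le_cent1_iff.1 (n.trans (spn_le fun U ⟨_, _, m⟩ => le_cent1_iff.2 (e _ _ _ m)))))⟩
  · refine .inl ⟨P, X, X', l, q, eq_bot_mono a.cen (cent_symm (n.trans (spn_le fun U ⟨_, _, m⟩ => cent_symm ?_)))⟩
    rcases r _ _ _ m with ⟨-, -, e | e⟩ | e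
    · exact e.1 ▸ inf_le_left
    · exact e.1 ▸ inf_le_right
    · omega

end Cfsg.Lib.B2C
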