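import Cfsg.Agent.Lib.B2C.FFb

/-!
The amalgam method for a family (after `PU/Graph.lean`).  Vertices: conjugates of members of `𝒴`; adjacent if
they share a Sylow subgroup.  If every vertex `X` has a good edge `W → X` (`X ≰ N(Y_W Y_X)`), then `Y_α ≤ Q_β`
along all walks, and `Ct.t3` applies to the span of the `Y_β` with `β` reachable from `𝒴`.
-/

set_option autoImplicit false

namespace Cfsg.Lib.B2C

open Subgroup Cfsg.Lib.BG Cfsg.Lib.Transfer Cfsg.Lib.Loc Cfsg.Lib.PLocal Cfsg.Lib.CGT Cfsg.Lib.PU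
open Cfsg.Lib.CS Cfsg.Lib.Root Cfsg.Lib.Core Cfsg.Lib.GC
open scoped commutatorElement

variable {G : Type*} [Group G] {I : Subgroup G → Subgroup G → Prop} {k m n : ℕ}
  {T T' U W X Y Y₁ : Subgroup G} {g : G}

/-- An incidence relation between Sylow subgroups and unlinked rank one groups with good edges. -/
structure Gm (I : Subgroup G → Subgroup G → Prop) : Prop where
  ff : ∀ {T X}, I T X → FF 2 T X
  cj : ∀ {T X} (g : G), I T X → I (g ⋆ T) (g ⋆ X)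
  ul : ∀ {T X W}, I T X → I T W → 𝐘 X ≤ 𝐐 W
  good : ∀ {T X}, I T X → ∃ W, I T W ∧ ¬ X ≤ 𝐍(𝐘 W ⊔ 𝐘 X)
  gen : ∀ {T X g w}, I T X → g ∈ X → g ∉ 𝐍(T) → w ∈ T → w ∉ 𝐐 X → X ≤ zpowers w ⊔ g ⋆ T

/-- Walks of given length. -/
inductive Wk (I : Subgroup G → Subgroup G → Prop) : ℕ → Subgroup G → Subgroup G → Prop
  | nil (X : Subgroup G) : Wk I 0 X X
  | cons {n : ℕ} {T X Y W : Subgroup G} : I T X → I T Y → Wk I n Y W → Wk I (n + 1) X W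

namespace Wk

theorem append (h : Wk I m X Y) (h' : Wk I n Y W) : Wk I (n + m) X W := by
  induction h with
  | nil => exact h'
  | cons a b _ ih => exact .cons a b (ih h')

theorem snoc (h : Wk I n X Y) (a : I T Y) (b : I T W) : Wk I (n + 1) X W :=
  add_comm 1 n ▸ h.append (.cons a b (.nil _))

theorem symm (h : Wk I n X Y) : Wk I n Y X := by
  induction h with
  | nil => exact .nil _
  | cons a b _ ih => exact ih.snoc b a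

theorem conj (h : Wk I n X Y) (c : ∀ {T X} (g : G), I T X → I (g ⋆ T) (g ⋆ X)) (g : G) :
    Wk I n (g ⋆ X) (g ⋆ Y) := by
  induction h with
  | nil => exact .nil _
  | cons a b _ ih => exact .cons (c g a) (c g b) ih

theorem uncons (h : Wk I (n + 1) X Y) : ∃ T X₁, I T X ∧ I T X₁ ∧ Wk I n X₁ Y := by
  cases h with
  | cons a b w => exact ⟨_, _, a, b, w⟩

theorem unsnoc (h : Wk I (n + 1) X Y) : ∃ T Y₁, I T Y ∧ I T Y₁ ∧ Wk I n X Y₁ :=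
  let ⟨T, Y₁, a, b, w⟩ := h.symm.uncons
  ⟨T, Y₁, a, b, w.symm⟩

theorem eq_of_zero (h : Wk I 0 X Y) : X = Y := by cases h; rfl

end Wk

/-- No critical pair at distance less than `b`. -/
def Lw (I : Subgroup G → Subgroup G → Prop) (b : ℕ) : Prop := ∀ m < b, ∀ X Y, Wk I m X Y → 𝐘 X ≤ 𝐐 Y

/-- A critical vertex. -/
def Cr (I : Subgroup G → Subgroup G → Prop) (b : ℕ) (X : Subgroup G) : Prop := ∃ Y, Wk I b X Y ∧ ¬ 𝐘 X ≤ 𝐐 Y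

/-- An edge between critical vertices that is good in both directions. -/
structure Eg (I : Subgroup G → Subgroup G → Prop) (b : ℕ) (T W X : Subgroup G) : Prop where
  iW : I T W
  iX : I T X
  cW : Cr I b W
  cX : Cr I b X
  good : ¬ X ≤ 𝐍(𝐘 W ⊔ 𝐘 X)
  good' : ¬ W ≤ 𝐍(𝐘 X ⊔ 𝐘 W)

theorem Eg.symm (e : Eg I n T W X) : Eg I n T X W := ⟨e.iX, e.iW, e.cX, e.cW, e.good', e.good⟩

theorem comm_comm_inv {a w : G} (h : a * a = 1) (k : w * w = 1) : ⁅⁅a, w⁆, a⁆ = ⁅w, ⁅a, w⁆⁆⁻¹ := by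
  simp only [commutatorElement_def, mul_inv_rev, inv_eq_of_mul_eq_one_left h, inv_eq_of_mul_eq_one_left k,
    mul_assoc, ← mul_assoc a a, ← mul_assoc w w, h, k, one_mul, mul_one]

namespace Gm

variable (h : Gm I)
include h

theorem cj' (a : I T X) (hg : g ∈ X) : I (g ⋆ T) X := conj_eq_of_mem hg ▸ h.cj g a

theorem cr_conj (c : Cr I n X) (g : G) : Cr I n (g ⋆ X) := c.elim fun _ c =>
  ⟨_, c.1.conj h.cj g, by rw [← PU.conj_Y, ← conj_core, conj_le_conj_iff]; exact c.2⟩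

theorem eg_conj (e : Eg I n T W X) (g : G) : Eg I n (g ⋆ T) (g ⋆ W) (g ⋆ X) := by
  refine ⟨h.cj g e.iW, h.cj g e.iX, h.cr_conj e.cW g, h.cr_conj e.cX g, ?_, ?_⟩ <;>
    rw [← PU.conj_Y, ← PU.conj_Y, ← conj_sup, ← conj_normalizer, conj_le_conj_iff]
  exacts [e.good, e.good']

variable [Finite G] (l : Lw I (n + 2))
include l

theorem low' (w : Wk I (n + 1) X Y) (a : I T Y) : 𝐘 X ≤ T := (l _ (by omega) _ _ w).trans (h.ff a).core_le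

theorem exists_syl (w : Wk I (n + 2) X Y) : ∃ T, I T Y ∧ 𝐘 X ≤ T :=
  let ⟨T, _, a, b, w'⟩ := w.unsnoc
  ⟨T, a, h.low' l w' b⟩

theorem crit_symm (w : Wk I (n + 2) X Y) (hc : ¬ 𝐘 X ≤ 𝐐 Y) : ¬ 𝐘 Y ≤ 𝐐 X := fun e =>
  let ⟨_, a, b⟩ := h.exists_syl l w
  hc ((le_inf b (cent_symm (e.trans (le_centralizer_oz _)))).trans (h.ff a).cent_le)

theorem crit_sup (w : Wk I (n + 2) X Y) (hc : ¬ 𝐘 X ≤ 𝐐 Y) (a : I T Y) (h1 : 𝐘 X ≤ T) : T ≤ 𝐘 X ⊔ 𝐐 Y := by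
  obtain ⟨T', b, h2⟩ := h.exists_syl l w.symm
  have f := h.ff a
  have f' := h.ff b
  have c := f.W_le_Y.trans h2
  exact (f.pair f' c (f'.W_le_Y.trans h1) fun e => hc ((le_inf h1 (cent_symm (((le_inf c e).trans
    f'.inf_cent_W.le).trans (le_centralizer_oz _)))).trans f.inf_cent_W.le)).1.trans
      (sup_le_sup_right f'.W_le_Y _)

theorem crit_comm (w : Wk I (n + 2) X Y) (hc : ¬ 𝐘 X ≤ 𝐐 Y) (a : I T X) (h1 : 𝐘 Y ≤ T) : ⁅𝐘 X, T⁆ ≤ 𝐘 Y :=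
  let ⟨_, b, h3⟩ := h.exists_syl l w
  (comm_le_of_le_sup (h.crit_sup l w.symm (h.crit_symm l w hc) a h1)
    ((h1.trans (h.ff a).syl.1).trans (norm_Y 2 X)) (le_centralizer_oz _)).trans
      (comm_le_right ((h3.trans (h.ff b).syl.1).trans (norm_Y 2 Y)))

theorem first_edge (a : I T X) (b : I T U) (w : Wk I (n + 1) U Y) (hc : ¬ 𝐘 X ≤ 𝐐 Y) :
    ¬ U ≤ 𝐍(𝐘 X ⊔ 𝐘 U) := fun e => by
  obtain ⟨T₂, X₂, h1, h2, w'⟩ := w.uncons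
  obtain ⟨g, hg, rfl⟩ := (h.ff b).syl.exists_conj (h.ff h1).syl
  refine hc (le_sup_left.trans ((conj_eq_of_norm (e hg)).ge.trans ?_))
  rw [conj_sup, PU.conj_Y, PU.conj_Y, conj_eq_of_mem hg]
  exact sup_le (l _ (by omega) _ _ (.cons (h.cj g a) h2 w')) (l _ (by omega) _ _ w)

theorem shift (w : Wk I (n + 1) X Y₁) (a : I T' Y₁) (b : I T' Y) (hc : ¬ 𝐘 X ≤ 𝐐 Y) (hW : I T W) (hX : I T X)
    (hg : ¬ X ≤ 𝐍(𝐘 W ⊔ 𝐘 X)) : ∃ g ∈ X, ¬ 𝐘 (g ⋆ W) ≤ 𝐐 Y₁ ∧ X ≤ g ⋆ T ⊔ 𝐘 Y := by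
  have w' := w.snoc a b
  obtain ⟨T₁, h1, h2⟩ := h.exists_syl l w'.symm
  obtain ⟨M, hr⟩ := (h.ff h1).rk
  obtain ⟨g, hgX, h5⟩ := hr.exists_gen h2 (h.crit_sup l w'.symm (h.crit_symm l w' hc) h1 h2) (h.ff hX).syl
  refine ⟨g, hgX, fun e => hg ?_, h5⟩
  have h6 := h.low' l w a
  have h7 := (h2.trans hr.le).trans (norm_Y 2 X)
  rw [← conj_le_conj_iff (g := g), conj_normalizer, conj_sup, PU.conj_Y, PU.conj_Y, conj_eq_of_mem hgX]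
  refine h5.trans (sup_le (norm_sup ((h.ff (h.cj g hW)).syl.1.trans (norm_Y 2 _))
    ((h.ff (h.cj' hX hgX)).syl.1.trans (norm_Y 2 _))) (norm_of_comm_le (comm_sup_le
      (le_norm_of_le le_sup_left) (le_norm_of_le le_sup_right) (le_trans ?_ le_sup_right)
        ((comm_le_left h7).trans le_sup_right))))
  rw [commutator_comm]
  exact (comm_le_of_le_sup ((e.trans (h.ff a).core_le).trans (h.crit_sup l w' hc b h6))
    ((h6.trans (h.ff b).syl.1).trans (norm_Y 2 Y)) (le_centralizer_oz _)).trans (comm_le_right h7)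

theorem good_rev (a : I T U) (b : I T W) : ∀ (m k : ℕ) {X Y : Subgroup G}, m + 1 + k = n + 2 →
    Wk I k X U → Wk I m W Y → ¬ 𝐘 X ≤ 𝐐 Y → ¬ U ≤ 𝐍(𝐘 W ⊔ 𝐘 U)
  | 0, k, X, Y, e, w, w', hc => by
    obtain rfl : k = n + 1 := by omega
    obtain rfl := w'.eq_of_zero
    exact h.first_edge l b a w.symm (h.crit_symm l (w.snoc a b) hc)
  | m + 1, k, X, Y, e, w, w', hc => by
    obtain ⟨_, Y₁, a₁, b₁, w₁⟩ := w'.unsnoc
    have w₂ := (show m + 1 + k = n + 1 by omega) ▸ w.append (.cons a b w₁)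
    obtain ⟨T₁, -, h2, -⟩ := w₂.uncons
    obtain ⟨V, h1, hg⟩ := h.good h2
    obtain ⟨g, hgX, h3, -⟩ := h.shift l w₂ b₁ a₁ hc h1 h2 hg
    exact good_rev a b m (k + 1) (by omega) (.cons (h.cj g h1) (h.cj' h2 hgX) w) w₁ h3

/-- For a good edge `W → X` the group `[Z_W, T]` is central in `X`. -/
theorem comm_le (e : Eg I (n + 2) T W X) : ⁅𝐘 W, T⁆ ≤ 𝐂(X) := by
  obtain ⟨Y, w, hc⟩ := e.cX
  obtain ⟨_, Y₁, a₁, b₁, w₁⟩ := w.unsnoc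
  obtain ⟨g, hgX, h3, h4⟩ := h.shift l w₁ b₁ a₁ hc e.iW e.iX e.good
  have a := h.cj g e.iW
  have b := h.cj' e.iX hgX
  rw [← conj_le_conj_iff (g := g), conj_commutator, PU.conj_Y, conj_centralizer, conj_eq_of_mem hgX]
  exact cent_symm (h4.trans (sup_le (cent_symm (h.ff a).quad) (cent_symm (((h.crit_comm l (.cons a b w₁) h3 a
    (h.low' l w₁.symm b)).trans (h.ul b₁ a₁)).trans (le_centralizer_oz _)))))

theorem double (e₀ : Eg I (n + 2) T W X) : n = 0 ∧ ∃ g ∈ W, ¬ 𝐘 (g ⋆ X) ≤ 𝐐 X := by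
  obtain ⟨Y, w, hc⟩ := e₀.cX
  obtain ⟨_, Y₁, a₁, b₁, w₁⟩ := w.unsnoc
  obtain ⟨_, Y₂, a₂, b₂, w₂⟩ := w₁.unsnoc
  obtain ⟨g, hgX, h3, h4⟩ := h.shift l w₁ b₁ a₁ hc e₀.iW e₀.iX e₀.good
  have e : Eg I (n + 2) (g ⋆ T) (g ⋆ W) X := conj_eq_of_mem hgX ▸ h.eg_conj e₀ g
  have w₃ : Wk I (n + 1) (g ⋆ W) Y₂ := .cons e.iW e.iX w₂
  obtain ⟨k, hk, h5, -⟩ := h.shift l w₃ b₂ a₂ h3 e.iX e.iW e.good'
  have e' : Eg I (n + 2) (k ⋆ g ⋆ T) (k ⋆ X) (g ⋆ W) := conj_eq_of_mem hk ▸ h.eg_conj e.symm k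
  obtain rfl : n = 0 := by
    by_contra hn
    have h6 := h.crit_comm l (.cons e'.iW e'.iX w₃) h5 e'.iW (h.low' l w₃.symm e'.iX)
    rw [← PU.conj_Y, ← conj_commutator, conj_eq_of_cent (cent_symm (h.comm_le l e.symm) hk)] at h6
    exact (h.ff e.iX).not_comm_le (cent_symm (h4.trans (sup_le (cent_symm (h.ff e.iX).quad) (cent_symm
      ((h6.trans (l 2 (by omega) _ _ (.cons b₂ a₂ (.cons b₁ a₁ (.nil _))))).trans (le_centralizer_oz _))))))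
  obtain rfl := w₂.eq_of_zero
  refine ⟨rfl, _, mem_conj.1 hk, fun h6 => h5 ?_⟩
  have := conj_mono g h6
  rwa [PU.conj_Y, conj_core, conj_eq_of_mem hgX, conj_conj, ← mul_assoc, mul_inv_cancel_left,
    ← conj_conj, conj_eq_of_mem hgX] at this

theorem not_eg (e : Eg I (n + 2) T W X) : False := by
  obtain ⟨rfl, g, hg, h1⟩ := h.double l e
  obtain ⟨-, k, hk, h2⟩ := h.double l e.symm
  obtain ⟨a, ha, h3⟩ := SetLike.not_le_iff_exists.1 h1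
  obtain ⟨w, hw, h4⟩ := SetLike.not_le_iff_exists.1 h2
  have cX := h.comm_le l e.symm
  have cW := h.comm_le l e
  have fX := h.ff e.iX
  have fW := h.ff e.iW
  have i1 := h.cj g e.iX
  have i2 := h.cj' e.iW hg
  have f1 := h.ff i1
  have f2 := h.ff i2
  have yW := h.ul e.iW e.iX
  have gR : ⁅𝐘 (g ⋆ X), g ⋆ T⁆ = ⁅𝐘 X, T⁆ := by
    rw [← PU.conj_Y, ← conj_commutator, conj_eq_of_cent (cent_symm cX hg)]
  have kR : ⁅𝐘 (k ⋆ W), 𝐐 X⁆ ≤ ⁅𝐘 W, T⁆ := (commutator_mono le_rfl (h.ff (h.cj' e.iX hk)).core_le).trans (by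
    rw [← PU.conj_Y, ← conj_commutator, conj_eq_of_cent (cent_symm cW hk)])
  have kQ : 𝐘 (k ⋆ W) ≤ 𝐐 X := h.ul (h.cj k e.iW) (h.cj' e.iX hk)
  have wT := fX.core_le (kQ hw)
  have aQ := h.ul i1 i2 ha
  set V := 𝐐 W ⊓ relCent (𝐐 W) ⁅𝐘 X, T⁆
  have nV : W ≤ 𝐍(V) := norm_inf (le_normalizer_core 2 W)
    (le_normalizer_relCent (le_normalizer_core 2 W) (norm_of_cent (cent_symm cX)))
  have cV : ⁅V, 𝐐 W⁆ ≤ ⁅𝐘 X, T⁆ := (commutator_mono inf_le_right le_rfl).trans (commutator_relCent_le _ _)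
  have toV : ∀ A ≤ 𝐐 W, ⁅A, 𝐐 W⁆ ≤ ⁅𝐘 X, T⁆ → A ≤ V := fun A a b => le_inf a (le_relCent.2
    ⟨(a.trans (Loc.core_le 2 W)).trans (norm_of_cent (cent_symm cX)), b⟩)
  have aV : a ∈ V := toV _ (h.ul i1 i2) (gR ▸ commutator_mono le_rfl f2.core_le) ha
  set C := V ⊓ 𝐐 X ⊓ 𝐐 (g ⋆ X)
  have rX : ⁅𝐘 X, T⁆ ≤ 𝐘 X := fX.R_le.trans fX.W_le_Y
  have c1 : ⁅𝐘 X, T⁆ ≤ C := le_inf (rX.trans (le_inf (toV _ (h.ul e.iX e.iW) (commutator_mono le_rfl fW.core_le))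
    (Loc.oz_le _))) (gR ▸ f1.R_le.trans f1.W_le_Q)
  have c2 : 𝐘 W ≤ C := le_inf (le_inf (toV _ (Loc.oz_le _)
    ((comm_eq_bot_iff.2 (oz_le_centralizer _)).le.trans bot_le)) yW) (h.ul i2 i1)
  have a2 := el_sq FF.Y_el ha
  have w2 := el_sq FF.Y_el hw
  have kV : ⁅a, w⁆ ∈ V := comm_mem_l aV (nV (fW.syl.1 wT))
  have kX : ⁅a, w⁆ ∈ 𝐐 X := comm_mem_r (le_normalizer_core 2 X (fX.syl.1 (fW.core_le aQ))) (kQ hw)
  have k1 : ⁅⁅a, w⁆, a⁆ ∈ ⁅𝐘 X, T⁆ := cV (commutator_mem_commutator kV aQ)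
  have k2 : ⁅⁅a, w⁆, a⁆ ∈ 𝐂(X) := comm_comm_inv a2 w2 ▸ inv_mem (cW (kR (commutator_mem_commutator hw kX)))
  have k3 : ⁅a, w⁆ ∈ 𝐐 (g ⋆ X) := (f1.nd (f2.core_le kV.1) ha (cent_anti (res_le 2 _) (by
    rw [← conj_centralizer]
    exact ⟨_, k2, (mul_inv_eq_of_eq_mul (BG.mem_cent.1 (cX k1) g hg))⟩))).resolve_right fun c =>
      h3 (yW (mem_oz.2 ⟨⟨aQ, cent_anti f2.core_le c⟩, by rw [sq, a2]⟩))
  have kY : ⁅𝐐 X, 𝐘 (k ⋆ W)⁆ ≤ 𝐘 W := (commutator_comm _ _).le.trans (kR.trans (fW.R_le.trans fW.W_le_Y))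
  have n1 : 𝐘 (k ⋆ W) ≤ 𝐍(C) :=
    norm_of_comm_le ((commutator_mono (inf_le_left.trans inf_le_right) le_rfl).trans (kY.trans c2))
  have n2 : g ⋆ T ≤ 𝐍(C) := by
    refine (conj_mono g (h.crit_sup l (.cons (h.cj k e.iW) (h.cj' e.iX hk) (.cons e.iX e.iW (.nil _))) h2 e.iW
      (kQ.trans fX.core_le))).trans ?_
    rw [conj_sup, conj_eq_of_norm (le_normalizer_core 2 W hg)]
    refine sup_le (norm_of_comm_le ((commutator_mono inf_le_right le_rfl).trans ?_)) (norm_of_comm_le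
      ((commutator_mono (inf_le_left.trans inf_le_left) le_rfl).trans (cV.trans c1)))
    rw [← conj_core, ← conj_commutator]
    exact (conj_le_of_norm kY (norm_Y 2 W hg)).trans c2
  have r : ∀ x ∈ 𝐍(C), ⁅x, a⁆ ∈ C → x ∈ relCent (zpowers a) C := fun x b c => ⟨b, fun y hy => by
    rcases (mem_zp a2).1 hy with rfl | rfl
    exacts [by simp, c]⟩
  have := (((h.gen e.iW hg (fun c => h1 (h.ul (conj_eq_of_norm c ▸ i1) e.iX)) wT h4).trans (sup_le (zpowers_le.2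
    (r w (n1 hw) (commutatorElement_inv a w ▸ inv_mem ⟨⟨kV, kX⟩, k3⟩))) fun x hx => r x (n2 hx) (c1 (gR.le
      ((commutator_comm _ _).le (commutator_mem_commutator hx ha)))))) (inv_mem hg)).2 a (mem_zpowers a)
  rw [← PU.conj_Y] at ha
  exact h3 (inv_mem_iff.1 ((mul_mem_cancel_left (Loc.oz_le _ ((inv_inv g).symm ▸ mem_conj.1 ha : _ ∈ 𝐘 X))).1 this.1.2))

omit l in
theorem low : ∀ n, Lw I n
  | 0 => fun _ e => by omega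
  | 1 => fun m e _ _ w => (show m = 0 by omega) ▸ w |>.eq_of_zero ▸ Loc.oz_le _
  | 2 => fun m e X Y w => (Nat.lt_succ_iff_lt_or_eq.1 e).elim (low 1 m · X Y w) fun e => by
    obtain ⟨_, _, a, b, w'⟩ := (e ▸ w).uncons
    exact w'.eq_of_zero ▸ h.ul a b
  | n + 3 => fun m e X Y w => (Nat.lt_succ_iff_lt_or_eq.1 e).elim (low (n + 2) m · X Y w) fun e => by
    have l := low (n + 2)
    subst e
    by_contra hc
    obtain ⟨_, X₁, a, b, w'⟩ := w.uncons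
    obtain ⟨_, Y₁, a₁, b₁, w₁⟩ := w.unsnoc
    have c := h.good_rev l a b (n + 1) 0 rfl (.nil X) w' hc
    obtain ⟨g, hg, h1, -⟩ := h.shift l w₁ b₁ a₁ hc b a c
    exact h.not_eg l ⟨b, a, inv_conj_conj g X₁ ▸ h.cr_conj ⟨Y₁, .cons (h.cj g b) (h.cj' a hg) w₁, h1⟩ g⁻¹,
      ⟨Y, w, hc⟩, c, h.first_edge l a b w' hc⟩

end Gm

theorem Ct.graph [Finite G] {S P : Subgroup G} {t : G} (h : Ct t S) (hP : P ≤ S)
    {𝒴 : Set (Subgroup G)} (ne : 𝒴.Nonempty) (bk : ∀ X ∈ 𝒴, Bk P X)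
    (inv : ∀ n ∈ 𝐍(P), ∀ X ∈ 𝒴, n ⋆ X ∈ 𝒴) (ul : ∀ X ∈ 𝒴, ∀ W ∈ 𝒴, 𝐘 X ≤ 𝐐 W) :
    ∃ X ∈ 𝒴, ∀ W ∈ 𝒴, X ≤ 𝐍(𝐘 W ⊔ 𝐘 X) := by
  by_contra! hc
  let I : Subgroup G → Subgroup G → Prop := fun T X => ∃ g, ∃ X₀ ∈ 𝒴, T = g ⋆ P ∧ X = g ⋆ X₀
  have i : ∀ X ∈ 𝒴, I P X := fun X hX => ⟨1, X, hX, (conj_one _).symm, (conj_one _).symm⟩
  have m : Gm I := ⟨fun ⟨g, X, a, b, c⟩ => b ▸ c ▸ (bk X a).toFF.conj g,
    fun k ⟨g, X, a, b, c⟩ => ⟨k * g, X, a, b ▸ conj_conj _ _ _, c ▸ conj_conj _ _ _⟩,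
    fun ⟨g, X, a, b, c⟩ ⟨k, W, a', b', c'⟩ => by
      have := conj_mono g (ul X a _ (inv (g⁻¹ * k) (norm_of_conj_eq (by
        rw [← conj_conj, ← b', b, inv_conj_conj])) W a'))
      rwa [PU.conj_Y, conj_core, ← conj_conj, conj_inv_conj, ← c, ← c'] at this,
    fun ⟨g, X, a, b, c⟩ => let ⟨W, d, e⟩ := hc X a; ⟨g ⋆ W, ⟨g, W, d, b, rfl⟩, by
      rwa [c, ← PU.conj_Y, ← PU.conj_Y, ← conj_sup, ← conj_normalizer, conj_le_conj_iff]⟩,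
    fun ⟨g, X, a, b, c⟩ => b ▸ c ▸ fun h1 h2 h3 h4 =>
      (h.conj g).gen ((bk X a).conj g) (conj_mono g hP) h1 h2 h3 h4⟩
  let N := ⨆ Y : {Y // ∃ n, ∃ X ∈ 𝒴, Wk I n X Y}, 𝐘 Y.1
  have key : ∀ g, (∀ X ∈ 𝒴, ∀ Y n, Wk I n (g ⋆ X) Y → ∃ m, ∃ X ∈ 𝒴, Wk I m X Y) → g ∈ 𝐍(N) := fun g hg => by
    refine mem_normalizer_of_conj_le ?_
    rw [Subgroup.map_iSup]
    refine iSup_le fun ⟨Y, n, X, hX, w⟩ => ?_
    rw [PU.conj_Y]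
    exact le_iSup (fun Y : {Y // ∃ n, ∃ X ∈ 𝒴, Wk I n X Y} => 𝐘 Y.1) ⟨_, hg X hX _ n (w.conj m.cj g)⟩
  obtain ⟨X, hX, e⟩ := h.t3 hP ne bk inv (le_trans (ncl_le (K := N) (let ⟨X, hX⟩ := ne; zpowers_le.2
    (le_iSup (fun Y : {Y // ∃ n, ∃ X ∈ 𝒴, Wk I n X Y} => 𝐘 Y.1) ⟨X, 0, X, hX, .nil X⟩ (h.mem_Y (bk X hX) hP).1))
    (sup_le (sSup_le fun W hW g hg => key g fun X hX Y n w =>
      ⟨_, W, hW, .cons (m.cj' (i W hW) hg) (m.cj g (i X hX)) w⟩)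
      fun g hg => key g fun X hX Y n w => ⟨n, _, inv g hg X hX, w⟩))
    (iSup_le fun ⟨Y, n, X, hX, w⟩ => (m.low _ n n.lt_succ_self _ _ w.symm).trans (bk X hX).core_le))
  obtain ⟨W, hW, c⟩ := hc X hX
  exact c (e W hW)

end Cfsg.Lib.B2C
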