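import Cfsg.Agent.Lib.B2C.FFb

/-!
Linked pairs: `A = 𝐖 X`, `A' = 𝐖 X'`, `R = [Y, P] = [A, A']`, `C = C_P(E)`, `D = Q ⊓ Q'`.
-/

set_option autoImplicit false

namespace Cfsg.Lib.B2C

open Subgroup Cfsg.Lib.BG Cfsg.Lib.Transfer Cfsg.Lib.Loc Cfsg.Lib.PLocal Cfsg.Lib.CGT Cfsg.Lib.PU
open Cfsg.Lib.CS Cfsg.Lib.Root Cfsg.Lib.Core Cfsg.Lib.GC
open scoped commutatorElement
variable {G : Type*} [Group G] [Finite G] {B P S U X X' X'' : Subgroup G} {t g x : G}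

theorem LP.conj (h : LP P X X') (g : G) : LP (g ⋆ P) (g ⋆ X) (g ⋆ X') :=
  ⟨h.l.conj g, h.r.conj g, by rw [← PU.conj_Y, ← conj_core, conj_le_conj_iff]; exact h.nle⟩

omit [Finite G] in
theorem conj_W (g : G) (X : Subgroup G) : g ⋆ 𝐖 X = 𝐖 (g ⋆ X) := by rw [conj_commutator, PU.conj_Y]

theorem Bk.zj_eq (b : Bk P X) : zj 2 P = 𝛀 P := le_antisymm (le_oz (elemAb_zj P) (zj_le P)
  (cent_symm (b.bm.ge.trans inf_le_right))) (omegaCenter_le_zj P)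

theorem Bk.W_le (b : Bk P X) : 𝐖 X ≤ P := b.W_le_Q.trans b.core_le

theorem Bk.Q_cent (b : Bk P X) : 𝐐 X ≤ 𝐂(𝐖 X) := b.inf_cent_W.ge.trans inf_le_right

omit [Finite G] in
theorem Bk.nW' (b : Bk P X) : X ≤ 𝐍(𝐖 X) := (le_norm X).trans b.nW

omit [Finite G] in
theorem Bk.nP (b : Bk P X) : P ≤ 𝐍(𝐖 X) := b.syl.1.trans b.nW'

omit [Finite G] in
theorem Bk.nC (b : Bk P X) : P ≤ 𝐍(𝐂(𝐑 X)) := norm_cent (b.syl.1.trans (le_normalizer_res 2 X))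

namespace LS

variable (h : LS t S P X X')
include h

theorem symm : LS t S P X' X := ⟨h.toCt, ⟨h.r, h.l, fun e => h.nle ((le_inf h.l.Y_le
  (cent_symm (e.trans (le_centralizer_oz _)))).trans h.r.cent_le)⟩, h.le⟩

theorem conj (g : G) : LS (g * t * g⁻¹) (g ⋆ S) (g ⋆ P) (g ⋆ X) (g ⋆ X') :=
  ⟨h.toCt.conj g, h.toLP.conj g, conj_mono g h.le⟩

theorem conj_le (hg : g ⋆ P ≤ S) : LS t S (g ⋆ P) (g ⋆ X) (g ⋆ X') := ⟨h.toCt, h.toLP.conj g, hg⟩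

theorem t_mem : t ∈ 𝐘 X ⊓ 𝐂(P) := h.mem_Y h.l h.le

theorem t_not : t ∉ 𝐂(𝐑 X) := h.toCt.t_not h.l h.le

theorem W_le_S : 𝐖 X ≤ S := h.l.W_le.trans h.le

theorem not_W_le : ¬ 𝐖 X ≤ 𝐐 X' := fun e => h.nle (h.l.Y_le_sup.trans (sup_le e
  (inf_le_right.trans ((cent_anti h.l.syl.1).trans h.r.cent))))

theorem ncomm : ¬ 𝐖 X ≤ 𝐂(𝐖 X') := fun e => h.not_W_le ((le_inf h.l.W_le e).trans h.r.inf_cent_W.le)

theorem q_eq : (𝐐 X').relIndex P = (𝐐 X).relIndex P := (h.l.pair h.r.toFF h.l.W_le h.r.W_le h.ncomm).2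

theorem P_le : P ≤ 𝐖 X' ⊔ 𝐐 X := (h.l.pair h.r.toFF h.l.W_le h.r.W_le h.ncomm).1

theorem R_eq : ⁅𝐘 X, P⁆ = ⁅𝐖 X, 𝐖 X'⁆ := h.l.R_eq.trans (le_antisymm
  (comm_le_of_le_sup h.P_le (h.r.W_le.trans h.l.nP) h.l.Q_cent) (commutator_mono le_rfl h.r.W_le))

theorem R_symm : ⁅𝐘 X', P⁆ = ⁅𝐘 X, P⁆ := by rw [h.R_eq, h.symm.R_eq, commutator_comm]

theorem R_le' : ⁅𝐘 X, P⁆ ≤ 𝐖 X' := h.R_symm ▸ h.r.R_le

theorem W_inf_Q : 𝐖 X ⊓ 𝐐 X' = ⁅𝐘 X, P⁆ := by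
  obtain ⟨a, ha, e⟩ := SetLike.not_le_iff_exists.1 h.symm.not_W_le
  exact le_antisymm (fun y hy => h.l.W_inf.le ⟨hy.1, (h.l.nd' (h.r.W_le ha) (h.l.W_le_Y hy.1)
    (BG.mem_cent.1 (h.r.Q_cent hy.2) a ha)).resolve_left e⟩) (le_inf h.l.R_le (h.R_le'.trans h.r.W_le_Q))

theorem W_inf_C : 𝐖 X ⊓ 𝐂(𝐖 X') = ⁅𝐘 X, P⁆ := h.W_inf_Q ▸ le_antisymm
  (le_inf inf_le_left ((inf_le_inf_right _ h.l.W_le).trans h.r.inf_cent_W.le)) (inf_le_inf_left _ h.r.Q_cent)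

theorem der_le' : ⁅P, P⁆ ≤ 𝐐 X :=
  have n := h.l.syl.1.trans (le_normalizer_core 2 X)
  (commutator_mono le_rfl h.P_le).trans (comm_sup_le' (h.r.W_le.trans n) (le_norm _) (by
    rw [commutator_comm, ← h.r.R_eq, h.R_symm]; exact h.l.R_le.trans h.l.W_le_Q) (comm_le_right n))

theorem der_le : ⁅P, P⁆ ≤ 𝐐 X ⊓ 𝐐 X' := le_inf h.der_le' h.symm.der_le'

theorem res_eq (hx : x ∈ X) (e : X ≤ P ⊔ x ⋆ P) : 𝐑 (𝐖 X' ⊔ x ⋆ 𝐖 X') = 𝐑 X := by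
  obtain ⟨M, r⟩ := h.l.rk
  have a := conj_eq_of_norm (le_normalizer_core 2 X hx)
  have n : 𝐐 X ≤ 𝐍(𝐖 X') := r.core_le.trans h.r.nP
  have n' : 𝐐 X ≤ 𝐍(𝐖 X' ⊔ x ⋆ 𝐖 X') := norm_sup n (by rw [← a, ← conj_normalizer]; exact conj_mono x n)
  refine res_eq_of_le (r.res_le (e.trans (sup_le (h.P_le.trans (sup_le (le_norm_of_le le_sup_left) n'))
    ((conj_mono x h.P_le).trans ?_))) h.r.W_le h.symm.not_W_le le_sup_left)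
    (sup_le (h.r.W_le.trans r.le) (conj_le_of_mem (h.r.W_le.trans r.le) hx))
  rw [conj_sup, a]
  exact sup_le (le_norm_of_le le_sup_right) n'

theorem cent_E (hx : x ∈ X) (e : X ≤ P ⊔ x ⋆ P) : 𝐂(𝐖 X') ⊓ 𝐂(x ⋆ 𝐖 X') ≤ 𝐂(𝐑 X) :=
  (cent_sup _ _).ge.trans (cent_anti ((h.res_eq hx e).ge.trans (res_le 2 _)))

theorem spl (h1 : 𝐖 X ≤ U) (h2 : U ≤ 𝐂(𝐖 X)) (h3 : 𝐑 X ≤ 𝐍(U)) (h4 : U ≤ 𝐖 X ⊔ U ⊓ 𝐂(𝐖 X')) :
    U ≤ 𝐖 X ⊔ U ⊓ 𝐂(𝐑 X) ⊓ 𝐂(𝐖 X') := by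
  obtain ⟨x, hx, e⟩ := h.l.exists_gen
  have hx' := res_le 2 X hx
  have a := conj_mono x h4
  rw [conj_sup, conj_inf, conj_centralizer, conj_eq_of_norm (h3 hx), conj_eq_of_norm (h.l.nW' hx')] at a
  have c : x ⋆ ⁅𝐘 X, P⁆ ⊔ U ⊓ 𝐂(x ⋆ 𝐖 X') ≤ U ⊓ 𝐂(x ⋆ 𝐖 X') := sup_le (le_inf ((conj_le_of_norm h.l.R_le
    (h.l.nW' hx')).trans h1) (conj_centralizer x _ ▸ conj_mono x (h.W_inf_C.ge.trans inf_le_right))) le_rfl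
  refine h4.trans (sup_le le_sup_left ((le_inf (inf_le_left.trans (a.trans ((sup_le_sup_right
    (h.l.W_le_sup hx' e) _).trans (sup_assoc _ _ _).le))) le_rfl).trans ((modular_left (le_inf
      (h.l.R_le.trans h1) (h.W_inf_C.ge.trans inf_le_right)) (norm_of_cent ((c.trans inf_le_left).trans
        (h2.trans (cent_anti h.l.R_le))))).le.trans (sup_le_sup h.l.R_le fun y hy => ?_))))
  exact ⟨⟨hy.2.1, h.cent_E hx' e ⟨hy.2.2, (c hy.1).2⟩⟩, hy.2.2⟩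

theorem Q_le' : 𝐐 X ≤ 𝐖 X ⊔ 𝐐 X ⊓ 𝐂(𝐑 X) ⊓ 𝐂(𝐖 X') :=
  h.spl h.l.W_le_Q h.l.Q_cent ((res_le 2 X).trans (le_normalizer_core 2 X))
    ((le_inf (h.l.core_le.trans h.symm.P_le) le_rfl).trans ((modular_left h.l.W_le_Q
      (h.r.core_le.trans h.l.nP)).le.trans (sup_le_sup_left (le_inf inf_le_right
        (inf_le_left.trans h.r.Q_cent)) _)))

theorem Q_le : 𝐐 X ≤ 𝐖 X ⊔ P ⊓ 𝐂(𝐑 X) :=
  h.Q_le'.trans (sup_le_sup_left (inf_le_left.trans (inf_le_inf_right _ h.l.core_le)) _)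

theorem C_le : P ⊓ 𝐂(𝐑 X) ≤ 𝐐 X ⊓ 𝐐 X' := fun c hc => by
  have a := h.l.inf_cent_W.le ⟨hc.1, cent_anti h.l.W_le_E hc.2⟩
  obtain ⟨w, hw, d, hd, rfl⟩ := (mem_sup_left_norm ((inf_le_left.trans inf_le_left).trans
    (norm_of_cent h.l.Q_cent))).1 (h.Q_le' a)
  exact ⟨a, h.r.inf_cent_W.le ⟨hc.1, mul_mem (cent_anti (h.r.W_le.trans h.l.syl.1) (h.l.mem_D (h.l.W_le_Y hw)
    ((𝐂(𝐑 X).mul_mem_cancel_right hd.1.2).1 hc.2)).2) hd.2⟩⟩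

theorem comm_Q : ⁅𝐐 X, 𝐑 X⁆ = 𝐖 X := le_antisymm ((commutator_mono h.Q_le le_rfl).trans
  (comm_sup_le (le_norm _) (inf_le_left.trans h.l.nP) h.l.comm_W.le
    ((comm_eq_bot_iff.2 inf_le_right).le.trans bot_le))) (h.l.comm_W.ge.trans (commutator_mono h.l.W_le_Q le_rfl))

theorem D_le : 𝐐 X ⊓ 𝐐 X' ≤ ⁅𝐘 X, P⁆ ⊔ P ⊓ 𝐂(𝐑 X) := by
  rw [← h.W_inf_Q, ← modular_right (h.C_le.trans inf_le_right) (inf_le_left.trans h.l.nP)]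
  exact inf_le_inf_right _ h.Q_le

theorem comm_D : ⁅𝐐 X ⊓ 𝐐 X', P⁆ ≤ 𝐂(𝐑 X) := (commutator_mono h.D_le le_rfl).trans
  (comm_sup_le ((h.l.R_le.trans h.l.W_le).trans h.l.nC) (inf_le_left.trans h.l.nC)
    ((comm_eq_bot_iff.2 h.l.quad).le.trans bot_le)
    ((commutator_mono inf_le_right le_rfl).trans (comm_le_left h.l.nC)))

theorem inv_or (hx : x ∈ P) (e : x * x = 1) : x ∈ 𝐐 X ∨ x ∈ 𝐐 X' := by
  obtain ⟨b, hb, q, hq, rfl⟩ := (mem_sup_left_norm (h.l.core_le.trans h.r.nP)).1 (h.P_le hx)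
  obtain ⟨a, ha, c, hc, rfl⟩ := (mem_sup_left_norm (inf_le_left.trans h.l.nP)).1 (h.Q_le hq)
  have c1 := BG.mem_cent.1 (h.l.Q_cent (h.C_le hc).1) a ha
  have c2 := BG.mem_cent.1 (h.r.Q_cent (h.C_le hc).2) b hb
  have : ⁅b, a⁆ * (c * c) = 1 := by
    rw [commutatorElement_def, el_inv h.l.W_el ha, el_inv h.r.W_el hb, ← e]
    simp only [mul_assoc]
    rw [← mul_assoc c b, ← c2, mul_assoc, ← mul_assoc c a, ← c1, mul_assoc]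
  exact (h.l.nd (h.r.W_le hb) (h.l.W_le_Y ha) (eq_inv_of_mul_eq_one_left this ▸
    inv_mem (mul_mem hc.2 hc.2))).imp (mul_mem · hq) fun d =>
      mul_mem (h.r.W_le_Q hb) (mul_mem (h.r.cent d) (h.C_le hc).2)

theorem el_or (hU : IsElementaryAbelian 2 U) (h1 : U ≤ P) : U ≤ 𝐐 X ∨ U ≤ 𝐐 X' := by
  refine or_iff_not_imp_left.2 fun e v hv => by_contra fun e' => ?_
  obtain ⟨u, hu, e⟩ := SetLike.not_le_iff_exists.1 e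
  have o := fun x hx => h.inv_or (h1 hx) (el_sq (x := x) hU hx)
  exact (o _ (mul_mem hu hv)).elim (fun a => e (((𝐐 X).mul_mem_cancel_right ((o v hv).resolve_right e')).1 a))
    fun a => e' (((𝐐 X').mul_mem_cancel_left ((o u hu).resolve_left e)).1 a)

theorem exists_max : ∃ B ∈ maxIn 2 P, B ≤ 𝐐 X :=
  let ⟨B, hB⟩ := exists_mem_maxIn 2 P
  (em (B ≤ 𝐐 X)).elim (⟨B, hB, ·⟩) fun e => ⟨_, h.l.repl hB e, sup_le inf_le_right (oz_le _)⟩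

theorem max_Q : B ∈ maxIn 2 (𝐐 X) ↔ B ∈ maxIn 2 P ∧ B ≤ 𝐐 X :=
  let ⟨_, a, b⟩ := h.exists_max
  ⟨fun e => ⟨mem_maxIn_of_exists_le a b h.l.core_le e, e.1⟩, fun e => mem_maxIn_of_le e.1 e.2 h.l.core_le⟩

theorem Y_le_J : 𝐘 X ≤ 𝐉 (𝐐 X) :=
  let ⟨_, a, b⟩ := h.exists_max
  (h.l.Y_le_max a b).trans (le_thompsonSubgroupOf (h.max_Q.2 ⟨a, b⟩))

theorem J_le : 𝐉 (𝐐 X) ≤ 𝐉 P :=
  let ⟨_, a, b⟩ := h.exists_max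
  thompsonSubgroupOf_mono_of_exists a b h.l.core_le

theorem zj_P : zj 2 P = 𝛀 P := h.l.zj_eq

theorem J_le_sup : 𝐉 P ≤ 𝐖 X' ⊔ 𝐉 (𝐐 X) := thompsonSubgroupOf_le_iff.2 fun D hD => by
  by_cases e : D ≤ 𝐐 X
  · exact le_sup_of_le_right (le_thompsonSubgroupOf (h.max_Q.2 ⟨hD, e⟩))
  refine (le_inf (hD.1.trans h.P_le) le_rfl).trans ((modular_left (h.r.W_le_Y.trans (h.r.Y_le_max hD
    ((h.el_or hD.2.1 hD.1).resolve_left e))) (h.l.core_le.trans h.r.nP)).le.trans (sup_le_sup_left ?_ _))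
  exact (inf_comm _ _).le.trans (le_sup_left.trans (le_thompsonSubgroupOf (h.max_Q.2
    ⟨h.l.repl hD e, sup_le inf_le_right (oz_le _)⟩)))

theorem zj_Q : zj 2 (𝐐 X) = 𝐘 X := by
  refine le_antisymm (fun v hv => ?_) (omegaCenter_le_zj _)
  obtain ⟨a, ha, c, hc, rfl⟩ := (mem_sup_left_norm (inf_le_left.trans h.l.nP)).1 (h.Q_le (zj_le _ hv))
  have hc' := zpowers_le.2 (((zj 2 (𝐐 X)).mul_mem_cancel_left (omegaCenter_le_zj _ (h.l.W_le_Y ha))).1 hv)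
  exact mul_mem (h.l.W_le_Y ha) (h.l.oz_le (h.zj_P.le (le_zj (PGroup.elemAb_of_le (elemAb_zj _) hc')
    (zpowers_le.2 hc.1) ((le_cent_sup (zpowers_le.2 (h.r.Q_cent (h.C_le hc).2))
      (hc'.trans (zj_cent _))).trans (cent_anti h.J_le_sup)) (mem_zpowers c))))

theorem baum_Q : 𝐁 (𝐐 X) = 𝐐 X := by
  rw [baum, h.zj_Q]; exact inf_eq_left.2 (le_centralizer_oz _)

theorem gd_J : Gd 𝐍(𝐉 (𝐐 X)) ∧ X ≤ 𝐍(𝐉 (𝐐 X)) ∧ ncl (zpowers t) 𝐍(𝐉 (𝐐 X)) ≤ 𝐘 X :=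
  ⟨h.gd_norm ((thompsonSubgroupOf_le _).trans (h.l.core_le.trans h.le)) (h.Y_le_J h.t_mem.1),
    (le_normalizer_core 2 X).trans (normalizer_le_normalizer_thompsonSubgroupOf _),
    ncl_le (zpowers_le.2 h.t_mem.1) (h.zj_Q ▸ (normalizer_thompsonSubgroupOf_le _).trans
      (PGroup.normalizer_le_normalizer_omegaOne _))⟩

theorem res_J : 𝐑 (ncl (𝐉 P) 𝐍(𝐉 (𝐐 X))) = 𝐑 X := h.cover h.l h.le h.gd_J.1 h.gd_J.2.1 h.gd_J.2.2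

theorem norm_J : 𝐍(𝐉 (𝐐 X)) ≤ 𝐍(𝐑 X) := h.cover' h.l h.le h.gd_J.1 h.gd_J.2.1 h.gd_J.2.2

theorem partner_le (k : LS t S P X X'') : 𝐉 (𝐐 X') ≤ 𝐉 (𝐐 X'') := thompsonSubgroupOf_le_iff.2 fun _ hD =>
  have a := h.symm.max_Q.1 hD
  le_thompsonSubgroupOf (k.symm.max_Q.2 ⟨a.1, (k.el_or a.1.2.1 a.1.1).resolve_left fun e =>
    h.symm.nle ((h.r.Y_le_max a.1 a.2).trans e)⟩)

theorem partner (k : LP P X X'') : X'' = X' := by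
  have k' : LS t S P X X'' := ⟨h.toCt, k, h.le⟩
  have a := zj_eq (le_antisymm (h.partner_le k') (k'.partner_le h))
  rw [h.symm.zj_Q, k'.symm.zj_Q] at a
  exact h.eq_of_core k.r h.le h.r (le_antisymm
    ((le_inf k.r.core_le (a ▸ le_centralizer_oz _)).trans h.r.cent_le)
    ((le_inf h.r.core_le (a ▸ le_centralizer_oz _)).trans k.r.cent_le))

theorem norm_le : 𝐍(P) ⊓ 𝐍(𝐐 X) ≤ 𝐍(X) ⊓ 𝐍(X') := fun n hn => by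
  have a := h.norm_X h.l h.le hn
  have k := h.toLP.conj n
  rw [conj_eq_of_norm hn.1, conj_eq_of_norm a] at k
  exact ⟨a, norm_of_conj_eq (h.partner k)⟩

end LS

end Cfsg.Lib.B2C
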