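import Cfsg.Agent.Lib.B2C.LP1

/-!
Linked pairs inside `S`: `T = N_S(A)`, `F = C_S(A)`, `C = C_S(E)`.
-/

set_option autoImplicit false

namespace Cfsg.Lib.B2C

open Subgroup Cfsg.Lib.BG Cfsg.Lib.Transfer Cfsg.Lib.Loc Cfsg.Lib.PLocal Cfsg.Lib.CGT Cfsg.Lib.PU
open Cfsg.Lib.CS Cfsg.Lib.Root Cfsg.Lib.Core Cfsg.Lib.GC
open scoped commutatorElement
variable {G : Type*} [Group G] [Finite G] {B P P₁ S U U' X X' : Subgroup G} {t f g x : G}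

omit [Finite G] in
theorem conj_cm {a w : G} (h1 : ⁅f, w⁆ ∈ 𝐂(P)) (ha : f * a * f⁻¹ ∈ P) (hw : w ∈ P) :
    f * ⁅a, w⁆ * f⁻¹ = ⁅f * a * f⁻¹, w⁆ := by
  rw [conjugate_commutatorElement, show f * w * f⁻¹ = ⁅f, w⁆ * w by simp [commutatorElement_def], comm_mul_r,
    comm_eq_one.2 (BG.mem_cent.1 h1 _ ha), one_mul, ← BG.mem_cent.1 h1 _ (comm_mem_r (le_norm P ha) hw),
    mul_inv_cancel_right]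

namespace LS

variable (h : LS t S P X X')
include h

theorem baum_T0 : 𝐁 (S ⊓ 𝐍(𝐐 X)) = P := h.l.wc _ _ h.l.gd.norm (le_normalizer_core 2 X) h.pg.to_inf_left
  (le_inf h.le (h.l.syl.1.trans (le_normalizer_core 2 X))) inf_le_right

theorem T0_le : S ⊓ 𝐍(𝐐 X) ≤ 𝐍(X) ⊓ 𝐍(X') ⊓ 𝐍(P) :=
  have a : S ⊓ 𝐍(𝐐 X) ≤ 𝐍(P) := h.baum_T0 ▸ (le_norm _).trans (normalizer_le_baum _)
  le_inf ((le_inf a inf_le_right).trans h.norm_le) a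

theorem baum_F0 : 𝐁 (S ⊓ 𝐂(𝐖 X) ⊓ 𝐍(𝐐 X)) = 𝐐 X := by
  obtain ⟨D, a, b⟩ := h.exists_max
  have c : 𝐐 X ≤ S ⊓ 𝐂(𝐖 X) ⊓ 𝐍(𝐐 X) := le_inf (le_inf (h.l.core_le.trans h.le) h.l.Q_cent) (le_norm _)
  have d := zj_eq (thompsonSubgroupOf_eq_of_le (thompsonSubgroupOf_le_iff.2 fun D' hD => (le_inf
    (h.baum_T0 ▸ mem_maxIn_baum.2 (mem_maxIn_of_exists_le (mem_maxIn_baum.1 (h.baum_T0.symm ▸ a)) (b.trans c)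
      (inf_le_inf_right _ inf_le_left) hD)).1 (hD.1.trans (inf_le_left.trans inf_le_right))).trans
        h.l.inf_cent_W.le) c)
  rw [baum, ← d, h.zj_Q]
  refine le_antisymm (le_trans (le_inf ?_ (inf_le_left.trans (inf_le_left.trans inf_le_right)))
    h.l.inf_cent_W.le) (le_inf c (le_centralizer_oz _))
  refine (inf_le_inf (inf_le_inf_right _ inf_le_left) (cent_anti ?_)).trans h.baum_T0.le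
  rw [← zj_baum, h.baum_T0, h.zj_P]
  exact h.l.oz_le

theorem F_le_N : S ⊓ 𝐂(𝐖 X) ≤ 𝐍(𝐐 X) := by_contra fun e =>
  (PGroup.lt_inf_normalizer h.pg.to_inf_left (inf_lt_left.2 e)).not_ge (inf_le_inf_left _
    ((normalizer_le_baum (e := 2) _).trans (by rw [h.baum_F0])))

theorem baum_F : 𝐁 (S ⊓ 𝐂(𝐖 X)) = 𝐐 X := inf_eq_left.2 h.F_le_N ▸ h.baum_F0

theorem T_eq : S ⊓ 𝐍(𝐖 X) = S ⊓ 𝐍(𝐐 X) := le_antisymm (le_inf inf_le_left ((norm_inf (le_norm_of_le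
  inf_le_left) (norm_cent inf_le_right)).trans ((normalizer_le_baum (e := 2) _).trans (by rw [h.baum_F]))))
  (le_inf inf_le_left (h.T0_le.trans ((inf_le_left.trans inf_le_left).trans h.l.nW)))

theorem T_le : S ⊓ 𝐍(𝐖 X) ≤ 𝐍(X) ⊓ 𝐍(X') ⊓ 𝐍(P) := h.T_eq ▸ h.T0_le

theorem T_le' : S ⊓ 𝐍(𝐖 X) ≤ S ⊓ 𝐍(𝐖 X') :=
  le_inf inf_le_left (h.T_le.trans ((inf_le_left.trans inf_le_right).trans h.r.nW))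

theorem T_symm : S ⊓ 𝐍(𝐖 X') = S ⊓ 𝐍(𝐖 X) := le_antisymm h.symm.T_le' h.T_le'

theorem baum_T : 𝐁 (S ⊓ 𝐍(𝐖 X)) = P := h.T_eq ▸ h.baum_T0

theorem max_T : B ∈ maxIn 2 (S ⊓ 𝐍(𝐖 X)) ↔ B ∈ maxIn 2 P := by rw [← mem_maxIn_baum, h.baum_T]

theorem P_le_T : P ≤ S ⊓ 𝐍(𝐖 X) := le_inf h.le h.l.nP

theorem eq_of_W (k : LS t S P₁ U U') (e : 𝐖 U = 𝐖 X) : P₁ = P ∧ U = X ∧ U' = X' := by
  obtain rfl : P₁ = P := by rw [← k.baum_T, e, h.baum_T]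
  obtain rfl : U = X := k.eq_of_core k.l k.le h.l (by rw [← k.baum_F, e, h.baum_F])
  exact ⟨rfl, rfl, h.partner k.toLP⟩

theorem W_eq_of_res (k : LS t S P₁ U U') (e : 𝐑 U = 𝐑 X) : 𝐖 U = 𝐖 X := by
  rw [← k.comm_Q, ← comm_core_res, e, comm_core_res, h.comm_Q]

theorem not_W_le_R : ¬ 𝐖 X ≤ ⁅𝐘 X, P⁆ := fun e => h.not_W_le (e.trans (h.W_inf_Q.ge.trans inf_le_right))

theorem exists_fix (hf : f ∈ S ⊓ 𝐍(𝐖 X)) : ∃ a ∈ 𝐖 X, a ∉ ⁅𝐘 X, P⁆ ∧ ⁅f, a⁆ ∈ ⁅𝐘 X, P⁆ :=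
  have := pgroup_nil (h.pg.to_inf_left (K := 𝐍(𝐖 X)))
  let ⟨a, a1, a2, a3⟩ := PGroup.exists_mem_not_mem_commutator_mem (h.l.W_le.trans h.P_le_T) inf_le_right
    h.not_W_le_R
  ⟨a, a1, a2, commutatorElement_inv a f ▸ inv_mem (a3 f hf)⟩

theorem cm_mem {a w : G} (ha : a ∈ 𝐖 X) (hw : w ∈ 𝐖 X') : ⁅a, w⁆ ∈ ⁅𝐘 X, P⁆ :=
  h.R_eq ▸ commutator_mem_commutator ha hw

theorem fixA (hf : f ∈ S ⊓ 𝐍(𝐖 X)) (e : ∀ r ∈ ⁅𝐘 X, P⁆, ⁅f, r⁆ ∈ 𝐂(𝐑 X')) :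
    ∀ a ∈ 𝐖 X, ⁅f, a⁆ ∈ ⁅𝐘 X, P⁆ := fun a ha => by
  obtain ⟨w, w1, w2, w3⟩ := h.symm.exists_fix (h.T_le' hf)
  have m := comm_mem_r hf.2 ha
  refine h.W_inf_Q.le ⟨m, (h.r.nd (h.l.W_le m) (h.r.W_le_Y w1) ?_).resolve_right
    fun c => w2 (h.r.W_inf.le ⟨w1, c⟩)⟩
  have := e _ (h.cm_mem ha w1)
  rwa [commutatorElement_def f, conj_cm (h.r.quad w3) (h.l.W_le (conj_mem_of_norm hf.2 ha)) (h.r.W_le w1),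
    show f * a * f⁻¹ = ⁅f, a⁆ * a by simp [commutatorElement_def], comm_mul_l,
    BG.mem_cent.1 (h.l.quad (h.cm_mem ha w1)) _ (h.l.W_le m), mul_inv_cancel_right,
    ← BG.mem_cent.1 (h.l.quad (h.cm_mem m w1)) _ (h.l.W_le (h.l.R_le (h.cm_mem ha w1))) |>.symm,
    mul_inv_cancel_right] at this

theorem modC (hf : f ∈ S ⊓ 𝐍(𝐖 X)) (e : ∀ w ∈ 𝐖 X', ⁅f, w⁆ ∈ ⁅𝐘 X, P⁆) :
    ∀ r ∈ ⁅𝐘 X, P⁆, ⁅f, r⁆ ∈ 𝐂(𝐑 X') := fun r hr => by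
  obtain ⟨a, a1, a2, a3⟩ := h.exists_fix hf
  obtain ⟨w, hw, c⟩ := h.r.cover_line' (h.l.W_le a1) (fun c => a2 (h.W_inf_Q.le ⟨a1, c⟩))
    ⟨h.r.W_le_Y (h.R_le' hr), h.l.quad hr⟩
  have b : f * ⁅a, w⁆ * f⁻¹ = ⁅a, w⁆ := by
    rw [conj_cm (h.l.quad (e w hw)) (h.l.W_le (conj_mem_of_norm hf.2 a1)) (h.r.W_le hw),
      show f * a * f⁻¹ = ⁅f, a⁆ * a by simp [commutatorElement_def], comm_mul_l,
      comm_eq_one.2 (BG.mem_cent.1 (h.l.quad a3) w (h.r.W_le hw)).symm, mul_one,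
      BG.mem_cent.1 (h.l.quad (h.cm_mem a1 hw)) _ (h.l.W_le (h.l.R_le a3)), mul_inv_cancel_right]
  have := comm_mem_r (norm_cent le_rfl (h.T_le hf).1.2) c
  rw [comm_mul_r, commutatorElement_def f, b, mul_inv_cancel, one_mul, ← BG.mem_cent.1 (h.l.quad
    (h.cm_mem a1 hw)) _ (h.r.W_le (comm_mem_r (h.T_le' hf).2 (h.R_le' hr))), mul_inv_cancel_right] at this
  exact cent_anti (res_le 2 X') this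

theorem pt (hf : f ∈ S ⊓ 𝐍(𝐖 X)) (e : ∀ w ∈ 𝐖 X', ⁅f, w⁆ ∈ ⁅𝐘 X, P⁆) : f ∈ 𝐂(⁅𝐘 X, P⁆) := by
  refine le_cent1_iff.1 (h.R_eq.le.trans (commutator_le.2 fun a ha w hw => mem_cent1.2 ?_))
  have a3 := h.fixA hf (h.modC hf e) a ha
  rw [eq_comm, ← mul_inv_eq_iff_eq_mul, conj_cm (h.l.quad (e w hw)) (h.l.W_le (conj_mem_of_norm hf.2 ha))
    (h.r.W_le hw), show f * a * f⁻¹ = ⁅f, a⁆ * a by simp [commutatorElement_def], comm_mul_l,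
    comm_eq_one.2 (BG.mem_cent.1 (h.l.quad a3) w (h.r.W_le hw)).symm, mul_one,
    BG.mem_cent.1 (h.l.quad (h.cm_mem ha hw)) _ (h.l.W_le (h.l.R_le a3)), mul_inv_cancel_right]

theorem pt' (hf : f ∈ S ⊓ 𝐍(𝐖 X)) (e : ∀ r ∈ ⁅𝐘 X, P⁆, ⁅f, r⁆ ∈ 𝐂(𝐑 X')) :
    f ∈ 𝐂(⁅𝐘 X, P⁆) ∧ ∀ a ∈ 𝐖 X, ⁅f, a⁆ ∈ ⁅𝐘 X, P⁆ :=
  ⟨h.R_symm ▸ h.symm.pt (h.T_le' hf) (h.R_symm ▸ h.fixA hf e), h.fixA hf e⟩

theorem fixA' (hf : f ∈ S ⊓ 𝐍(𝐖 X)) (e : f ∈ 𝐂(⁅𝐘 X, P⁆)) : ∀ a ∈ 𝐖 X, ⁅f, a⁆ ∈ ⁅𝐘 X, P⁆ :=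
  h.fixA hf fun r hr => comm_eq_one.2 (BG.mem_cent.1 e r hr).symm ▸ one_mem _

theorem cm_t (hx : x ∈ X) : ⁅x, t⁆ ∈ 𝐖 X := commutator_comm X _ ▸ commutator_mem_commutator hx h.t_mem.1

theorem tt' (hf : f ∈ S ⊓ 𝐍(𝐖 X)) (e : f ∈ 𝐂(⁅𝐘 X, P⁆)) : ∃ a ∈ 𝐖 X', a * f ∈ 𝐂(𝐖 X) := by
  obtain ⟨x, hx, e1⟩ := h.l.exists_gen
  replace hx := res_le 2 X hx
  have nX := (h.T_le hf).1.1
  have v1 := conj_mem_of_norm (norm_Y 2 X hx) h.t_mem.1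
  have z1 := h.fixA' hf e _ (h.cm_t hx)
  obtain ⟨a, ha, c⟩ := h.l.cover_line h.r.W_le h.P_le v1 (fun c => h.l.rk.elim fun _ r => r.pmin.not_normal
    (e1.trans (by rw [conj_eq_of_norm (h.nl' h.l h.le hx c), sup_idem]; exact le_norm P)))
    ⟨h.l.W_le_Y (h.l.R_le z1), h.l.quad z1⟩
  have ft := mem_cent1.1 (h.cen hf.1)
  have aX := h.l.syl.1 (h.r.W_le ha)
  have yX := conj_mem_of_norm nX hx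
  have c1 : ⁅f, ⁅x, t⁆⁆ = f * x * f⁻¹ * t * (f * x * f⁻¹)⁻¹ * (x * t * x⁻¹)⁻¹ := by
    simp only [commutatorElement_def, mul_assoc, mul_inv_rev, inv_inv]
    rw [← mul_assoc t⁻¹ f⁻¹, ← mul_inv_rev, ft, mul_inv_rev, mul_assoc, inv_mul_cancel_left,
      ← mul_assoc t f, ← ft, mul_assoc, inv_mul_cancel_left]
  have c2 : a * x * t * (a * x)⁻¹ = f * x * f⁻¹ * t * (f * x * f⁻¹)⁻¹ := by
    have y1 := conj_mem_of_norm (norm_Y 2 X yX) h.t_mem.1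
    rw [c1, el_inv FF.Y_el v1, el_comm FF.Y_el y1 v1, commutatorElement_def, mul_assoc _ _⁻¹,
      inv_mul_cancel_left] at c
    have := h.l.inj h.t_mem.1 (mul_mem (inv_mem yX) (mul_mem aX hx)) (cent_anti (res_le 2 X) (by
      have := conj_mem_of_norm' (norm_cent (le_norm X) yX) c
      rw [commutatorElement_def, inv_eq_of_mul_eq_one_right h.t2]
      convert this using 1; group))
    calc _ = f * x * f⁻¹ * ((f * x * f⁻¹)⁻¹ * (a * x) * t) * (a * x)⁻¹ := by group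
      _ = _ := by rw [this]; group
  have hf' : a * f ∈ S ⊓ 𝐍(𝐖 X) := mul_mem (h.P_le_T (h.r.W_le ha)) hf
  have e' : a * f ∈ 𝐂(⁅𝐘 X, P⁆) := mul_mem (cent_symm h.l.quad (h.r.W_le ha)) e
  have nX' := (h.T_le hf').1.1
  have m : a * f ∈ x ⋆ S := (h.toHy.conj x).le (h.pg.to_le (zpowers_le.2 hf'.1)) (zpowers_le.2
    (mem_cent1.2 (by
      calc a * f * (x * t * x⁻¹) = a * (f * x * (t * f⁻¹) * (f * x * f⁻¹)⁻¹) * f := by group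
        _ = a * (f * x * f⁻¹ * t * (f * x * f⁻¹)⁻¹) * f := by
          rw [← (show Commute f t from ft).inv_left.eq, mul_assoc _ f⁻¹]
        _ = a * a * (x * t * x⁻¹) * (a⁻¹ * f) := by rw [← c2]; group
        _ = _ := by rw [el_sq h.r.W_el ha, el_inv h.r.W_el ha, one_mul]))) (mem_zpowers _)
  have n : a * f ∈ 𝐍(x ⋆ ⁅𝐘 X, P⁆) := by
    rw [conj_commutator, conj_eq_of_norm (norm_Y 2 X hx), ← h.inf_eq h.l h.le, conj_inf, conj_eq_of_mem hx]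
    exact zpowers_le.1 (norm_comm (zpowers_le.2 (h.l.nY nX'))
      (norm_inf (le_norm_of_le (zpowers_le.2 m)) (zpowers_le.2 nX')))
  refine ⟨a, ha, h.l.ts nX' fun w hw => cent_anti ((res_le 2 X).trans e1) ?_⟩
  rw [cent_sup]
  refine ⟨h.l.quad (h.fixA' hf' e' w hw), ?_⟩
  obtain ⟨r', hr', r, hr, rfl⟩ := (mem_sup_right_norm ((conj_le_of_norm (h.l.R_le.trans h.l.W_le_Y)
    (norm_Y 2 X hx)).trans (abelian_norm FF.Y_el.1 (h.l.R_le.trans h.l.W_le_Y)))).1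
    (((h.l.W_le_sup hx e1).trans (sup_comm _ _).le) hw)
  rw [comm_mul_r, comm_eq_one.2 (BG.mem_cent.1 e' r hr).symm, mul_one, mul_inv_cancel, mul_one]
  exact (conj_centralizer x P ▸ conj_mono x h.l.quad) (comm_mem_r n hr')

theorem tt (hf : f ∈ S ⊓ 𝐍(𝐖 X)) (e : f ∈ 𝐂(⁅𝐘 X, P⁆)) : ∃ a ∈ 𝐖 X, a * f ∈ 𝐂(𝐖 X') :=
  h.symm.tt' (h.T_le' hf) (h.R_symm ▸ e)

theorem norm_F : 𝐑 X ≤ 𝐍(S ⊓ 𝐂(𝐖 X)) := fun x hx => by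
  replace hx := res_le 2 X hx
  refine inv_mem_iff.1 (mem_normalizer_of_conj_le (le_conj_iff_inv_conj_le.1 ?_))
  rw [conj_inf, conj_centralizer, conj_eq_of_norm (h.l.nW' hx)]
  refine le_inf ((h.toHy.conj x).le h.pg.to_inf_left (le_cent1_iff.2 ?_)) inf_le_right
  rw [show x * t * x⁻¹ = ⁅x, t⁆ * t by simp [commutatorElement_def]]
  exact mul_mem (cent_symm inf_le_right (h.cm_t hx)) (le_cent1_iff.1 (inf_le_left.trans h.cen))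

theorem W_le_F : 𝐖 X ≤ S ⊓ 𝐂(𝐖 X) := le_inf h.W_le_S (abelian_cent h.l.W_el.1)

theorem F_le' : S ⊓ 𝐂(𝐖 X) ≤ 𝐖 X ⊔ S ⊓ 𝐂(𝐖 X) ⊓ 𝐂(𝐑 X) ⊓ 𝐂(𝐖 X') :=
  h.spl h.W_le_F inf_le_right h.norm_F fun f hf => by
    obtain ⟨a, ha, e⟩ := h.tt ⟨hf.1, cent_le_norm _ hf.2⟩ (cent_anti h.l.R_le hf.2)
    rw [← inv_mul_cancel_left a f]
    exact mul_mem_sup (inv_mem ha) ⟨mul_mem (h.W_le_F ha) hf, e⟩

theorem F_le : S ⊓ 𝐂(𝐖 X) ≤ 𝐖 X ⊔ S ⊓ 𝐂(𝐑 X) :=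
  h.F_le'.trans (sup_le_sup_left (inf_le_left.trans (inf_le_inf_right _ inf_le_left)) _)

theorem F_dec (hf : f ∈ S ⊓ 𝐂(𝐖 X)) :
    ∃ a ∈ 𝐖 X, ∃ c ∈ S ⊓ 𝐂(𝐖 X) ⊓ 𝐂(𝐑 X) ⊓ 𝐂(𝐖 X'), a * c = f :=
  (mem_sup_left_norm (norm_of_cent ((inf_le_left.trans inf_le_left).trans inf_le_right))).1 (h.F_le' hf)

theorem C_cent : S ⊓ 𝐂(𝐑 X) ≤ 𝐂(𝐖 X ⊔ 𝐖 X') := fun c hc => by
  have a := cent_anti h.l.W_le_E hc.2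
  obtain ⟨w, hw, d, hd, rfl⟩ := h.F_dec ⟨hc.1, a⟩
  rw [cent_sup]
  exact ⟨a, mul_mem (cent_anti (h.r.W_le.trans h.l.syl.1) (h.l.mem_D (h.l.W_le_Y hw)
    ((𝐂(𝐑 X).mul_mem_cancel_right hd.1.2).1 hc.2)).2) hd.2⟩

/-- `d` centralizes `E` and `A' ≰ Q`. -/
theorem not_mem_C {d : G} (hd : IsConj t d) : d ∉ S ⊓ 𝐂(𝐑 X) := fun e =>
  let ⟨x, hx, h0⟩ := SetLike.not_le_iff_exists.1 h.symm.not_W_le
  h.l.rk.elim fun _ r => h.not_cent hd r (h.r.core_le (h.r.W_le_Q hx)) h0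
    (BG.mem_cent.1 (h.C_cent e) x (mem_sup_right hx)) e.2

theorem N_dec (hf : f ∈ S ⊓ 𝐂(𝐖 X ⊔ 𝐖 X')) : ∃ r ∈ ⁅𝐘 X, P⁆, ∃ c ∈ S ⊓ 𝐂(𝐑 X), r * c = f := by
  obtain ⟨w, hw, d, hd, rfl⟩ := h.F_dec ⟨hf.1, cent_anti le_sup_left hf.2⟩
  exact ⟨w, h.W_inf_C.le ⟨hw, (𝐂(𝐖 X').mul_mem_cancel_right hd.2).1 (cent_anti le_sup_right hf.2)⟩,
    d, ⟨hd.1.1.1, hd.1.2⟩, rfl⟩

theorem cent_N : S ⊓ 𝐂(𝐖 X ⊔ 𝐖 X') ≤ ⁅𝐘 X, P⁆ ⊔ S ⊓ 𝐂(𝐑 X) := fun _ hf =>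
  let ⟨_, hr, _, hc, e⟩ := h.N_dec hf
  e ▸ mul_mem_sup hr hc

theorem exists_mul (hf : f ∈ S ⊓ 𝐂(𝐖 X ⊔ 𝐖 X')) : ∃ r ∈ ⁅𝐘 X, P⁆, r * f ∈ 𝐂(𝐑 X) := by
  obtain ⟨r, hr, c, hc, rfl⟩ := h.N_dec hf
  exact ⟨r, hr, by rw [← mul_assoc, el_sq h.l.W_el (h.l.R_le hr), one_mul]; exact hc.2⟩

theorem T_nE : S ⊓ 𝐍(𝐖 X) ≤ 𝐍(𝐑 X) :=
  h.T_le.trans ((inf_le_left.trans inf_le_left).trans (normalizer_le_normalizer_res 2 X))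

theorem der_N : ⁅S ⊓ 𝐂(𝐖 X ⊔ 𝐖 X'), S ⊓ 𝐂(𝐖 X ⊔ 𝐖 X')⁆ ≤ 𝐂(𝐑 X) :=
  (commutator_mono le_rfl h.cent_N).trans (comm_sup_le' ((h.l.R_le.trans h.l.W_le).trans h.l.nC)
    (le_norm_of_le inf_le_right) ((comm_eq_bot_iff.2 (inf_le_right.trans (cent_anti
      (le_sup_of_le_left h.l.R_le)))).le.trans bot_le) ((commutator_mono le_rfl inf_le_right).trans
    (comm_le_right (norm_cent ((inf_le_inf_left S (norm_of_cent (cent_anti le_sup_left))).trans h.T_nE)))))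

theorem T1_dec (hx : x ∈ S ⊓ 𝐍(𝐖 X) ⊓ 𝐂(⁅𝐘 X, P⁆)) :
    ∃ a ∈ 𝐖 X, ∃ b ∈ 𝐖 X', ∃ n ∈ S ⊓ 𝐂(𝐖 X ⊔ 𝐖 X'), a * (b * n) = x := by
  obtain ⟨a, ha, e⟩ := h.tt hx.1 hx.2
  have m := mul_mem (h.P_le_T (h.l.W_le ha)) hx.1
  obtain ⟨b, hb, e'⟩ := h.tt' m (mul_mem (cent_symm h.l.quad (h.l.W_le ha)) hx.2)
  refine ⟨_, inv_mem ha, _, inv_mem hb, b * (a * x), ⟨mul_mem (h.symm.W_le_S hb) m.1, ?_⟩, by group⟩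
  rw [cent_sup]
  exact ⟨e', mul_mem (abelian_cent h.r.W_el.1 hb) e⟩

theorem T1_le : S ⊓ 𝐍(𝐖 X) ⊓ 𝐂(⁅𝐘 X, P⁆) ≤ 𝐖 X ⊔ 𝐖 X' ⊔ S ⊓ 𝐂(𝐑 X) := fun x hx => by
  obtain ⟨a, ha, b, hb, n, hn, rfl⟩ := h.T1_dec hx
  exact mul_mem (mem_sup_left (mem_sup_left ha)) (mul_mem (mem_sup_left (mem_sup_right hb))
    (sup_le_sup_right (le_sup_of_le_left h.l.R_le) _ (h.cent_N hn)))

theorem inv_T1 (hx : x ∈ S ⊓ 𝐍(𝐖 X) ⊓ 𝐂(⁅𝐘 X, P⁆)) (e : x * x = 1) : x ∈ 𝐂(𝐖 X) ∨ x ∈ 𝐂(𝐖 X') := by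
  obtain ⟨a, ha, b, hb, n, hn, rfl⟩ := h.T1_dec hx
  obtain ⟨r, hr, c⟩ := h.exists_mul hn
  have c1 := BG.mem_cent.1 hn.2 a (mem_sup_left ha)
  have c2 := BG.mem_cent.1 hn.2 b (mem_sup_right hb)
  have c3 := mul_mem c c
  rw [mul_assoc, ← mul_assoc n, ← BG.mem_cent.1 hn.2 r (mem_sup_left (h.l.R_le hr)), mul_assoc, ← mul_assoc,
    el_sq h.l.W_el (h.l.R_le hr), one_mul] at c3
  have : ⁅b, a⁆⁻¹ * (n * n) = 1 := by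
    rw [commutatorElement_inv, commutatorElement_def, el_inv h.l.W_el ha, el_inv h.r.W_el hb, ← e]
    simp only [mul_assoc]
    rw [← mul_assoc n a, ← c1, mul_assoc, ← mul_assoc n b, ← c2, mul_assoc]
  exact (h.l.nd (h.r.W_le hb) (h.l.W_le_Y ha) (inv_mul_eq_one.1 this ▸ c3)).imp
    (fun d => mul_mem (abelian_cent h.l.W_el.1 ha) (mul_mem (h.l.Q_cent d) (cent_anti le_sup_left hn.2)))
    fun d => mul_mem (cent_anti h.r.W_le d) (mul_mem (abelian_cent h.r.W_el.1 hb) (cent_anti le_sup_right hn.2))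

theorem le_baum (hB : B ∈ maxIn 2 S) (h1 : B ≤ 𝐍(𝐖 X)) : P ≤ 𝐁 S ∧ ∀ D ∈ maxIn 2 P, D ∈ maxIn 2 S :=
  have a := le_inf hB.1 h1
  ⟨le_inf h.le (cent_symm ((zj_le_zj hB a inf_le_left).trans (by
    rw [← zj_baum, h.baum_T, h.zj_P]; exact oz_le_centralizer P))),
    fun _ hD => mem_maxIn_of_exists_le hB a inf_le_left (h.max_T.2 hD)⟩

end LS

end Cfsg.Lib.B2C
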