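import Cfsg.Agent.Lib.B2C.Two2
import Cfsg.Agent.Lib.B2C.Big

/-! Any two pairs; pairs and unlinked groups. -/

set_option autoImplicit false

namespace Cfsg.Lib.B2C

open Subgroup Cfsg.Lib.BG Cfsg.Lib.Transfer Cfsg.Lib.Loc Cfsg.Lib.PLocal Cfsg.Lib.CGT Cfsg.Lib.PU
open Cfsg.Lib.CS Cfsg.Lib.Root Cfsg.Lib.Core Cfsg.Lib.GC
open scoped commutatorElement
variable {G : Type*} [Group G] [Finite G] {P P₁ S U U' X X' : Subgroup G} {t : G}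

omit [Finite G] in
theorem der_cent (f : FF 2 P X) : ⁅P, P⁆ ≤ 𝐂(𝐘 X) :=
  have a := comm_eq_bot_iff.2 f.quad
  comm_eq_bot_iff.1 (commutator_commutator_eq_bot_of_rotate (commutator_comm (𝐘 X) P ▸ a) a)

namespace LS

variable (h : LS t S P X X')
include h

theorem le_B : P ≤ 𝐁 S ∧ ∀ D ∈ maxIn 2 P, D ∈ maxIn 2 S :=
  h.l.two_or.elim h.two_le h.big_le

theorem J_le_S : 𝐉 P ≤ 𝐉 S := thompsonSubgroupOf_le_iff.2 fun D hD => le_thompsonSubgroupOf (h.le_B.2 D hD)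

theorem max_B {D : Subgroup G} (hD : D ∈ maxIn 2 P) : D ∈ maxIn 2 (𝐁 S) :=
  mem_maxIn_of_le (h.le_B.2 D hD) (hD.1.trans h.le_B.1) inf_le_left

theorem mx₁ (hq : 4 ≤ (𝐐 X).relIndex P) (k : LS t S P₁ U U') (hq₁ : (𝐐 U).relIndex P₁ = 2) :
    𝐖 U ≤ 𝐂(𝐖 X) := by
  have j : 𝐉 P₁ ≤ P := k.J_le_S.trans ((h.j1 hq).le.trans (thompsonSubgroupOf_le _))
  have a := k.W_le_J.trans j
  obtain ⟨z, -, -, hz⟩ := k.exists_z hq₁
  have zq : zpowers z ≤ 𝐐 X := hz.ge.trans (k.R_eq.le.trans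
    ((commutator_mono a (k.symm.W_le_J.trans j)).trans h.der_le'))
  refine le_trans (fun b hb => by_contra fun n => ?_) h.l.Q_cent
  have r := k.rs hq₁ hz
  have hI := k.mem_rf hq₁ hz hb fun c => n (zq c)
  have key : ∀ x ∈ 𝐖 X, x ∉ 𝐂(P) → x * b * x⁻¹ = b * z := fun x hx m => by
    have c : b * ⁅x, b⁆ = ⁅x, b⁆ * b :=
      BG.mem_cent.1 (h.l.quad (commutator_mem_commutator (h.l.W_le_Y hx) (a hb))) b (a hb)
    refine (r.cm b hI _ (r.cj x (h.W_le_S hx) (BG.mem_cent.1 (h.l.Q_cent (zq (mem_zpowers z))) x hx) b hI)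
      ?_).resolve_left fun e => m ((h.l.nd' (a hb) (h.l.W_le_Y hx) (mul_inv_eq_iff_eq_mul.1 e).symm).resolve_left n)
    calc _ = b * ⁅x, b⁆ * b := by rw [commutatorElement_def]; group
      _ = _ := by rw [c, commutatorElement_def]; group
  have : I2 𝐂(P) (𝐖 X) := fun x hx y hy m m' =>
    (h.l.nd' (a hb) (h.l.W_le_Y (mul_mem (inv_mem hx) hy)) (by
      calc _ = x⁻¹ * (x * b * x⁻¹) * y := by group
        _ = _ := by rw [key x hx m, ← key y hy m']; group)).resolve_left n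
  have := this.relIndex_le
  rw [h.l.idx_P] at this
  omega

/-- `A₁, A₁' ≤ J(P₁) ≤ J(S) = J(P) ≤ P`, `z₁ ∈ [P, P] ≤ C(A)`.  If `a₁ ∈ A₁ ∖ R₁` is not in `Q`, then for `a ∈ A`
`a a₁ a⁻¹ ∈ a₁ R` commutes with `a₁`, so is `a₁` or `a₁ z₁` (`Rs.cj`, `Rs.cm`), but `C_A(a₁) = R` has index `q`. -/
theorem mx (hq : 4 ≤ (𝐐 X).relIndex P) (k : LS t S P₁ U U') (hq₁ : (𝐐 U).relIndex P₁ = 2) :
    𝐖 U ⊔ 𝐖 U' ≤ 𝐂(𝐖 X ⊔ 𝐖 X') := 
  have a := h.q_eq.ge.trans' hq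
  have b := k.q_eq.trans hq₁
  sup_le (le_cent_sup (h.mx₁ hq k hq₁) (h.symm.mx₁ a k hq₁))
    (le_cent_sup (h.mx₁ hq k.symm b) (h.symm.mx₁ a k.symm b))

theorem rel (k : LS t S P₁ U U') : Cm X X' U U' ∨
    (4 ≤ (𝐐 X).relIndex P ∧ 4 ≤ (𝐐 U).relIndex P₁ ∧ Sm X X' U U') ∨
    ((𝐐 X).relIndex P = 2 ∧ (𝐐 U).relIndex P₁ = 2 ∧ ⁅𝐘 U, P₁⁆ = ⁅𝐘 X, P⁆) := by
  rcases h.l.two_or with a | a <;> rcases k.l.two_or with b | b
  · exact (h.z1 a k b).elim (fun c => .inr (.inr ⟨a, b, c⟩)) fun c => .inl (h.cm k c)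
  · exact .inl (h.cm k (cent_symm (k.mx b h a)))
  · exact .inl (h.cm k (h.mx a k b))
  · exact (h.c1 k ((k.j1 b).symm.trans (h.j1 a))).elim (fun c => .inr (.inl ⟨a, b, c⟩)) fun c => .inl (h.cm k c)

/-- `S₀ = B(S)`.  `Y₁` normalizes each `B ∈ 𝒜(Q) ⊆ 𝒜(S₀)` (`[Y₁, B] ≤ ΩZ(S₀) ≤ B`), so `J(Q)`, `E`, `A`
(`norm_J`, `comm_Q`); `B` or `(B ⊓ Q₁) Y₁` lies in `𝒜(S₀)` and in `T`, contains `Y₁`; `max_T`. -/
theorem ul_le (u : Bk (𝐁 S) U) : 𝐘 U ≤ P := by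
  have n : 𝐘 U ≤ 𝐍(𝐉 (𝐐 X)) := fun y hy => mem_normalizer_of_conj_le (by
    rw [conj_le_iff_le_inv_conj, thompsonSubgroupOf_le_iff]
    intro B hB
    have b := h.max_B (h.max_Q.1 hB).1
    have c : ⁅B, 𝐘 U⁆ ≤ B := commutator_comm (𝐘 U) B ▸ (commutator_mono le_rfl b.1).trans
      ((le_inf (u.R_le.trans u.W_le_Y) u.quad).trans (u.oz_eq.ge.trans
        ((omegaCenter_le_zj _).trans (omegaOne_centerThompsonOf_le b))))
    rw [← conj_le_iff_le_inv_conj, conj_eq_of_norm (norm_of_comm_le c hy)]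
    exact le_thompsonSubgroupOf hB)
  have m : 𝐘 U ≤ S ⊓ 𝐍(𝐖 X) := le_inf (u.Y_le.trans inf_le_left) (h.l.W_eq ▸ norm_comm (h.zj_Q ▸ n.trans
    ((normalizer_thompsonSubgroupOf_le _).trans (PGroup.normalizer_le_normalizer_omegaOne _))) (n.trans h.norm_J))
  obtain ⟨B, hB⟩ := exists_mem_maxIn 2 P
  have b := h.max_B hB
  by_cases e : B ≤ 𝐐 U
  · exact (u.Y_le_max b e).trans hB.1
  · exact le_sup_right.trans (h.max_T.1 (mem_maxIn_of_le (mem_maxIn_of_exists_le (h.le_B.2 B hB) b.1 inf_le_left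
      (u.repl b e)) (sup_le (inf_le_left.trans (hB.1.trans (le_inf h.le h.l.nP))) m) inf_le_left)).1

/-- Suppose `[Y₁, A] ≠ 1`, so `Y₁ ≤ Q'`; show `S₀ ≤ N(A)`: then `S₀ = B(T) = P` and `U` is linked to `X`.
`q > 2`: `s ∈ S₀` normalizes `J(S) = J(P)` and centralizes `zj S = ΩZ(P) ≥ R`; `c1`, `cm`.
`q = 2`: `S₀ = A Q₁` (`FF.pair`), `1 ≠ R₁ = [Y₁, A] ≤ R = ⟨z⟩`, `z ∈ Z(S₀)`; `y₁ ∈ Y₁` with `[a, y₁] = z`, then
`[s a s⁻¹, y₁] = z`, `y₁` commutes with `a (s a s⁻¹)`; `Rs.pr`, `mem_W'`. -/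
theorem ul_cent (u : Ul (𝐁 S) U) : 𝐘 U ≤ 𝐂(𝐖 X) := by
  by_contra n
  have y1 := h.ul_le u.toBk
  have y2 : 𝐘 U ≤ 𝐂(𝐖 X') :=
    ((h.el_or (FF.Y_el (X := U)) y1).resolve_left fun e => n (e.trans h.l.Q_cent)).trans h.r.Q_cent
  suffices m : 𝐁 S ≤ 𝐍(𝐖 X) by
    have a : 𝐁 S ≤ S ⊓ 𝐍(𝐖 X) := le_inf inf_le_left m
    have b := zj_eq (thompsonSubgroupOf_eq_of_le ((thompson_le_baum S).trans a) inf_le_left)
    have c : P = 𝐁 S := le_antisymm h.le_B.1 (h.baum_T ▸ le_inf a (b ▸ inf_le_right))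
    exact n ((u.ul X (c ▸ h.l)).trans h.l.Q_cent)
  rcases h.l.two_or with hq | hq
  · obtain ⟨z, z1, z2, hz⟩ := h.exists_z hq
    obtain ⟨y, hy, m⟩ := SetLike.not_le_iff_exists.1 n
    have yq : y ∉ 𝐐 X := fun c => m (h.l.Q_cent c)
    have zc : z ∈ 𝐂(𝐁 S) := by
      obtain ⟨a, ha, e⟩ : ∃ a ∈ 𝐖 X, ¬ a * y = y * a := by simpa [BG.mem_cent] using m
      have c := (mem_zp z2).1 (hz.le (commutator_mem_commutator (h.l.W_le_Y ha) (y1 hy)))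
      rw [← c.resolve_left fun d => e (comm_eq_one.1 d), ← commutatorElement_inv]
      exact inv_mem (u.quad (commutator_mem_commutator hy (h.le_B.1 (h.l.W_le ha))))
    refine le_norm_iff.2 fun s hs a ha => ?_
    have sz := BG.mem_cent.1 zc s hs
    have zw := h.l.R_le (hz.ge (mem_zpowers z))
    by_cases e : a ∈ zpowers z
    · rw [← BG.mem_cent.1 (cent_zpowers z ▸ mem_cent1.2 sz : s ∈ 𝐂(zpowers z)) a e, mul_inv_cancel_right]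
      exact ha
    have r := h.rs hq hz
    have aI := h.mem_rf hq hz ha e
    by_contra d
    obtain ⟨ρ, h1, h2, h3⟩ := r.pr aI (r.cj s hs.1 sz a aI) (fun c => d (c.symm ▸ ha)) fun c => d (c.symm ▸ mul_mem ha zw)
    have h4 : a * (s * a * s⁻¹) ∈ 𝐂(𝐘 U) := by
      have := der_cent u.toFF (commutator_mem_commutator (h.le_B.1 (h.l.W_le ha)) hs)
      rwa [commutatorElement_def, el_inv h.l.W_el ha, mul_assoc, mul_assoc, ← mul_assoc s] at this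
    have h5 := (𝐂(𝐘 U).mul_mem_cancel_right (zpowers_le.2 h4 h1)).1 (cent_symm y2 (h.mem_W' hq hz ha e h2 h3))
    exact e (hz.le (h.l.W_inf.le ⟨ha, (h.l.nd' (y1 hy) (h.l.W_le_Y ha) (BG.mem_cent.1 h5 y hy)).resolve_left yq⟩))
  · intro s hs
    have k := h.conj_le (conj_le_of_mem h.le hs.1)
    have j := h.j1 hq
    rcases h.c1 k (by
      rw [← conj_thompsonSubgroupOf, ← j,
        conj_eq_of_norm (normalizer_le_normalizer_thompsonSubgroupOf S (le_norm S hs.1))]) with (c | c) | c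
    · exact norm_of_conj_eq ((conj_W s X).trans (h.W_eq_of_res k c.1))
    · refine (n ?_).elim
      rw [← h.symm.W_eq_of_res k c.1, ← conj_W, ← conj_centralizer,
        ← conj_eq_of_norm (norm_Y 2 U (u.syl.1 hs))] at y2
      exact conj_le_conj_iff.1 y2
    · refine (h.l.not_R_le ?_).elim
      have := h.R_cent k c
      rwa [← PU.conj_Y, ← conj_commutator, conj_eq_of_cent (cent_anti ((le_inf (h.l.R_le.trans h.l.W_le_Y)
        h.l.quad).trans (h.l.oz_eq.ge.trans (h.zj_P.ge.trans (zj_eq j).ge))) hs.2)] at this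

/-- `Y₁ ≤ D`.  `q = 2`: `t` and `x t x⁻¹` lie in `z C` (`cz`, `not_mem_C`), `FF.W_le_of`.  `q > 2`: `Hy.move` with `K = C_S(E)` (`not_mem_C`):
`R₁ = [Y₁, B₁] ≤ [D, P]` for `B₁ ∈ 𝒜(S₀)` outside `Q₁`; `e = x t x⁻¹ ∈ ΩZ(P) = zj S ≤ ΩZ(S₀)`, `y = e`. -/
theorem ul (u : Ul (𝐁 S) U) : 𝐖 U ≤ 𝐂(𝐑 X) := by
  have y1 := h.ul_le u.toBk
  have y2 : 𝐘 U ≤ S ⊓ 𝐂(𝐖 X ⊔ 𝐖 X') := le_inf (y1.trans h.le) (le_cent_sup (h.ul_cent u) (h.symm.ul_cent u))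
  have tY := h.mem_Y u.toBk inf_le_left
  rcases h.l.two_or with hq | hq
  · obtain ⟨z, -, -, hz⟩ := h.exists_z hq
    refine u.W_le_of tY.1 (h.toCt.t_not u.toBk inf_le_left) fun x hx => ?_
    have a := y2 (conj_mem_of_norm (norm_Y 2 U hx) tY.1)
    have := mul_mem (inv_mem (h.zt hq hz))
      ((h.cz hq hz a).resolve_left fun c => h.not_mem_C (isConj_iff.2 ⟨x, rfl⟩) ⟨a.1, c⟩)
    rwa [mul_inv_rev, mul_assoc, inv_mul_cancel_left, inv_eq_of_mul_eq_one_left h.t2] at this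
  have j := h.j1 hq
  obtain ⟨B, hB, b⟩ := h.toCt.exists_off u.toBk inf_le_left
  refine (h.toHy.move (K := S ⊓ 𝐂(𝐑 X)) u.toFF (fun d a b => h.not_mem_C b a)
    (le_inf (u.R_le.trans (u.W_le_Y.trans (y1.trans h.le))) ((comm_le_of_le_sup (u.le_sup_max hB b)
      (hB.1.trans (u.syl.1.trans (norm_Y 2 U))) (le_centralizer_oz _)).trans ((commutator_mono (le_inf
        ((le_inf y1 (h.ul_cent u)).trans h.l.inf_cent_W.le) ((le_inf y1 (h.symm.ul_cent u)).trans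
          h.r.inf_cent_W.le)) ((le_thompsonSubgroupOf hB).trans (((J_baum S).trans j).le.trans
            (thompsonSubgroupOf_le _)))).trans h.comm_D))) fun w hw n => ?_).trans inf_le_right
  have ws := y2 (u.W_le_Y hw)
  obtain ⟨r, hr, a⟩ := h.exists_mul ws
  have r1 := h.l.W_inf.ge hr
  obtain ⟨x, hx, c⟩ := h.toCt.cartan h.l h.le h.t_mem ⟨h.l.W_le_Y r1.1, r1.2⟩ h.t_not
    fun c => n ⟨ws.1, (mul_mem_cancel_left c).1 a⟩
  have e : x * t * x⁻¹ ∈ 𝐘 U ⊓ 𝐂(𝐁 S) := u.oz_eq.le (u.toBk.zj_eq.le (((zj_baum S).trans (zj_eq j)).ge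
    (h.zj_P.ge (h.l.oz_eq.ge ⟨conj_mem_of_norm (norm_Y 2 X (res_le 2 X hx.1)) h.t_mem.1,
      conj_mem_of_norm (norm_cent le_rfl hx.2) h.t_mem.2⟩))))
  have i : IsConj t (x * t * x⁻¹) := isConj_iff.2 ⟨x, rfl⟩
  refine ⟨_, i, _, e, h.not_mem_cent u.toBk i e.2, ?_, mul_mem (y2 e.1).1 ws.1, ?_⟩
  · rw [el_sq (FF.Y_el (X := U)) e.1]; exact one_mem _
  · have := mul_mem (cent_anti (res_le 2 X) c) a
    rwa [mul_assoc, ← mul_assoc r, el_sq h.l.W_el r1.1, one_mul] at this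

end LS

end Cfsg.Lib.B2C
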