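import Cfsg.Agent.Lib.B2C.CM

/-! Linked pairs with `q = 2`: `A` is a four-group, `R = ⟨z⟩`, `F = A × C`. -/

set_option autoImplicit false

namespace Cfsg.Lib.B2C

open Subgroup Cfsg.Lib.BG Cfsg.Lib.Transfer Cfsg.Lib.Loc Cfsg.Lib.PLocal Cfsg.Lib.CGT Cfsg.Lib.PU
open Cfsg.Lib.CS Cfsg.Lib.Root Cfsg.Lib.Core Cfsg.Lib.GC
open scoped commutatorElement
variable {G : Type*} [Group G] [Finite G] {P P₁ S U U' X X' : Subgroup G} {t a b s v z : G}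

/-- A class of odd length is not closed under a translation of order two. -/
theorem odd_class {H T : Subgroup G} {e c : G} (hT : SylIn 2 T H) (he : T ≤ 𝐂[e]) (c1 : c ≠ 1) (c2 : c * c = 1)
    (cl : ∀ x ∈ H, ∃ y ∈ H, y * e * y⁻¹ = x * e * x⁻¹ * c) : False := by
  letI : MulAction H G := MulAction.compHom G (MulAut.conj.comp H.subtype)
  have f := Set.toFinite (MulAction.orbit H e)
  have := Finset.sum_involution (s := f.toFinset) (f := fun _ => (1 : ZMod 2)) (fun x _ => x * c) (fun _ _ => rfl)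
    (fun x _ _ d => c1 (mul_eq_left.1 d)) (fun x hx => by
      obtain ⟨y, rfl⟩ := f.mem_toFinset.1 hx
      obtain ⟨w, hw, d⟩ := cl y y.2
      exact f.mem_toFinset.2 ⟨⟨w, hw⟩, d⟩) fun x _ => by rw [mul_assoc, c2, mul_one]
  rw [Finset.sum_const, nsmul_eq_mul, mul_one, ZMod.natCast_eq_zero_iff, ← Set.ncard_eq_toFinset_card _ f,
    ← MulAction.index_stabilizer] at this
  exact hT.2.2 (this.trans (index_dvd_of_le fun x hx => mul_inv_eq_iff_eq_mul.2 (mem_cent1.1 (he hx))))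

namespace LS

variable (h : LS t S P X X') (hq : (𝐐 X).relIndex P = 2)
include h hq

theorem i2_W : I2 𝐂(P) (𝐖 X) := i2_of_relIndex (h.l.idx_P.trans hq).le

theorem q' : (𝐐 X').relIndex P = 2 := h.q_eq.trans hq

/-- `|A : R| = |A' : R| = 2`, `R = [A, A']` is generated by one commutator. -/
theorem exists_z : ∃ z, z ≠ 1 ∧ z * z = 1 ∧ ⁅𝐘 X, P⁆ = zpowers z := by
  obtain ⟨a, ha, a1⟩ := SetLike.not_le_iff_exists.1 h.not_W_le_R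
  obtain ⟨b, hb, b1⟩ := SetLike.not_le_iff_exists.1 h.symm.not_W_le_R
  have m := h.cm_mem ha hb
  have e : ⁅𝐘 X, P⁆ = zpowers ⁅a, b⁆ := le_antisymm (h.R_eq.le.trans (commutator_le.2 fun x hx y hy => by
    by_cases c : x ∈ 𝐂(P)
    · exact comm_eq_one.2 (BG.mem_cent.1 c y (h.r.W_le hy)).symm ▸ one_mem _
    by_cases d : y ∈ 𝐂(P)
    · exact comm_eq_one.2 (BG.mem_cent.1 d x (h.l.W_le hx)) ▸ one_mem _
    have c := h.i2_W hq a ha x hx (fun k => a1 (h.l.W_inf.le ⟨ha, k⟩)) c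
    have d := h.symm.i2_W (h.q' hq) b hb y hy (fun k => b1 (h.r.W_inf.le ⟨hb, k⟩)) d
    rw [← mul_inv_cancel_left a x, comm_mul_l, comm_eq_one.2 (BG.mem_cent.1 c y (h.r.W_le hy)).symm, ← mul_inv_cancel_left b y,
      comm_mul_r, comm_eq_one.2 (BG.mem_cent.1 d a (h.l.W_le ha))]
    simp)) (zpowers_le.2 m)
  exact ⟨⁅a, b⁆, fun c => h.l.not_R_le (e.le.trans (zpowers_le.2 (c ▸ one_mem _))), el_sq h.l.W_el (h.l.R_le m), e⟩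

theorem card_R : Nat.card ↥⁅𝐘 X, P⁆ = 2 := by
  obtain ⟨z, a, c, e⟩ := h.exists_z hq
  rw [e, Nat.card_zpowers, orderOf_eq_prime (by rw [sq, c]) a]

theorem card_W : Nat.card ↥(𝐖 X) = 4 := by
  rw [card_eq_mul 𝐂(P), h.l.W_inf, h.card_R hq, h.l.idx_P, hq]

theorem W_inf_E : 𝐖 X ⊓ 𝐂(𝐑 X) = ⊥ := by
  have := card_eq_mul 𝐂(𝐑 X) (𝐖 X)
  rw [h.card_W hq, h.l.idx_E, hq] at this
  exact card_eq_one.1 (by omega)

theorem nE (ha : a ∈ 𝐖 X) (h1 : a ≠ 1) : a ∉ 𝐂(𝐑 X) := fun e => h1 (mem_bot.1 ((h.W_inf_E hq).le ⟨ha, e⟩))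

theorem T_le_C : S ⊓ 𝐍(𝐖 X) ≤ 𝐂(⁅𝐘 X, P⁆) := fun f hf => by
  obtain ⟨z, a, c, e⟩ := h.exists_z hq
  have := conj_mem_of_norm (norm_comm (h.T_le.trans ((inf_le_left.trans inf_le_left).trans h.l.nY))
    (h.T_le.trans inf_le_right) hf) (e.ge (mem_zpowers z))
  rw [e] at this ⊢
  rw [cent_zpowers, mem_cent1, ← mul_inv_eq_iff_eq_mul]
  exact ((mem_zp c).1 this).resolve_left fun d => a (by simpa using d)

/-- If `b v ∈ C(E)` with `1 ≠ b ∈ A` the `E`-conjugates of `v` are the `a (b v)`, `1 ≠ a ∈ A`. -/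
theorem orbit (hb : b ∈ 𝐖 X) (h1 : b ≠ 1) (hv : b * v ∈ 𝐂(𝐑 X)) (ha : a ∈ 𝐖 X) (h2 : a ≠ 1) :
    ∃ x ∈ 𝐑 X, x * v * x⁻¹ = a * (b * v) := by
  obtain ⟨x, hx, e⟩ := h.l.trans (h.l.W_le_Y hb) (h.l.W_le_Y ha) (h.nE hq hb h1) (h.nE hq ha h2)
  have := by_contra fun n => h.nE hq (mul_mem (conj_mem_of_norm (h.l.nW' (res_le 2 X hx)) hb) ha) n (cent_anti (res_le 2 X) e)
  rw [mul_eq_one_iff_eq_inv, el_inv h.l.W_el ha] at this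
  refine ⟨x, hx, ?_⟩
  rw [← this, mul_assoc (x * b), BG.mem_cent.1 hv _ (inv_mem hx), mul_assoc x b, ← mul_assoc b, ← mul_assoc b, el_sq h.l.W_el hb,
    one_mul, mul_assoc]

variable (hz : ⁅𝐘 X, P⁆ = zpowers z)
include hz

omit hq in
theorem z_mem : z ∈ 𝐖 X ⊓ 𝐂(P) := h.l.W_inf.ge (hz.ge (mem_zpowers z))

omit hq in
theorem z_sq : z * z = 1 := el_sq h.l.W_el (h.z_mem hz).1

omit hq in
theorem z_ne : z ≠ 1 := fun c => h.l.not_R_le (hz.le.trans (zpowers_le.2 (c ▸ one_mem _)))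

omit hq in
theorem z' : ⁅𝐘 X', P⁆ = zpowers z := h.R_symm.trans hz

theorem mem_W (ha : a ∈ 𝐖 X) (h1 : a ∉ zpowers z) : b ∈ 𝐖 X ↔ b = 1 ∨ b = z ∨ b = a ∨ b = a * z := by
  have m := (h.z_mem hz).1
  refine ⟨fun hb => ?_, by rintro (rfl | rfl | rfl | rfl); exacts [one_mem _, m, ha, mul_mem ha m]⟩
  have k : ∀ x ∈ 𝐖 X, x ∈ 𝐂(P) → x = 1 ∨ x = z := fun x hx e => (mem_zp (h.z_sq hz)).1 (hz.le (h.l.W_inf.le ⟨hx, e⟩))
  by_cases c : b ∈ 𝐂(P)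
  · exact (k b hb c).imp_right .inl
  exact .inr (.inr ((k _ (mul_mem (inv_mem ha) hb) (h.i2_W hq a ha b hb (fun e => h1 (hz.le (h.l.W_inf.le ⟨ha, e⟩))) c)).imp
    (fun e => (inv_mul_eq_one.1 e).symm) inv_mul_eq_iff_eq_mul.1))

theorem W_le_of {K : Subgroup G} (ha : a ∈ 𝐖 X) (h1 : a ∉ zpowers z) (c : z ∈ K) (d : a ∈ K) : 𝐖 X ≤ K := fun b hb => by
  rcases (h.mem_W hq hz ha h1).1 hb with rfl | rfl | rfl | rfl
  exacts [one_mem _, c, d, mul_mem d c]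

omit hq in
theorem exists_a : ∃ a ∈ 𝐖 X, a ∉ zpowers z := SetLike.not_le_iff_exists.1 (hz ▸ h.not_W_le_R)

omit [Finite G] h hq hz in
theorem mz_not (h1 : a ∉ zpowers z) : a * z ∉ zpowers z := fun e => h1 ((mul_mem_cancel_right (mem_zpowers z)).1 e)

theorem swap_a (ha : a ∈ 𝐖 X) (h1 : a ∉ zpowers z) (hb : b ∈ 𝐖 X') (h2 : b ∉ zpowers z) : b * a * b = a * z := by
  have m := conj_mem_of_norm (h.l.nP (h.r.W_le hb)) ha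
  have n : b * a * b⁻¹ ∉ zpowers z := fun e => h1 ((mem_normalizer_iff.1 (cent_le_norm _ (cent_zpowers z ▸
    le_cent1_iff.2 (h.z_mem hz).2 (h.r.W_le hb))) a).2 e)
  rcases (h.mem_W hq hz ha h1).1 m with e | e | e | e
  · exact absurd (e ▸ one_mem _) n
  · exact absurd (e ▸ mem_zpowers z) n
  · exact absurd (hz.le (h.W_inf_C.le ⟨ha, le_cent1_iff.1 (h.symm.W_le_of (h.q' hq) (h.z' hz) hb h2
      (cent_le_cent1 (h.l.W_le ha) (h.z_mem hz).2) (mem_cent1.2 (mul_inv_eq_iff_eq_mul.1 e)))⟩)) h1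
  · rwa [el_inv h.r.W_el hb] at e

theorem cz (hs : s ∈ S ⊓ 𝐂(𝐖 X ⊔ 𝐖 X')) : s ∈ 𝐂(𝐑 X) ∨ z * s ∈ 𝐂(𝐑 X) := by
  have := hq
  obtain ⟨r, hr, e⟩ := h.exists_mul hs
  rcases (mem_zp (h.z_sq hz)).1 (hz.le hr) with rfl | rfl
  exacts [.inl (one_mul s ▸ e), .inr e]

theorem zt : z * t ∈ 𝐂(𝐑 X) := (h.cz hq hz ⟨h.mem, cent_anti h.N_le_P h.t_mem.2⟩).resolve_left h.t_not

theorem mul_t (ha : a ∈ 𝐖 X) (h1 : a ∉ zpowers z) : IsConj t (a * t) := by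
  obtain ⟨x, -, e⟩ := h.orbit hq (h.z_mem hz).1 (h.z_ne hz) (h.zt hq hz) (mul_mem ha (h.z_mem hz).1)
    fun c => mz_not h1 (c ▸ one_mem _)
  exact isConj_iff.2 ⟨x, by rw [e, mul_assoc, ← mul_assoc z, h.z_sq hz, one_mul]⟩

omit hz in
theorem orb {d : G} (hd : IsConj t d) (m : d ∈ S ⊓ 𝐂(𝐖 X)) : ∃ b ∈ 𝐖 X, b * d ∈ 𝐂(𝐑 X) ∧
    ∀ a ∈ 𝐖 X, a * d ∉ 𝐂(𝐑 X) → ∃ x ∈ 𝐑 X, x * d * x⁻¹ = a * d := by
  obtain ⟨b, hb, c, hc, rfl⟩ := h.F_dec m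
  have e : b * (b * c) ∈ 𝐂(𝐑 X) := by rw [← mul_assoc, el_sq h.l.W_el hb, one_mul]; exact hc.1.2
  refine ⟨b, hb, e, fun a ha n => ?_⟩
  obtain ⟨x, hx, k⟩ := h.orbit hq hb (fun k => h.not_mem_C hd ⟨m.1, by rw [k, one_mul]; exact hc.1.2⟩) e (mul_mem ha hb)
    fun k => n (by rwa [eq_inv_of_mul_eq_one_left k, el_inv h.l.W_el hb])
  exact ⟨x, hx, by rw [k, mul_assoc, ← mul_assoc b, el_sq h.l.W_el hb, one_mul]⟩

omit hq hz in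
theorem comm_F : ⁅S ⊓ 𝐂(𝐖 X), 𝐑 X⁆ ≤ 𝐖 X := (commutator_mono h.F_le le_rfl).trans (comm_sup_le (le_norm _)
  (norm_of_cent (h.C_cent.trans (cent_anti le_sup_left))) h.l.comm_W.le ((comm_eq_bot_iff.2 inf_le_right).le.trans bot_le))

/-- Suppose `A₁ ≠ A`; `V = A A₁ = A ∪ A a₁`, `I = C_S(V)` is centric, and normalized by `E` and `E₁`
(`a₁ = α c`, `I = A C_C(c)` by `F_le`).  `H = ⟨E, E₁, I⟩`, `T ≥ I` Sylow in `H`, `T ≤ g ⋆ S`, `e = g t g⁻¹ ∈ Z(I)`.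
The `H`-class `O` of `e` has odd size, lies in `e V`, misses `C(E)` (`not_mem_C`), and meets each coset of `A` in `0` or `3`
elements (`orbit`).  So `O ⊆ e A`; but `O` contains `e b` for two generators `b` of `A₁`. -/
theorem c12 (k : LS t S P₁ U U') (hq₁ : (𝐐 U).relIndex P₁ = 2) (hz₁ : ⁅𝐘 U, P₁⁆ = zpowers z)
    (e : 𝐖 U ≤ 𝐂(𝐖 X)) : 𝐖 U = 𝐖 X := by
  refine eq_of_le_of_card_ge (by_contra fun n => ?_) (by rw [h.card_W hq, k.card_W hq₁])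
  obtain ⟨a₁, ha, n⟩ := SetLike.not_le_iff_exists.1 n
  have zm := (h.z_mem hz).1
  have n' : a₁ ∉ zpowers z := fun c => n (zpowers_le.2 zm c)
  have el : IsElementaryAbelian 2 (𝐖 X ⊔ 𝐖 U) := PGroup.elemAb_sup h.l.W_el k.l.W_el (cent_symm e)
  have vI : 𝐖 X ⊔ 𝐖 U ≤ S ⊓ 𝐂(𝐖 X ⊔ 𝐖 U) := le_inf (sup_le h.W_le_S k.W_le_S) (abelian_cent el.1)
  have f0 : S ⊓ 𝐂(𝐖 X ⊔ 𝐖 U) ≤ S ⊓ 𝐂(𝐖 X) := inf_le_inf_left S (cent_anti le_sup_left)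
  have f1 : S ⊓ 𝐂(𝐖 X ⊔ 𝐖 U) ≤ S ⊓ 𝐂(𝐖 U) := inf_le_inf_left S (cent_anti le_sup_right)
  have c0 : ⁅S ⊓ 𝐂(𝐖 X ⊔ 𝐖 U), 𝐑 X⁆ ≤ 𝐖 X ⊔ 𝐖 U := (commutator_mono f0 le_rfl).trans (h.comm_F.trans le_sup_left)
  have c1 : ⁅S ⊓ 𝐂(𝐖 X ⊔ 𝐖 U), 𝐑 U⁆ ≤ 𝐖 X ⊔ 𝐖 U := (commutator_mono f1 le_rfl).trans (k.comm_F.trans le_sup_right)
  obtain ⟨T, l, s⟩ := exists_sylIn_ge (M := 𝐑 X ⊔ 𝐑 U ⊔ S ⊓ 𝐂(𝐖 X ⊔ 𝐖 U)) h.pg.to_inf_left le_sup_right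
  obtain ⟨g, hg⟩ := h.exists_ge s.2.1
  have ec := le_cent1_iff.1 (hg.trans (h.toHy.conj g).cen)
  have eZ := cent_anti l ec
  have eI := h.centric inf_le_left (inf_le_inf_left S (cent_anti vI)) eZ
  have te : IsConj t (g * t * g⁻¹) := isConj_iff.2 ⟨g, rfl⟩
  generalize g * t * g⁻¹ = d at *
  have cm : ⁅zpowers d, 𝐑 X ⊔ 𝐑 U ⊔ S ⊓ 𝐂(𝐖 X ⊔ 𝐖 U)⁆ ≤ 𝐖 X ⊔ 𝐖 U :=
    comm_sup_le' (sup_le (norm_of_comm_le_of_le c0 vI) (norm_of_comm_le_of_le c1 vI)) (norm_of_cent inf_le_right)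
      (comm_sup_le' (norm_of_comm_le_of_le c0 vI) (norm_of_comm_le_of_le c1 vI)
        ((commutator_mono (zpowers_le.2 eI) le_rfl).trans c0) ((commutator_mono (zpowers_le.2 eI) le_rfl).trans c1))
      ((comm_eq_bot_iff.2 (zpowers_le.2 eZ)).le.trans bot_le)
  have cl : ∀ x ∈ 𝐑 X ⊔ 𝐑 U ⊔ S ⊓ 𝐂(𝐖 X ⊔ 𝐖 U), ∃ v ∈ 𝐖 X ⊔ 𝐖 U, x * d * x⁻¹ = v * d := fun x hx =>
    ⟨_, cm ((commutator_comm _ _).le (commutator_mem_commutator hx (mem_zpowers d))), by simp [commutatorElement_def]⟩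
  obtain ⟨α, hα, c, hc, e1⟩ := h.F_dec ⟨k.W_le_S ha, e ha⟩
  have cV : c ∈ 𝐖 X ⊔ 𝐖 U := (mul_mem_cancel_left (mem_sup_left hα)).1 (by rw [e1]; exact mem_sup_right ha)
  obtain ⟨a₂, h2, n2, y, hy, e2⟩ : ∃ a₂ ∈ 𝐖 U, a₂ ∉ zpowers z ∧ ∃ y ∈ 𝐑 U, y * d * y⁻¹ = a₂ * d := by
    obtain ⟨b, -, -, o⟩ := k.orb hq₁ te (f1 eI)
    by_cases m : a₁ * d ∈ 𝐂(𝐑 U)
    · refine ⟨_, mul_mem ha (k.z_mem hz₁).1, mz_not n', o _ (mul_mem ha (k.z_mem hz₁).1) fun m' => ?_⟩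
      rw [el_comm k.l.W_el ha (k.z_mem hz₁).1, mul_assoc] at m'
      exact k.nE hq₁ (k.z_mem hz₁).1 (h.z_ne hz) ((mul_mem_cancel_right m).1 m')
    exact ⟨_, ha, n', o _ ha m⟩
  refine odd_class s (le_cent1_iff.2 ec) (c := c) (fun m => n (by rwa [← e1, m, mul_one])) (el_sq el cV) fun x hx => ?_
  obtain ⟨v, hv, e3⟩ := cl x hx
  have m : v * c * d ∉ 𝐂(𝐑 X) := fun m => h.not_mem_C (te.trans (isConj_iff.2 ⟨x, e3⟩)) ⟨mul_mem (vI hv).1 eI.1, by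
    rw [← el_comm el cV hv, mul_assoc] at m; exact (𝐂(𝐑 X).mul_mem_cancel_left hc.1.2).1 m⟩
  rw [e3, mul_assoc v, ← BG.mem_cent.1 eI.2 c cV, ← mul_assoc]
  obtain ⟨a, ha, b, hb, e4⟩ := (mem_sup_right_norm (norm_of_cent (cent_symm e))).1 (mul_mem hv cV)
  rw [← e4] at m ⊢
  have o := fun {d'} (hd : IsConj t d') (m : d' ∈ S ⊓ 𝐂(𝐖 X)) => (h.orb hq hd m).choose_spec.2.2
  have q : ∀ r ∈ zpowers z, a * r ∈ 𝐖 X := fun r hr => mul_mem ha (zpowers_le.2 zm hr)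
  by_cases hb' : b ∈ zpowers z
  · obtain ⟨w, hw, e5⟩ := o te (f0 eI) _ (q b hb') m
    exact ⟨w, mem_sup_left (mem_sup_left hw), e5⟩
  have : b * a₂⁻¹ ∈ zpowers z := by
    rcases (k.mem_W hq₁ hz₁ h2 n2).1 hb with rfl | rfl | rfl | rfl
    exacts [absurd (one_mem _) hb', absurd (mem_zpowers _) hb', by simp,
      by rw [el_comm k.l.W_el h2 (k.z_mem hz₁).1, mul_inv_cancel_right]; exact mem_zpowers z]
  have e6 : a * b * d = a * (b * a₂⁻¹) * (a₂ * d) := by group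
  obtain ⟨w, hw, e5⟩ := o (te.trans (isConj_iff.2 ⟨y, e2⟩)) (f0 (mul_mem (vI (mem_sup_right h2)) eI)) _ (q _ this) (by rwa [← e6])
  exact ⟨w * y, mul_mem (mem_sup_left (mem_sup_left hw)) (mem_sup_left (mem_sup_right hy)), by rw [e6, ← e5, ← e2]; group⟩

theorem cent_W' (ha : a ∈ 𝐖 X) (h1 : a ∉ zpowers z) (hb : b ∈ S) (b2 : b * b = 1) (e : b * a * b = a * z) : b ∈ 𝐂(𝐖 X') := by
  have bi : b⁻¹ = b := inv_eq_of_mul_eq_one_left b2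
  have c : b * z = z * b := by
    have : a * z * (b * z * b) = a * z * z := by
      rw [mul_assoc a z z, h.z_sq hz, ← e, mul_one]
      calc _ = b * (a * (b * b) * z) * b := by group
        _ = a := by rw [b2, mul_one, ← e, ← mul_assoc, ← mul_assoc, b2, one_mul, mul_assoc, b2, mul_one]
    rw [← mul_inv_eq_iff_eq_mul, bi, mul_left_cancel this]
  have zm := (h.z_mem hz).1
  refine (h.inv_T1 ⟨⟨hb, mem_normalizer_of_conj_le (conj_le_iff_le_inv_conj.2 (h.W_le_of hq hz ha h1 ?_ ?_))⟩, ?_⟩ b2).resolve_left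
    fun d => h.z_ne hz ?_
  · rwa [Transfer.mem_conj, inv_inv, c, mul_inv_cancel_right]
  · rw [Transfer.mem_conj, inv_inv, bi, e]; exact mul_mem ha zm
  · rw [hz, cent_zpowers]; exact mem_cent1.2 c
  · rwa [← BG.mem_cent.1 d a ha, mul_assoc, b2, mul_right_inj, eq_comm] at e

/-- `cj`: `conj_le`; `cm`: `c12`; `pt`: `a' ∈ A' ∖ R`, `inv_T1`. -/
theorem rs : Rs S z (Rf t S z) where
  pg := h.pg
  z2 := h.z_sq hz
  z1 := have := hq; h.z_ne hz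
  zS := h.W_le_S (h.z_mem hz).1
  mem := fun _ ⟨_, _, _, k, _, _, a, _⟩ => k.W_le_S a
  sq := fun _ ⟨_, _, _, k, _, _, a, _⟩ => el_sq k.l.W_el a
  cz := fun _ ⟨_, _, _, k, _, e, a, _⟩ => el_comm k.l.W_el a (k.z_mem e).1
  ne := fun _ ⟨_, _, _, _, _, _, _, n⟩ => ⟨fun c => n (c ▸ one_mem _), fun c => n (c ▸ mem_zpowers _)⟩
  mz := fun _ ⟨_, _, _, k, q, e, a, n⟩ => ⟨_, _, _, k, q, e, mul_mem a (k.z_mem e).1, mz_not n⟩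
  cj := fun s hs c _ ⟨_, _, _, k, q, e, a, n⟩ => by
    have d : s ⋆ zpowers z = zpowers z := by rw [Transfer.conj_zpowers, c, mul_inv_cancel_right]
    exact ⟨_, _, _, k.conj_le (conj_le_of_mem k.le hs), by rw [← conj_core, relIndex_conj, q],
      by rw [← PU.conj_Y, ← conj_commutator, e, d], conj_W s _ ▸ conj_mem_conj.2 a, fun m => n (conj_mem_conj.1 (d.symm ▸ m))⟩
  cm := fun a ⟨_, _, _, k, q, e, ha, n⟩ b ⟨_, _, _, l, r, f, hb, m⟩ c => by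
    have := k.c12 q e l r f (l.W_le_of r f hb m (abelian_cent k.l.W_el.1 (k.z_mem e).1) (le_cent1_iff.1
      (k.W_le_of q e ha n (cent_le_cent1 (l.l.W_le hb) (l.z_mem f).2) (mem_cent1.2 c))))
    rcases (k.mem_W q e ha n).1 (this ▸ hb) with d | d | d
    exacts [absurd (d ▸ one_mem _) m, absurd (d ▸ mem_zpowers _) m, d]
  pt := fun a ⟨_, _, _, k, q, e, ha, n⟩ =>
    let ⟨a', h1, h2⟩ := k.symm.exists_a (k.z' e)
    ⟨a', ⟨_, _, _, k.symm, k.q' q, k.z' e, h1, h2⟩, k.swap_a q e ha n h1 h2, fun _ hb b2 c =>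
      (BG.mem_cent.1 (k.cent_W' q e ha n hb b2 c) a' h1).symm⟩

theorem mem_rf (ha : a ∈ 𝐖 X) (h1 : a ∉ zpowers z) : a ∈ Rf t S z := ⟨P, X, X', h, hq, hz, ha, h1⟩

theorem W_le_K {K : Subgroup G} (c : ∀ a ∈ 𝐖 X, a ∉ zpowers z → a ∈ K) : 𝐖 X ≤ K :=
  let ⟨a, ha, n⟩ := h.exists_a hz
  h.W_le_of hq hz ha n ((mul_mem_cancel_left (c a ha n)).1 (c _ (mul_mem ha (h.z_mem hz).1) (mz_not n))) (c a ha n)

theorem N_le : 𝐖 X ⊔ 𝐖 X' ≤ closure (Rf t S z) := sup_le (h.W_le_K hq hz fun _ a n => subset_closure (h.mem_rf hq hz a n))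
  (h.symm.W_le_K (h.q' hq) (h.z' hz) fun _ a n => subset_closure (h.symm.mem_rf (h.q' hq) (h.z' hz) a n))

/-- A reflection inverting `A` lies in `A'` (`inv_T1`, `Rs.cm`). -/
theorem mem_W' (ha : a ∈ 𝐖 X) (h1 : a ∉ zpowers z) (hb : b ∈ Rf t S z) (e : b * a * b = a * z) :
    b ∈ 𝐖 X' := by
  have r := h.rs hq hz
  obtain ⟨a', h2, h3⟩ := h.symm.exists_a (h.z' hz)
  rcases r.cm a' (h.symm.mem_rf (h.q' hq) (h.z' hz) h2 h3) b hb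
    (BG.mem_cent.1 (h.cent_W' hq hz ha h1 (r.mem b hb) (r.sq b hb) e) a' h2) with rfl | rfl
  exacts [h2, mul_mem h2 (h.symm.z_mem (h.z' hz)).1]

end LS

end Cfsg.Lib.B2C
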