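import Cfsg.Agent.Lib.B2C.Two1
import Cfsg.Agent.Lib.B2C.Dih

/-! Two linked pairs with `q = 2`. -/

set_option autoImplicit false

namespace Cfsg.Lib.B2C

open Subgroup Cfsg.Lib.BG Cfsg.Lib.Transfer Cfsg.Lib.Loc Cfsg.Lib.PLocal Cfsg.Lib.CGT Cfsg.Lib.PU
open Cfsg.Lib.CS Cfsg.Lib.Root Cfsg.Lib.Core Cfsg.Lib.GC
open scoped commutatorElement
variable {G : Type*} [Group G] [Finite G] {P P₁ S U U' X X' : Subgroup G} {t d : G}

omit [Finite G] in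
theorem le_of_diff {A R C : Subgroup G} (n : ¬ A ≤ R) (e : ∀ a ∈ A, a ∉ R → a ∈ C) : A ≤ C := fun r hr => by
  obtain ⟨a, ha, n⟩ := SetLike.not_le_iff_exists.1 n
  by_cases c : r ∈ R
  · exact (C.mul_mem_cancel_right (e a ha n)).1 (e _ (mul_mem hr ha) fun d => n ((R.mul_mem_cancel_left c).1 d))
  · exact e r hr c

omit [Finite G] in
theorem cent_of_norm_zp {g z : G} (h : z * z = 1) (n : g ∈ 𝐍(zpowers z)) : g * z = z * g :=
  ((mem_zp h).1 (conj_mem_of_norm n (mem_zpowers z))).elim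
    (fun e => by rw [conj_eq_one_iff.1 e, mul_one, one_mul]) mul_inv_eq_iff_eq_mul.1

omit [Finite G] in
theorem swap_cent {x : G} (h : d * d = 1) (c : x * (d * x * d⁻¹) = d * x * d⁻¹ * x) : x * (d * x * d⁻¹) ∈ 𝐂[d] := by
  rw [mem_cent1, inv_eq_of_mul_eq_one_left h] at *
  calc _ = x * d * x * (d * d) := by group
    _ = d * (d * x * d * x) := by rw [h, ← mul_assoc, ← mul_assoc, ← mul_assoc, h]; group
    _ = _ := by rw [c]

theorem Rs.norm {I : Set G} {z : G} (r : Rs S z I) : S ⊓ 𝐂[z] ≤ 𝐍(closure I) := fun s hs =>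
  mem_normalizer_of_conj_le (conj_le_iff_le_inv_conj.2 ((closure_le _).2 fun a ha => Transfer.mem_conj.2 (by
    simpa using subset_closure (r.cj s hs.1 (mem_cent1.1 hs.2) a ha))))

/-- The statement `z1` inside `M`. -/
def Z1 (t : G) (S M : Subgroup G) : Prop := ∀ P X X' P₁ U U' : Subgroup G, LS t S P X X' → (𝐐 X).relIndex P = 2 →
  LS t S P₁ U U' → (𝐐 U).relIndex P₁ = 2 → 𝐖 X ⊔ 𝐖 X' ≤ M → 𝐖 U ⊔ 𝐖 U' ≤ M →
    ⁅𝐘 U, P₁⁆ = ⁅𝐘 X, P⁆ ∨ 𝐖 U ⊔ 𝐖 U' ≤ 𝐂(𝐖 X ⊔ 𝐖 X')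

namespace LS

variable (h : LS t S P X X') (hq : (𝐐 X).relIndex P = 2)
include h hq

/-- `a' ∈ A' ∖ Q`, `x ∈ E ∖ N(P)`; `i = a' (d a' d⁻¹)` and `y = x (d x d⁻¹)` centralize `d`, so `i`, `y i y⁻¹` lie
in the Sylow subgroup of `d`; they act on `A` as `a'`, `x a' x⁻¹`, so these fix some `1 ≠ w ∈ A`; `FF.nd`,
`W_inf_E`, `Ct.nl`. -/
theorem d1 (hd : IsConj t d) (e : Cm X X' (d ⋆ X) (d ⋆ X')) : False := by
  obtain ⟨V, v⟩ := h.toHy.exists_of_isConj hd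
  obtain ⟨a, ha, n⟩ := SetLike.not_le_iff_exists.1 h.symm.not_W_le
  refine h.symm.not_W_le (h.r.W_le.trans (Loc.le_core h.l.syl.1 (h.l.le_sup.trans (sup_le (fun x hx => ?_)
    (le_norm P))) h.l.syl.2.1))
  have cj : ∀ {Y : Subgroup G} {y : G}, y ∈ 𝐑 Y → d * y * d⁻¹ ∈ 𝐑 (d ⋆ Y) := fun m =>
    conj_res (p := 2) d _ ▸ mem_map_of_mem _ m
  have aE := h.r.W_le_E ha
  have c1 := cent_anti h.l.W_le_E (e.c (cj aE))
  have c2 := cent_anti h.l.W_le_E (e.a (cj hx))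
  have c3 := BG.mem_cent.1 (e.d (cj aE)) a aE
  have i : a * (d * a * d⁻¹) ∈ V := v.mem_of_sq (by
    calc _ = a * (d * a * d⁻¹ * a) * (d * a * d⁻¹) := by group
      _ = a * a * (d * (a * a) * d⁻¹) := by rw [← c3]; group
      _ = 1 := by rw [el_sq h.r.W_el ha]; group) (mem_cent1.1 (swap_cent v.t2 c3))
  have iN := mul_mem (h.l.nP (h.r.W_le ha)) (cent_le_norm _ c1)
  have xN := h.l.nW' (res_le 2 X hx)
  have yN := mul_mem xN (cent_le_norm _ c2)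
  obtain ⟨w, ⟨hw, wc⟩, w1⟩ := exists_ne_one (PGroup.inf_centralizer_ne_bot (PGroup.elemAb_isPGroup h.l.W_el)
    (v.pg.to_le (sup_le (zpowers_le.2 i) (zpowers_le.2 (conj_mem_of_norm (v.nrm (swap_cent v.t2
      (BG.mem_cent.1 (e.a (cj hx)) x hx))) i))))
    (sup_le (zpowers_le.2 iN) (zpowers_le.2 (mul_mem (mul_mem yN iN) (inv_mem yN))))
    fun b => h.not_W_le (b.le.trans bot_le))
  have key : ∀ u ∈ 𝐖 X, a * (d * a * d⁻¹) * u = u * (a * (d * a * d⁻¹)) → u ∈ 𝐂(P) := fun u hu b =>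
    (h.l.nd' (h.r.W_le ha) (h.l.W_le_Y hu) (by
      rwa [mul_assoc, ← BG.mem_cent.1 c1 u hu, ← mul_assoc, ← mul_assoc u, mul_left_inj] at b)).resolve_left n
  have m := conj_mem_of_norm' xN hw
  refine (inv_mem_iff (x := x)).1 (h.toCt.nl h.l h.le ⟨h.l.W_le_Y hw, key w hw
    (BG.mem_cent.1 wc _ (mem_sup_left (mem_zpowers _)))⟩ (fun b => w1 (mem_bot.1 ((h.W_inf_E hq).le ⟨hw, b⟩)))
    (inv_mem (res_le 2 X hx)) ((inv_inv x).symm ▸ key _ m ?_))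
  have b := BG.mem_cent.1 wc _ (mem_sup_right (mem_zpowers _))
  have f := BG.mem_cent.1 c2 _ m
  generalize a * (d * a * d⁻¹) = j at b ⊢
  generalize d * x * d⁻¹ = y at b f
  calc _ = j * y⁻¹ * (y * (x⁻¹ * w * x)) := by group
    _ = (x * y)⁻¹ * (x * y * j * (x * y)⁻¹ * w) * (x * y) := by rw [← f]; group
    _ = y⁻¹ * (x⁻¹ * w * x * y) * j := by rw [b]; group
    _ = _ := by rw [f]; group

omit [Finite G] h in
theorem q_conj (g : G) : (𝐐 (g ⋆ X)).relIndex (g ⋆ P) = 2 := by rw [← conj_core, relIndex_conj, hq]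

theorem zA {Γ : Subgroup G} (hS : Γ ≤ S) (ih : ∀ M < Γ, Z1 t S M) (k : LS t S P₁ U U')
    (hq₁ : (𝐐 U).relIndex P₁ = 2) (h1 : 𝐖 X ≤ Γ) (h2 : 𝐖 U ⊔ 𝐖 U' ≤ Γ) : 𝐖 X ≤ 𝐂(⁅𝐘 U, P₁⁆) := by
  rcases h2.eq_or_lt with e | e
  · exact h1.trans (e.ge.trans (k.N_le_P.trans (cent_symm k.l.quad)))
  obtain ⟨M, m1, m2, m3, m4⟩ := PGroup.exists_card_mul_eq_of_lt (h.pg.to_le hS) e
  obtain ⟨z, -, -, hz⟩ := h.exists_z hq
  obtain ⟨y, -, y2, hy⟩ := k.exists_z hq₁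
  refine le_of_diff (hz ▸ h.not_W_le_R) fun a ha n => ?_
  have k' := k.conj_le (conj_le_of_mem k.le (h.W_le_S ha))
  rcases ih M (m2.lt_of_ne fun b => by have := Nat.card_pos (α := Γ); rw [b] at m4; omega) _ _ _ _ _ _ k hq₁ k'
    (q_conj hq₁ a) m1 (by rw [← conj_W, ← conj_W, ← conj_sup]; exact conj_le_of_norm m1 (m3 (h1 ha))) with b | b
  · rw [← PU.conj_Y, ← conj_commutator, hy] at b
    rw [hy, cent_zpowers]
    exact mem_cent1.2 (cent_of_norm_zp y2 (norm_of_conj_eq b))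
  · refine (k.d1 hq₁ (h.mul_t hq hz ha n) ?_).elim
    rw [← Transfer.conj_conj, ← Transfer.conj_conj, conj_eq_of_mem (k.l.syl.1 (k.l.Y_le k.t_mem.1)),
      conj_eq_of_mem (k.r.syl.1 (k.l.Y_le k.t_mem.1))]
    exact k.cm k' b

theorem zB {z u : G} (hz : ⁅𝐘 X, P⁆ = zpowers z) (h1 : u ∈ closure (Rf t S z)) (h2 : u ∈ 𝐂(𝐖 X ⊔ 𝐖 X'))
    (h3 : u ≠ 1) : u = z := by
  have hz' := h.R_symm.trans hz
  obtain ⟨a, ha, n⟩ := SetLike.not_le_iff_exists.1 (hz ▸ h.not_W_le_R)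
  obtain ⟨b, hb, m⟩ := SetLike.not_le_iff_exists.1 (hz' ▸ h.symm.not_W_le_R)
  have r := h.rs hq hz
  refine (r.cent (h.mem_rf hq hz ha n) (h.symm.mem_rf (h.q_eq.trans hq) hz' hb m) ?_ h1
    (BG.mem_cent.1 h2 a (mem_sup_left ha)).symm (BG.mem_cent.1 h2 b (mem_sup_right hb)).symm).resolve_left h3
  rw [← ((mem_zp r.z2).1 (hz.le (commutator_mem_commutator (h.l.W_le_Y ha) (h.r.W_le hb)))).resolve_left fun e =>
    (h.l.nd' (h.r.W_le hb) (h.l.W_le_Y ha) (comm_eq_one.1 e).symm).elim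
      (fun c => m (hz'.le (h.symm.W_inf_Q.le ⟨hb, c⟩))) fun c => n (hz.le (h.l.W_inf.le ⟨ha, c⟩)),
    commutatorElement_def, el_inv h.l.W_el ha, el_inv h.r.W_el hb, ← mul_assoc, ← mul_assoc, ← mul_assoc,
    el_sq h.l.W_el ha, one_mul]

omit h hq in
theorem z0 (t : G) (S Γ : Subgroup G) (hS : Γ ≤ S) : Z1 t S Γ := by
  induction Γ using WellFoundedLT.induction with
  | ind Γ ih =>
    intro P X X' P₁ U U' h hq k hq₁ h1 h2
    replace ih := fun M (m : M < Γ) => ih M m (m.le.trans hS)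
    obtain ⟨z, -, -, hz⟩ := h.exists_z hq
    obtain ⟨y, -, -, hy⟩ := k.exists_z hq₁
    have a : 𝐖 X ⊔ 𝐖 X' ≤ S ⊓ 𝐂[y] := le_inf (h1.trans hS) (by
      rw [← cent_zpowers, ← hy]
      exact sup_le (h.zA hq hS ih k hq₁ (le_sup_left.trans h1) h2)
        (h.symm.zA (h.q_eq.trans hq) hS ih k hq₁ (le_sup_right.trans h1) h2))
    have b : 𝐖 U ⊔ 𝐖 U' ≤ S ⊓ 𝐂[z] := le_inf (h2.trans hS) (by
      rw [← cent_zpowers, ← hz]
      exact sup_le (k.zA hq₁ hS ih h hq (le_sup_left.trans h2) h1)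
        (k.symm.zA (k.q_eq.trans hq₁) hS ih h hq (le_sup_right.trans h2) h1))
    refine or_iff_not_imp_right.2 fun n => ?_
    obtain ⟨u, ⟨hu, c⟩, u1⟩ := exists_ne_one (PGroup.inf_centralizer_ne_bot
      (h.pg.to_le ((comm_le_of_le h2 h1).trans hS)) (h.pg.to_le ((sup_le h2 h1).trans hS))
      (sup_le (left_norm_comm _ _) (right_norm_comm _ _)) fun e => n (comm_eq_bot_iff.1 e))
    rw [hz, hy, ← h.zB hq hz ((commutator_mono le_rfl (h.N_le hq hz)).trans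
        (comm_le_right (b.trans (h.rs hq hz).norm)) hu) (cent_anti le_sup_right c) u1,
      ← k.zB hq₁ hy ((commutator_mono (k.N_le hq₁ hy) le_rfl).trans
        (comm_le_left (a.trans (k.rs hq₁ hy).norm)) hu) (cent_anti le_sup_left c) u1]

/-- Induction on `|Γ|`, `Γ = ⟨N, N₁⟩`, `N = A A'`.  If `N ≤ N₁` then `R = [A, A'] ≤ [N₁, N₁] ≤ R₁`.  Otherwise
`ncl N₁ Γ < Γ`; for `a ∈ A ∖ R` the pairs `U`, `a ⋆ U = (a t) ⋆ U` have the same `R` by induction, `cm`, `d1`,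
`mul_t`.  So `N ≤ C(z₁)`, `N₁ ≤ C(z)`, `ncl N Γ ≤ closure (Rf z)`, `ncl N₁ Γ ≤ closure (Rf z₁)`; a nontrivial
central element of `Γ` in both is `z = z₁` (`Rs.cent`). -/
theorem z1 (k : LS t S P₁ U U') (hq₁ : (𝐐 U).relIndex P₁ = 2) :
    ⁅𝐘 U, P₁⁆ = ⁅𝐘 X, P⁆ ∨ 𝐖 U ⊔ 𝐖 U' ≤ 𝐂(𝐖 X ⊔ 𝐖 X') := 
  z0 t S S le_rfl _ _ _ _ _ _ h hq k hq₁ (h.N_le_P.trans h.le) (k.N_le_P.trans k.le)

/-- `B ∈ 𝒜(S)`, `B₁ = C_B(z)`, `C = C_{B₁}(closure (Rf z))` of index `≤ 2` (`Rs.i2`); `exists_big` with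
`K = C(A')` (`z1`, `W_inf_C`, `FF.idx_P`): `|D| ≥ 2^k |C| ≥ 2 k |C| ≥ |B|`, `D ≤ C_S(A)`; `le_baum`. -/
theorem two_le : P ≤ 𝐁 S ∧ ∀ D ∈ maxIn 2 P, D ∈ maxIn 2 S := by
  obtain ⟨z, -, z2, hz⟩ := h.exists_z hq
  obtain ⟨B, hB⟩ := exists_mem_maxIn 2 S
  have c := cent_anti (h.N_le hq hz)
  obtain ⟨D, d1, d2, d3, d4⟩ := exists_big (K := 𝐂(𝐖 X')) (B₁ := B ⊓ 𝐂[z]) (C := B ⊓ 𝐂[z] ⊓ 𝐂(closure (Rf t S z)))
    hB.2.1 h.l.W_el inf_le_left (fun b hb n => by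
      rcases h.z1 hq (h.conj_le (conj_le_of_mem h.le (hB.1 hb))) (q_conj hq b) with e | e
      · rw [← PU.conj_Y, ← conj_commutator, hz] at e
        exact (n ⟨hb, mem_cent1.2 (cent_of_norm_zp z2 (norm_of_conj_eq e))⟩).elim
      · rw [conj_W]
        exact le_inf (cent_mono e le_sup_left le_sup_right) (cent_mono e le_sup_left le_sup_left))
    (le_inf (le_inf (inf_le_left.trans inf_le_left) (inf_le_right.trans (c.trans (cent_anti le_sup_right))))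
      (inf_le_right.trans (c.trans (cent_anti le_sup_left))))
  refine h.le_baum (mem_maxIn_of_card_le hB (d3.trans (sup_le ((inf_le_left.trans inf_le_left).trans hB.1)
    (ncl_le h.W_le_S (hB.1.trans (le_norm S))))) d1 (le_trans ?_ d4)) (abelian_norm d1.1 d2)
  have i := ((h.rs hq hz).i2 (PGroup.elemAb_of_le hB.2.1 inf_le_left) (inf_le_inf_right _ hB.1)).card_le
  rw [← inf_relIndex_left, h.W_inf_C, ← h.l.W_inf, inf_relIndex_left, h.l.idx_P, hq,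
    ← BG.card_mul_relIndex (inf_le_left : B ⊓ 𝐂[z] ≤ B)]
  obtain ⟨m, e⟩ := Nat.exists_eq_succ_of_ne_zero (n := (B ⊓ 𝐂[z]).relIndex B) index_ne_zero_of_finite
  rw [e, pow_succ]
  have := Nat.lt_two_pow_self (n := m)
  nlinarith

end LS

end Cfsg.Lib.B2C
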